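import Mathlib
import Cfsg.Agent.H1.Small2

set_option autoImplicit false

namespace Cfsg.Agent.H20.CMax

open Subgroup

variable {G : Type*} [Group G]

/-- the hypothesis: centralizers of noncentral elements are maximal -/
def Hyp (G : Type*) [Group G] : Prop :=
  ∀ x : G, x ∉ center G → IsCoatom (centralizer ({x} : Set G))

theorem decomp [Finite G] (g : G) {p : ℕ} (hp : p.Prime) :
    ∃ a ∈ zpowers g, ∃ b ∈ zpowers g, g = a * b ∧ (∃ k : ℕ, a ^ (p ^ k) = 1) ∧
      (orderOf b).Coprime p := by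
  have hn : orderOf g ≠ 0 := (orderOf_pos g).ne'
  obtain ⟨e, m, hm, hnm⟩ := Nat.exists_eq_pow_mul_and_not_dvd hn p hp.ne_one
  have hpm : Nat.Coprime p m := (Nat.Prime.coprime_iff_not_dvd hp).2 hm
  have hcop : Nat.Coprime (p ^ e) m := Nat.Coprime.pow_left _ hpm
  have hb := Nat.gcd_eq_gcd_ab (p ^ e) m
  rw [hcop.gcd_eq_one] at hb
  refine ⟨g ^ ((m : ℤ) * Nat.gcdB (p ^ e) m), zpow_mem (mem_zpowers g) _,
    g ^ (((p ^ e : ℕ) : ℤ) * Nat.gcdA (p ^ e) m), zpow_mem (mem_zpowers g) _, ?_, ⟨e, ?_⟩, ?_⟩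
  · rw [← zpow_add, add_comm, ← hb]; simp
  · rw [← zpow_natCast, ← zpow_mul]
    have : (m : ℤ) * Nat.gcdB (p ^ e) m * ((p ^ e : ℕ) : ℤ) =
        ((orderOf g : ℕ) : ℤ) * Nat.gcdB (p ^ e) m := by rw [hnm]; push_cast; ring
    rw [this, zpow_mul, zpow_natCast, pow_orderOf_eq_one, one_zpow]
  · have h1 : (g ^ (((p ^ e : ℕ) : ℤ) * Nat.gcdA (p ^ e) m)) ^ m = 1 := by
      rw [← zpow_natCast, ← zpow_mul]
      have : ((p ^ e : ℕ) : ℤ) * Nat.gcdA (p ^ e) m * (m : ℤ) =
          ((orderOf g : ℕ) : ℤ) * Nat.gcdA (p ^ e) m := by rw [hnm]; push_cast; ring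
      rw [this, zpow_mul, zpow_natCast, pow_orderOf_eq_one, one_zpow]
    exact Nat.Coprime.coprime_dvd_left (orderOf_dvd_of_pow_eq_one h1) hpm.symm

theorem B0 (h : Hyp G) {x y : G} (hx : x ∉ center G) (hy : y ∉ center G)
    (hle : centralizer ({x} : Set G) ≤ centralizer ({y} : Set G)) :
    centralizer ({x} : Set G) = centralizer ({y} : Set G) := by
  by_contra hne
  exact (h y hy).1 ((h x hx).2 _ (lt_of_le_of_ne hle hne))

theorem C_le_of_mem_zpowers {x a : G} (ha : a ∈ zpowers x) :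
    centralizer ({x} : Set G) ≤ centralizer ({a} : Set G) := by
  intro g hg
  rw [mem_centralizer_singleton_iff] at hg ⊢
  obtain ⟨k, rfl⟩ := mem_zpowers_iff.1 ha
  exact (Commute.zpow_right (show Commute g x from hg) k).eq

theorem self_mem_C (x : G) : x ∈ centralizer ({x} : Set G) :=
  mem_centralizer_singleton_iff.2 rfl

theorem center_le_C (x : G) : center G ≤ centralizer ({x} : Set G) := by
  intro z hz
  rw [mem_centralizer_singleton_iff]
  exact ((mem_center_iff.1 hz) x).symm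

theorem L1 (h : Hyp G) {a b : G} (ha : a ∉ center G) (hb : b ∉ center G) (hab : Commute a b)
    (hcop : (orderOf a).Coprime (orderOf b)) :
    centralizer ({a} : Set G) = centralizer ({b} : Set G) := by
  have h1 : a ∈ zpowers (a * b) := by
    obtain ⟨m, hm⟩ := exists_pow_eq_self_of_coprime hcop.symm
    have e : a ^ orderOf b = (a * b) ^ orderOf b := by
      rw [hab.mul_pow, pow_orderOf_eq_one, mul_one]
    have e2 : ((a * b) ^ orderOf b) ^ m = a := by rw [← e, hm]
    have := pow_mem (pow_mem (mem_zpowers (a * b)) (orderOf b)) m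
    rwa [e2] at this
  have h2 : b ∈ zpowers (a * b) := by
    obtain ⟨m, hm⟩ := exists_pow_eq_self_of_coprime hcop
    have e : b ^ orderOf a = (a * b) ^ orderOf a := by
      rw [hab.mul_pow, pow_orderOf_eq_one, one_mul]
    have e2 : ((a * b) ^ orderOf a) ^ m = b := by rw [← e, hm]
    have := pow_mem (pow_mem (mem_zpowers (a * b)) (orderOf a)) m
    rwa [e2] at this
  have h3 : a * b ∉ center G := by
    intro h0
    exact ha ((zpowers_le.2 h0) h1)
  rw [← B0 h h3 ha (C_le_of_mem_zpowers h1), ← B0 h h3 hb (C_le_of_mem_zpowers h2)]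

theorem L4 (h : Hyp G) {a b : G} (ha : a ∉ center G) (hb : b ∈ centralizer ({a} : Set G))
    (hcop : (orderOf a).Coprime (orderOf b)) :
    ∀ m ∈ centralizer ({a} : Set G), m * b = b * m := by
  intro m hm
  by_cases hbZ : b ∈ center G
  · exact (mem_center_iff.1 hbZ) m
  · have := L1 h ha hbZ (mem_centralizer_singleton_iff.1 hb).symm hcop
    rw [this] at hm
    exact mem_centralizer_singleton_iff.1 hm

theorem L3 [Finite G] (Z : Subgroup G) : ∀ (n : ℕ) (x : G), orderOf x = n → x ∉ Z →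
    ∃ p : ℕ, p.Prime ∧ ∃ a ∈ zpowers x, a ∉ Z ∧ ∃ k : ℕ, a ^ (p ^ k) = 1 := by
  intro n
  induction n using Nat.strong_induction_on with
  | _ n ih =>
    intro x hxn hxZ
    have hx1 : orderOf x ≠ 1 := by
      intro h1
      rw [orderOf_eq_one_iff] at h1
      exact hxZ (h1 ▸ Z.one_mem)
    obtain ⟨p, hp, hpd⟩ := Nat.exists_prime_and_dvd hx1
    obtain ⟨a, ha, b, hb, hab, hk, hcop⟩ := decomp x hp
    by_cases haZ : a ∈ Z
    · have hbZ : b ∉ Z := fun h0 => hxZ (hab ▸ Z.mul_mem haZ h0)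
      have hdvd : orderOf b ∣ orderOf x := orderOf_dvd_of_mem_zpowers hb
      have hlt : orderOf b < n := by
        rw [← hxn]
        refine lt_of_le_of_ne (Nat.le_of_dvd (orderOf_pos x) hdvd) ?_
        intro he
        rw [he] at hcop
        exact hp.one_lt.ne' (Nat.Coprime.eq_one_of_dvd hcop.symm hpd)
      obtain ⟨r, hr, c, hc, hcZ, hck⟩ := ih _ hlt b rfl hbZ
      exact ⟨r, hr, c, (zpowers_le.2 hb) hc, hcZ, hck⟩
    · exact ⟨p, hp, a, ha, haZ, hk⟩

theorem coprime_of_pow {a b : G} {p : ℕ} (_hp : p.Prime) {k : ℕ} (ha : a ^ (p ^ k) = 1)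
    (hb : (orderOf b).Coprime p) : (orderOf a).Coprime (orderOf b) :=
  Nat.Coprime.coprime_dvd_left (orderOf_dvd_of_pow_eq_one ha) (Nat.Coprime.pow_left _ hb.symm)

/-- dichotomy -/
theorem dichotomy [Finite G] (h : Hyp G) {x : G} (hx : x ∉ center G) :
    (∀ a ∈ centralizer ({x} : Set G), ∀ b ∈ centralizer ({x} : Set G), a * b = b * a) ∨
    ∃ p : ℕ, p.Prime ∧ ∀ m ∈ centralizer ({x} : Set G), ∃ k : ℕ, m ^ (p ^ k) ∈ center G := by
  obtain ⟨p, hp, x', hx'z, hx'Z, k0, hk0⟩ := L3 (center G) _ x rfl hx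
  have hC : centralizer ({x} : Set G) = centralizer ({x'} : Set G) :=
    B0 h hx hx'Z (C_le_of_mem_zpowers hx'z)
  by_cases hcase : ∀ b ∈ centralizer ({x} : Set G), (orderOf b).Coprime p → b ∈ center G
  · right
    refine ⟨p, hp, fun m hm => ?_⟩
    obtain ⟨a, ha, b, hb, hab, ⟨k, hk⟩, hcop⟩ := decomp m hp
    have hbZ : b ∈ center G := hcase b ((zpowers_le.2 hm) hb) hcop
    refine ⟨k, ?_⟩
    have hc : Commute a b := (mem_center_iff.1 hbZ) a
    rw [hab, hc.mul_pow, hk, one_mul]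
    exact pow_mem hbZ _
  · left
    push Not at hcase
    obtain ⟨m, hm, hmcop, hmZ⟩ := hcase
    have hCm : centralizer ({x'} : Set G) = centralizer ({m} : Set G) := by
      apply L1 h hx'Z hmZ _ (coprime_of_pow hp hk0 hmcop)
      rw [hC] at hm
      exact (mem_centralizer_singleton_iff.1 hm).symm
    obtain ⟨r, hr, m', hm'z, hm'Z, k1, hk1⟩ := L3 (center G) _ m rfl hmZ
    have hCm' : centralizer ({m} : Set G) = centralizer ({m'} : Set G) :=
      B0 h hmZ hm'Z (C_le_of_mem_zpowers hm'z)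
    have hm'cop : (orderOf m').Coprime p :=
      Nat.Coprime.coprime_dvd_left (orderOf_dvd_of_mem_zpowers hm'z) hmcop
    have key : ∀ w ∈ centralizer ({x} : Set G), ∀ v ∈ centralizer ({x} : Set G),
        v * w = w * v := by
      intro w hw v hv
      obtain ⟨a, ha, b, hb, hab, ⟨k, hk⟩, hcop⟩ := decomp w hp
      have haM : a ∈ centralizer ({x} : Set G) := (zpowers_le.2 hw) ha
      have hbM : b ∈ centralizer ({x} : Set G) := (zpowers_le.2 hw) hb
      have e1 : v * b = b * v :=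
        L4 h hx'Z (hC ▸ hbM) (coprime_of_pow hp hk0 hcop) v (hC ▸ hv)
      have e2 : v * a = a * v :=
        L4 h hm'Z (hCm' ▸ hCm ▸ hC ▸ haM) (coprime_of_pow hp hk hm'cop).symm v
          (hCm' ▸ hCm ▸ hC ▸ hv)
      rw [hab, ← mul_assoc, e2, mul_assoc, e1, mul_assoc]
    exact fun a ha b hb => key b hb a ha

end Cfsg.Agent.H20.CMax
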