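import Mathlib
import Cfsg.Agent.H20.CMax1

set_option autoImplicit false
set_option linter.style.haveILetI false

namespace Cfsg.Agent.H20.CMax

open Subgroup

variable {G : Type*} [Group G]

/-- `H/Z(G)` is a `p`-group -/
def PZ (p : ℕ) (H : Subgroup G) : Prop := ∀ h ∈ H, ∃ k : ℕ, h ^ (p ^ k) ∈ center G

theorem PZ.quot_center {p : ℕ} {H : Subgroup G} (hH : PZ p H) :
    IsPGroup p (↥H ⧸ center ↥H) := by
  intro q
  induction q using QuotientGroup.induction_on with
  | H g =>
    obtain ⟨k, hk⟩ := hH g g.2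
    refine ⟨k, ?_⟩
    rw [← QuotientGroup.mk_pow, QuotientGroup.eq_one_iff, mem_center_iff]
    intro y
    apply Subtype.ext
    exact (mem_center_iff.1 hk) y

theorem PZ.nilpotent [Finite G] {p : ℕ} [Fact p.Prime] {H : Subgroup G} (hH : PZ p H) :
    Group.IsNilpotent ↥H :=
  Group.of_quotient_center_nilpotent (hH.quot_center.isNilpotent)

theorem PZ.map {p : ℕ} {H : Subgroup G} (hH : PZ p H) :
    IsPGroup p ↥(H.map (QuotientGroup.mk' (center G))) := by
  rintro ⟨q, g, hg, rfl⟩
  obtain ⟨k, hk⟩ := hH g hg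
  refine ⟨k, Subtype.ext ?_⟩
  show (QuotientGroup.mk' (center G) g) ^ (p ^ k) = 1
  rw [← map_pow]
  exact (QuotientGroup.eq_one_iff _).2 hk

theorem normal_of_PZ_top [Finite G] {p : ℕ} [Fact p.Prime]
    (hG : ∀ g : G, ∃ k : ℕ, g ^ (p ^ k) ∈ center G) (M : Subgroup G) (hM : IsCoatom M) :
    M.Normal := by
  have h1 : IsPGroup p (G ⧸ center G) := by
    intro q
    induction q using QuotientGroup.induction_on with
    | H g =>
      obtain ⟨k, hk⟩ := hG g
      exact ⟨k, by rw [← QuotientGroup.mk_pow, QuotientGroup.eq_one_iff]; exact hk⟩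
  haveI : Group.IsNilpotent G := Group.of_quotient_center_nilpotent h1.isNilpotent
  exact (Group.normalizerCondition_of_isNilpotent (G := G)).normal_of_coatom M hM

theorem le_normalizer_of_forall {K I : Subgroup G} (hK : ∀ m ∈ K, ∀ i ∈ I, m * i * m⁻¹ ∈ I) :
    K ≤ normalizer (I : Set G) := by
  intro m hm
  rw [mem_normalizer_iff]
  intro g
  constructor
  · exact hK m hm g
  · intro hg
    have := hK m⁻¹ (K.inv_mem hm) _ hg
    simpa [mul_assoc] using this

theorem exists_normalizer_of_nilpotent {H I : Subgroup G} [Group.IsNilpotent ↥H] (hIH : I ≤ H)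
    (hne : I ≠ H) : ∃ w ∈ H, w ∉ I ∧ w ∈ normalizer (I : Set G) := by
  have hlt : I.subgroupOf H < ⊤ := by
    rw [lt_top_iff_ne_top]
    intro h0
    rw [subgroupOf_eq_top] at h0
    exact hne (le_antisymm hIH h0)
  have h1 := Group.normalizerCondition_of_isNilpotent (G := ↥H) (I.subgroupOf H) hlt
  obtain ⟨w, hw, hwI⟩ := SetLike.exists_of_lt h1
  refine ⟨w, w.2, fun h0 => hwI (mem_subgroupOf.2 h0), ?_⟩
  rw [mem_normalizer_iff] at hw ⊢
  intro g
  constructor
  · intro hg
    exact mem_subgroupOf.1 ((hw ⟨g, hIH hg⟩).1 (mem_subgroupOf.2 hg))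
  · intro hg
    have hgH : g ∈ H := by
      have := H.mul_mem (H.mul_mem (H.inv_mem w.2) (hIH hg)) w.2
      simpa [mul_assoc] using this
    exact mem_subgroupOf.1 ((hw ⟨g, hgH⟩).2 (mem_subgroupOf.2 hg))

theorem exists_second_center {H : Type*} [Group H] [Finite H] {p : ℕ} [Fact p.Prime]
    (hp : IsPGroup p (H ⧸ center H)) (hna : ¬ ∀ a b : H, a * b = b * a) :
    ∃ u : H, u ∉ center H ∧ ∀ m : H, u⁻¹ * m⁻¹ * u * m ∈ center H := by
  haveI : Nontrivial (H ⧸ center H) := by
    by_contra h0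
    rw [not_nontrivial_iff_subsingleton] at h0
    apply hna
    intro a b
    have : (QuotientGroup.mk a : H ⧸ center H) = 1 := Subsingleton.elim _ _
    rw [QuotientGroup.eq_one_iff] at this
    exact ((mem_center_iff.1 this) b).symm
  haveI := hp.center_nontrivial
  obtain ⟨⟨ub, hub⟩, hne⟩ := exists_ne (1 : center (H ⧸ center H))
  induction ub using QuotientGroup.induction_on with
  | H u =>
    refine ⟨u, ?_, ?_⟩
    · intro h0
      apply hne
      apply Subtype.ext
      exact (QuotientGroup.eq_one_iff u).2 h0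
    · intro m
      have h1 := (mem_center_iff.1 hub) (QuotientGroup.mk m)
      rw [← QuotientGroup.mk_mul, ← QuotientGroup.mk_mul, QuotientGroup.eq] at h1
      simpa [mul_assoc] using h1

theorem pz_of_nonabelian [Finite G] (h : Hyp G) {p : ℕ} (hp : p.Prime) {v : G}
    (hv : v ∉ center G) (hvp : ∃ k : ℕ, v ^ (p ^ k) ∈ center G)
    (hna : ¬ ∀ a ∈ centralizer ({v} : Set G), ∀ b ∈ centralizer ({v} : Set G), a * b = b * a) :
    PZ p (centralizer ({v} : Set G)) := by
  rcases dichotomy h hv with h1 | ⟨r, hr, h1⟩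
  · exact absurd h1 hna
  · obtain ⟨j, hj⟩ := h1 v (self_mem_C v)
    obtain ⟨k, hk⟩ := hvp
    by_cases hrp : r = p
    · subst hrp; exact h1
    · exfalso
      apply hv
      have e1 : (QuotientGroup.mk v : G ⧸ center G) ^ (p ^ k) = 1 := by
        rw [← QuotientGroup.mk_pow, QuotientGroup.eq_one_iff]; exact hk
      have e2 : (QuotientGroup.mk v : G ⧸ center G) ^ (r ^ j) = 1 := by
        rw [← QuotientGroup.mk_pow, QuotientGroup.eq_one_iff]; exact hj
      have hc : Nat.Coprime (p ^ k) (r ^ j) :=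
        Nat.Coprime.pow _ _ ((Nat.coprime_primes hp hr).2 (Ne.symm hrp))
      have e3 : orderOf (QuotientGroup.mk v : G ⧸ center G) = 1 :=
        Nat.eq_one_of_dvd_coprimes hc (orderOf_dvd_of_pow_eq_one e1)
          (orderOf_dvd_of_pow_eq_one e2)
      rw [orderOf_eq_one_iff, QuotientGroup.eq_one_iff] at e3
      exact e3

theorem normal_of_nonabelian [Finite G] (h : Hyp G) {x : G} (hx : x ∉ center G)
    (hna : ¬ ∀ a ∈ centralizer ({x} : Set G), ∀ b ∈ centralizer ({x} : Set G), a * b = b * a) :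
    (centralizer ({x} : Set G)).Normal := by
  by_contra hnn
  set M := centralizer ({x} : Set G) with hMdef
  obtain ⟨p, hp, hPM⟩ := (dichotomy h hx).resolve_left hna
  haveI := Fact.mk hp
  have hPM' : PZ p M := hPM
  have hgen : ∀ v ∈ M, ∀ m ∈ M, v * m ≠ m * v → v ∉ center G ∧
      PZ p (centralizer ({v} : Set G)) ∧ centralizer ({v} : Set G) ≠ M := by
    intro v hv m hm hvm
    have hvZ : v ∉ center G := fun h0 => hvm ((mem_center_iff.1 h0) m).symm
    have hne : centralizer ({v} : Set G) ≠ M := by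
      intro h0
      rw [← h0] at hm
      exact hvm (mem_centralizer_singleton_iff.1 hm).symm
    refine ⟨hvZ, pz_of_nonabelian h hp hvZ (hPM v hv) ?_, hne⟩
    intro hab
    apply hne
    apply B0 h hvZ hx
    intro g hg
    rw [mem_centralizer_singleton_iff]
    have hxv : x ∈ centralizer ({v} : Set G) := by
      rw [mem_centralizer_singleton_iff]
      exact (mem_centralizer_singleton_iff.1 hv).symm
    exact hab g hg x hxv
  have hnaM : ¬ ∀ a b : ↥M, a * b = b * a := by
    intro h0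
    apply hna
    intro a ha b hb
    exact congrArg Subtype.val (h0 ⟨a, ha⟩ ⟨b, hb⟩)
  obtain ⟨u, huc, hu2⟩ := exists_second_center hPM'.quot_center hnaM
  have hex : ∃ v : ↥M, u * v ≠ v * u := by
    by_contra h0
    push Not at h0
    apply huc
    rw [mem_center_iff]
    intro g
    exact (h0 g).symm
  obtain ⟨v, huv⟩ := hex
  have huv' : (u : G) * v ≠ v * u := fun h0 => huv (Subtype.ext h0)
  obtain ⟨huZ, hPu, hCu⟩ := hgen u u.2 v v.2 huv'
  obtain ⟨hvZ, hPv, hCv⟩ := hgen v v.2 u u.2 (Ne.symm huv')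
  set I := M ⊓ centralizer ({(u : G)} : Set G) with hI
  have hMI : M ≤ normalizer (I : Set G) := by
    apply le_normalizer_of_forall
    intro m hm i hi
    refine ⟨M.mul_mem (M.mul_mem hm hi.1) (M.inv_mem hm), ?_⟩
    show m * i * m⁻¹ ∈ centralizer ({(u : G)} : Set G)
    rw [mem_centralizer_singleton_iff]
    have hc := hu2 ⟨m, hm⟩
    have hc' : ∀ j ∈ M, j * ((u : G)⁻¹ * m⁻¹ * u * m) = ((u : G)⁻¹ * m⁻¹ * u * m) * j := by
      intro j hj
      exact congrArg Subtype.val ((mem_center_iff.1 hc) ⟨j, hj⟩)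
    have e0 : i * (u : G) = u * i := mem_centralizer_singleton_iff.1 hi.2
    have e1 : m⁻¹ * (u : G) * m = u * ((u : G)⁻¹ * m⁻¹ * u * m) := by group
    have e2 : i * (m⁻¹ * (u : G) * m) = (m⁻¹ * (u : G) * m) * i := by
      rw [e1, ← mul_assoc, e0, mul_assoc, hc' i hi.1, ← mul_assoc]
    calc m * i * m⁻¹ * (u : G) = m * (i * (m⁻¹ * (u : G) * m)) * m⁻¹ := by group
      _ = m * ((m⁻¹ * (u : G) * m) * i) * m⁻¹ := by rw [e2]
      _ = (u : G) * (m * i * m⁻¹) := by group
  haveI : Group.IsNilpotent ↥(centralizer ({(u : G)} : Set G)) := hPu.nilpotent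
  have hIne : I ≠ centralizer ({(u : G)} : Set G) := by
    intro h0
    apply hCu
    apply B0 h huZ hx
    rw [← h0]; exact inf_le_left
  obtain ⟨w, hwC, hwI, hwN⟩ := exists_normalizer_of_nilpotent
    (inf_le_right : I ≤ centralizer ({(u : G)} : Set G)) hIne
  have hwM : w ∉ M := fun h0 => hwI ⟨h0, hwC⟩
  have hNtop : normalizer (I : Set G) = ⊤ :=
    (h x hx).2 _ (lt_of_le_of_ne hMI (fun e => hwM (by
      have e' : M = normalizer (I : Set G) := e
      rw [e']; exact hwN)))
  haveI hIn : I.Normal := normalizer_eq_top_iff.1 hNtop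
  rcases (h v hvZ).le_iff.1 (le_sup_right :
    centralizer ({(v : G)} : Set G) ≤ I ⊔ centralizer ({(v : G)} : Set G)) with h1 | h1
  · apply hnn
    apply normal_of_PZ_top (p := p) _ M (h x hx)
    have hPI : PZ p I := fun i hi => hPM i hi.1
    haveI : (I.map (QuotientGroup.mk' (center G))).Normal :=
      hIn.map _ (QuotientGroup.mk'_surjective _)
    have h2 := IsPGroup.to_sup_of_normal_left hPI.map hPv.map
    rw [← Subgroup.map_sup, h1] at h2
    intro g
    obtain ⟨k, hk⟩ := h2 ⟨QuotientGroup.mk' (center G) g, mem_map_of_mem _ (mem_top g)⟩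
    refine ⟨k, ?_⟩
    have h3 : (QuotientGroup.mk' (center G) g) ^ (p ^ k) = 1 := congrArg Subtype.val hk
    rw [← map_pow] at h3
    exact (QuotientGroup.eq_one_iff _).1 h3
  · have h2 : I ≤ centralizer ({(v : G)} : Set G) := h1 ▸ le_sup_left
    have hu : (u : G) ∈ I := ⟨u.2, self_mem_C _⟩
    exact huv' (mem_centralizer_singleton_iff.1 (h2 hu))

end Cfsg.Agent.H20.CMax
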