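import Mathlib
import Cfsg.Agent.H20.CMax2

set_option autoImplicit false
set_option linter.style.haveILetI false

namespace Cfsg.Agent.H20.CMax

open Subgroup

variable {G : Type*} [Group G]

/-- noncentral elements of the conjugates of `M` -/
def U (M : Subgroup G) : Set G := {w | ∃ k : G, ∃ m ∈ M, m ∉ center G ∧ w = k * m * k⁻¹}

theorem conj_mem_center_iff (k m : G) : k * m * k⁻¹ ∈ center G ↔ m ∈ center G := by
  constructor
  · intro h0
    have := (inferInstance : (center G).Normal).conj_mem _ h0 k⁻¹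
    simpa [mul_assoc] using this
  · intro h0
    exact (inferInstance : (center G).Normal).conj_mem _ h0 k

theorem card_diff [Finite G] (M : Subgroup G) (hZM : center G ≤ M) :
    Nat.card {z : ↥M // (z : G) ∉ center G} = Nat.card M - Nat.card (center G) := by
  classical
  haveI := Fintype.ofFinite ↥M
  rw [Nat.card_eq_fintype_card, Nat.card_eq_fintype_card (α := ↥M), Fintype.card_subtype_compl]
  congr 1
  rw [← Nat.card_eq_fintype_card]
  exact Nat.card_congr (subgroupOfEquivOfLe hZM).toEquiv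

theorem ncard_U [Finite G] (M : Subgroup G) (hZM : center G ≤ M)
    (hA : ∀ k : G, ∀ m ∈ M, m ∉ center G → k * m * k⁻¹ ∈ M → k ∈ M) :
    (U M).ncard = M.index * (Nat.card M - Nat.card (center G)) := by
  let φ : (G ⧸ M) × {z : ↥M // (z : G) ∉ center G} → G :=
    fun t => t.1.out * (t.2.1 : G) * t.1.out⁻¹
  have hinj : Function.Injective φ := by
    rintro ⟨q, z, hz⟩ ⟨q', z', hz'⟩ h
    have h' : q.out * (z : G) * q.out⁻¹ = q'.out * (z' : G) * q'.out⁻¹ := h
    have h1 : (q'.out⁻¹ * q.out) * (z : G) * (q'.out⁻¹ * q.out)⁻¹ = z' := by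
      calc (q'.out⁻¹ * q.out) * (z : G) * (q'.out⁻¹ * q.out)⁻¹
          = q'.out⁻¹ * (q.out * (z : G) * q.out⁻¹) * q'.out := by group
        _ = z' := by rw [h']; group
    have h2 : q'.out⁻¹ * q.out ∈ M := by
      apply hA _ (z : G) z.2 hz
      rw [h1]; exact z'.2
    have h3 : q' = q := by
      rw [← QuotientGroup.out_eq' q', ← QuotientGroup.out_eq' q]
      exact QuotientGroup.eq.mpr h2
    subst h3
    have h4 : (z : G) = z' := by
      have := mul_right_cancel h'
      exact mul_left_cancel this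
    have h5 : z = z' := Subtype.ext h4
    subst h5
    rfl
  have hrange : U M = Set.range φ := by
    ext x
    constructor
    · rintro ⟨k, z, hz, hz1, rfl⟩
      set q : G ⧸ M := QuotientGroup.mk k with hq
      have h1 : q.out⁻¹ * k ∈ M := by
        rw [← QuotientGroup.eq, QuotientGroup.out_eq']
      refine ⟨(q, ⟨⟨(q.out⁻¹ * k) * z * (q.out⁻¹ * k)⁻¹,
        M.mul_mem (M.mul_mem h1 hz) (M.inv_mem h1)⟩, ?_⟩), ?_⟩
      · intro h0
        exact hz1 ((conj_mem_center_iff _ _).1 h0)
      · show q.out * ((q.out⁻¹ * k) * z * (q.out⁻¹ * k)⁻¹) * q.out⁻¹ = k * z * k⁻¹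
        group
    · rintro ⟨⟨q, z, hz⟩, rfl⟩
      exact ⟨q.out, z, z.2, hz, rfl⟩
  rw [hrange, ← Nat.card_coe_set_eq, Nat.card_range_of_injective hinj, Nat.card_prod,
    card_diff M hZM, index_eq_card]

theorem conj_C (k g m : G) :
    k * g * k⁻¹ ∈ centralizer ({k * m * k⁻¹} : Set G) ↔ g ∈ centralizer ({m} : Set G) := by
  rw [mem_centralizer_singleton_iff, mem_centralizer_singleton_iff]
  constructor
  · intro e
    have : k * (g * m) * k⁻¹ = k * (m * g) * k⁻¹ := by
      calc k * (g * m) * k⁻¹ = k * g * k⁻¹ * (k * m * k⁻¹) := by group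
        _ = k * m * k⁻¹ * (k * g * k⁻¹) := e
        _ = _ := by group
    exact mul_left_cancel (mul_right_cancel this)
  · intro e
    calc k * g * k⁻¹ * (k * m * k⁻¹) = k * (g * m) * k⁻¹ := by group
      _ = k * (m * g) * k⁻¹ := by rw [e]
      _ = _ := by group

theorem abel [Finite G] (h : Hyp G) {x : G} (hx : x ∉ center G)
    (hnn : ¬ (centralizer ({x} : Set G)).Normal) :
    ∀ a ∈ centralizer ({x} : Set G), ∀ b ∈ centralizer ({x} : Set G), a * b = b * a := by
  by_contra h0
  exact hnn (normal_of_nonabelian h hx h0)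

theorem C_eq (h : Hyp G) {x : G} (hx : x ∉ center G)
    (hab : ∀ a ∈ centralizer ({x} : Set G), ∀ b ∈ centralizer ({x} : Set G), a * b = b * a)
    {m : G} (hm : m ∈ centralizer ({x} : Set G)) (hmZ : m ∉ center G) :
    centralizer ({m} : Set G) = centralizer ({x} : Set G) := by
  symm
  apply B0 h hx hmZ
  intro g hg
  rw [mem_centralizer_singleton_iff]
  exact hab g hg m hm

theorem normalizer_C (h : Hyp G) {x : G} (hx : x ∉ center G)
    (hnn : ¬ (centralizer ({x} : Set G)).Normal) :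
    normalizer ((centralizer ({x} : Set G) : Subgroup G) : Set G) = centralizer ({x} : Set G) := by
  rcases (h x hx).le_iff.1 (le_normalizer (H := centralizer ({x} : Set G))) with h1 | h1
  · exact absurd (normalizer_eq_top_iff.1 h1) hnn
  · exact h1

theorem malnormal [Finite G] (h : Hyp G) {x : G} (hx : x ∉ center G)
    (hnn : ¬ (centralizer ({x} : Set G)).Normal) :
    ∀ k : G, ∀ m ∈ centralizer ({x} : Set G), m ∉ center G →
      k * m * k⁻¹ ∈ centralizer ({x} : Set G) → k ∈ centralizer ({x} : Set G) := by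
  intro k m hm hmZ hk
  have hab := abel h hx hnn
  have e1 := C_eq h hx hab hm hmZ
  have e2 := C_eq h hx hab hk (fun h0 => hmZ ((conj_mem_center_iff _ _).1 h0))
  rw [← normalizer_C h hx hnn, mem_normalizer_iff]
  intro g
  rw [← e1, ← conj_C k g m, e2, e1]

theorem two_card_le [Finite G] {x : G} (hx : x ∉ center G) :
    2 * Nat.card (center G) ≤ Nat.card (centralizer ({x} : Set G)) := by
  obtain ⟨t, ht⟩ := card_dvd_of_le (center_le_C x)
  have hpos : 0 < Nat.card (centralizer ({x} : Set G)) := Nat.card_pos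
  have hZpos : 0 < Nat.card (center G) := Nat.card_pos
  have ht0 : t ≠ 0 := by
    rintro rfl
    omega
  have ht1 : t ≠ 1 := by
    rintro rfl
    have := eq_of_le_of_card_ge (center_le_C x) (by omega)
    exact hx (this ▸ self_mem_C x)
  have : 2 ≤ t := by omega
  rw [ht]
  nlinarith

theorem card_le_two_U [Finite G] (h : Hyp G) {x : G} (hx : x ∉ center G)
    (hnn : ¬ (centralizer ({x} : Set G)).Normal) :
    Nat.card G ≤ 2 * (U (centralizer ({x} : Set G))).ncard := by
  rw [ncard_U _ (center_le_C x) (malnormal h hx hnn),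
    ← index_mul_card (centralizer ({x} : Set G))]
  have := two_card_le hx
  have h2 : Nat.card (centralizer ({x} : Set G)) ≤
      2 * (Nat.card (centralizer ({x} : Set G)) - Nat.card (center G)) := by omega
  calc _ ≤ (centralizer ({x} : Set G)).index *
        (2 * (Nat.card (centralizer ({x} : Set G)) - Nat.card (center G))) :=
        Nat.mul_le_mul_left _ h2
    _ = _ := by ring

theorem not_mem_center_of_mem_U {M : Subgroup G} {w : G} (hw : w ∈ U M) : w ∉ center G := by
  obtain ⟨k, m, _, hmZ, rfl⟩ := hw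
  exact fun h0 => hmZ ((conj_mem_center_iff _ _).1 h0)

theorem cnt [Finite G] (h : Hyp G) {x₁ x₂ : G} (h₁ : x₁ ∉ center G) (h₂ : x₂ ∉ center G)
    (n₁ : ¬ (centralizer ({x₁} : Set G)).Normal) (n₂ : ¬ (centralizer ({x₂} : Set G)).Normal) :
    ∃ k : G, ∃ m ∈ centralizer ({x₁} : Set G), m ∉ center G ∧
      k * m * k⁻¹ ∈ centralizer ({x₂} : Set G) := by
  by_contra hcon
  push Not at hcon
  have hd : Disjoint (U (centralizer ({x₁} : Set G))) (U (centralizer ({x₂} : Set G))) := by
    rw [Set.disjoint_left]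
    rintro w ⟨k₁, m₁, hm₁, hmZ, rfl⟩ ⟨k₂, m₂, hm₂, _, e⟩
    apply hcon (k₂⁻¹ * k₁) m₁ hm₁ hmZ
    have : k₂⁻¹ * k₁ * m₁ * (k₂⁻¹ * k₁)⁻¹ = m₂ := by
      calc k₂⁻¹ * k₁ * m₁ * (k₂⁻¹ * k₁)⁻¹ = k₂⁻¹ * (k₁ * m₁ * k₁⁻¹) * k₂ := by group
        _ = m₂ := by rw [e]; group
    rw [this]; exact hm₂
  have hd2 : Disjoint (U (centralizer ({x₁} : Set G)) ∪ U (centralizer ({x₂} : Set G)))
      ({1} : Set G) := by
    rw [Set.disjoint_singleton_right]
    rintro (h0 | h0)
    · exact not_mem_center_of_mem_U h0 (one_mem _)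
    · exact not_mem_center_of_mem_U h0 (one_mem _)
  have e1 := Set.ncard_union_eq hd2 (Set.toFinite _) (Set.toFinite _)
  rw [Set.ncard_union_eq hd (Set.toFinite _) (Set.toFinite _), Set.ncard_singleton] at e1
  have e2 : (U (centralizer ({x₁} : Set G)) ∪ U (centralizer ({x₂} : Set G)) ∪
      ({1} : Set G)).ncard ≤ Nat.card G := by
    rw [← Set.ncard_univ]
    exact Set.ncard_le_ncard (Set.subset_univ _) (Set.toFinite _)
  have e3 := card_le_two_U h h₁ n₁
  have e4 := card_le_two_U h h₂ n₂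
  omega

/-- two non-normal centralizers are conjugate -/
theorem cnt' [Finite G] (h : Hyp G) {x₁ x₂ : G} (h₁ : x₁ ∉ center G) (h₂ : x₂ ∉ center G)
    (n₁ : ¬ (centralizer ({x₁} : Set G)).Normal) (n₂ : ¬ (centralizer ({x₂} : Set G)).Normal) :
    ∃ k : G, ∀ g : G, g ∈ centralizer ({x₁} : Set G) ↔
      k * g * k⁻¹ ∈ centralizer ({x₂} : Set G) := by
  obtain ⟨k, m, hm, hmZ, hk⟩ := cnt h h₁ h₂ n₁ n₂
  refine ⟨k, fun g => ?_⟩
  have e1 := C_eq h h₁ (abel h h₁ n₁) hm hmZ
  have e2 := C_eq h h₂ (abel h h₂ n₂) hk (fun h0 => hmZ ((conj_mem_center_iff _ _).1 h0))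
  rw [← e1, ← conj_C k g m, e2]

theorem exists_outside [Finite G] (h : Hyp G) {x : G} (hx : x ∉ center G)
    (hnn : ¬ (centralizer ({x} : Set G)).Normal) :
    ∃ y : G, y ∉ center G ∧ ∀ k : G, k * y * k⁻¹ ∉ centralizer ({x} : Set G) := by
  have hZc : ((center G : Subgroup G) : Set G).ncard = Nat.card (center G) :=
    (Nat.card_coe_set_eq _).symm
  have e1 : (U (centralizer ({x} : Set G)) ∪ ((center G : Subgroup G) : Set G)).ncard <
      Nat.card G := by
    refine lt_of_le_of_lt (Set.ncard_union_le _ _) ?_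
    rw [hZc, ncard_U _ (center_le_C x) (malnormal h hx hnn),
      ← index_mul_card (centralizer ({x} : Set G))]
    have h1 := two_card_le hx
    have hZpos : 0 < Nat.card (center G) := Nat.card_pos
    have hi : 2 ≤ (centralizer ({x} : Set G)).index := by
      have h0 : (centralizer ({x} : Set G)).index ≠ 0 := index_ne_zero_of_finite
      have h1 : (centralizer ({x} : Set G)).index ≠ 1 := fun h1 =>
        (h x hx).1 (index_eq_one.1 h1)
      omega
    obtain ⟨d, hd⟩ : ∃ d, Nat.card (centralizer ({x} : Set G)) = Nat.card (center G) + d :=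
      ⟨_, (Nat.add_sub_cancel' (by omega)).symm⟩
    rw [hd, Nat.add_sub_cancel_left]
    nlinarith
  have : ∃ y : G, y ∉ U (centralizer ({x} : Set G)) ∪ ((center G : Subgroup G) : Set G) := by
    by_contra h0
    push Not at h0
    rw [Set.eq_univ_of_forall h0, Set.ncard_univ] at e1
    exact lt_irrefl _ e1
  obtain ⟨y, hy⟩ := this
  have hyZ : y ∉ center G := fun h0 => hy (Or.inr h0)
  refine ⟨y, hyZ, fun k hk => hy (Or.inl ⟨k⁻¹, k * y * k⁻¹, hk, ?_, by group⟩)⟩
  exact fun h0 => hyZ ((conj_mem_center_iff _ _).1 h0)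

end Cfsg.Agent.H20.CMax
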