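import Mathlib
import Cfsg.Prelude.Def_Transfer
import Cfsg.Agent.H20.CMax3

set_option autoImplicit false
set_option linter.style.haveILetI false

namespace Cfsg.Agent.H20.CMax

open Subgroup

variable {G : Type*} [Group G]

theorem comm_mem [Finite G] (L : Subgroup G) [L.Normal] (hL : IsCoatom L) (a b : G) :
    (b * a)⁻¹ * (a * b) ∈ L := by
  have hq := Cfsg.H1.index_prime_of_normal_coatom L hL
  haveI := Fact.mk hq
  have hc : Nat.card (G ⧸ L) = L.index := (index_eq_card L).symm
  have hcyc : IsCyclic (G ⧸ L) := isCyclic_of_prime_card hc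
  obtain ⟨g, hg⟩ := IsCyclic.exists_generator (α := G ⧸ L)
  obtain ⟨i, hi⟩ := mem_zpowers_iff.1 (hg (QuotientGroup.mk a))
  obtain ⟨j, hj⟩ := mem_zpowers_iff.1 (hg (QuotientGroup.mk b))
  rw [← QuotientGroup.eq, QuotientGroup.mk_mul, QuotientGroup.mk_mul, ← hi, ← hj, ← zpow_add,
    ← zpow_add, add_comm]

theorem pow1 {x g c : G} (hc : ∀ y : G, c * y = y * c) (e : x * g = g * x * c) (n : ℕ) :
    x ^ n * g = g * x ^ n * c ^ n := by
  induction n with
  | zero => simp
  | succ n ih =>
    have hcn : c ^ n * x = x * c ^ n := (Commute.pow_left (show Commute c x from hc x) n).eq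
    calc x ^ (n + 1) * g = x ^ n * (x * g) := by rw [pow_succ, mul_assoc]
      _ = x ^ n * (g * x * c) := by rw [e]
      _ = (x ^ n * g) * x * c := by simp only [mul_assoc]
      _ = (g * x ^ n * c ^ n) * x * c := by rw [ih]
      _ = g * x ^ n * (c ^ n * x) * c := by simp only [mul_assoc]
      _ = g * x ^ n * (x * c ^ n) * c := by rw [hcn]
      _ = g * x ^ (n + 1) * c ^ (n + 1) := by rw [pow_succ, pow_succ]; simp only [mul_assoc]

theorem pow2 {x g c : G} (hc : ∀ y : G, c * y = y * c) (e : x * g = g * x * c) (n : ℕ) :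
    x * g ^ n = g ^ n * x * c ^ n := by
  induction n with
  | zero => simp
  | succ n ih =>
    have hcn : c ^ n * g = g * c ^ n := (Commute.pow_left (show Commute c g from hc g) n).eq
    calc x * g ^ (n + 1) = (x * g ^ n) * g := by rw [pow_succ, mul_assoc]
      _ = (g ^ n * x * c ^ n) * g := by rw [ih]
      _ = g ^ n * x * (c ^ n * g) := by simp only [mul_assoc]
      _ = g ^ n * x * (g * c ^ n) := by rw [hcn]
      _ = g ^ n * (x * g) * c ^ n := by simp only [mul_assoc]
      _ = g ^ n * (g * x * c) * c ^ n := by rw [e]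
      _ = g ^ (n + 1) * x * c ^ (n + 1) := by rw [pow_succ, pow_succ']; simp only [mul_assoc]

theorem orderOf_eq_of_prime_orders {A : Type*} [Group A] (hcomm : ∀ a b : A, a * b = b * a)
    (hpr : ∀ a : A, a ≠ 1 → (orderOf a).Prime) {a b : A} (ha : a ≠ 1) (hb : b ≠ 1) :
    orderOf a = orderOf b := by
  by_contra hne
  have hp := hpr a ha
  have hq := hpr b hb
  have hcop : (orderOf a).Coprime (orderOf b) := (Nat.coprime_primes hp hq).2 hne
  have h1 : orderOf (a * b) = orderOf a * orderOf b :=
    Commute.orderOf_mul_eq_mul_orderOf_of_coprime (hcomm a b) hcop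
  have h2 : a * b ≠ 1 := by
    intro h0
    rw [h0, orderOf_one] at h1
    have := hp.one_lt
    have := hq.one_lt
    nlinarith
  have h3 := hpr _ h2
  rw [h1] at h3
  exact Nat.not_prime_mul hp.one_lt.ne' hq.one_lt.ne' h3

theorem caseA [Finite G] (h : Hyp G) (hna : ∃ x : G, x ∉ center G)
    (hall : ∀ x : G, x ∉ center G → (centralizer ({x} : Set G)).Normal) :
    ∃ p : ℕ, p.Prime ∧ Cfsg.IsElementaryAbelian p (⊤ : Subgroup (G ⧸ center G)) := by
  have hcomm : ∀ a b : G, (b * a)⁻¹ * (a * b) ∈ center G := by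
    intro a b
    rw [mem_center_iff]
    intro x
    by_cases hx : x ∈ center G
    · exact ((mem_center_iff.1 hx) _).symm
    · haveI := hall x hx
      exact (mem_centralizer_singleton_iff.1 (comm_mem _ (h x hx) a b)).symm
  have hpow : ∀ x : G, x ∉ center G → ∃ p : ℕ, p.Prime ∧ x ^ p ∈ center G := by
    intro x hx
    haveI := hall x hx
    refine ⟨_, Cfsg.H1.index_prime_of_normal_coatom _ (h x hx), ?_⟩
    set p := (centralizer ({x} : Set G)).index with hp
    rw [mem_center_iff]
    intro g
    have hc : ∀ y : G, ((g * x)⁻¹ * (x * g)) * y = y * ((g * x)⁻¹ * (x * g)) := fun y =>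
      ((mem_center_iff.1 (hcomm x g)) y).symm
    have e : x * g = g * x * ((g * x)⁻¹ * (x * g)) := by group
    have h1 : g ^ p ∈ centralizer ({x} : Set G) := pow_index_mem _ _
    rw [mem_centralizer_singleton_iff] at h1
    have h2 := pow2 hc e p
    rw [← h1] at h2
    have h3 : ((g * x)⁻¹ * (x * g)) ^ p = 1 := by
      have := h2.symm
      rwa [mul_eq_left] at this
    have h4 := pow1 hc e p
    rw [h3, mul_one] at h4
    exact h4.symm
  have hQc : ∀ a b : G ⧸ center G, a * b = b * a := by
    intro a b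
    induction a using QuotientGroup.induction_on with
    | H a =>
      induction b using QuotientGroup.induction_on with
      | H b =>
        rw [← QuotientGroup.mk_mul, ← QuotientGroup.mk_mul]
        exact (QuotientGroup.eq.2 (hcomm a b)).symm
  have hQp : ∀ a : G ⧸ center G, a ≠ 1 → (orderOf a).Prime := by
    intro a ha
    induction a using QuotientGroup.induction_on with
    | H a =>
      have haZ : a ∉ center G := fun h0 => ha ((QuotientGroup.eq_one_iff a).2 h0)
      obtain ⟨p, hp, hap⟩ := hpow a haZ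
      haveI := Fact.mk hp
      have : orderOf (QuotientGroup.mk a : G ⧸ center G) = p := by
        apply orderOf_eq_prime _ ha
        rw [← QuotientGroup.mk_pow]
        exact (QuotientGroup.eq_one_iff _).2 hap
      rw [this]; exact hp
  obtain ⟨x₀, hx₀⟩ := hna
  have hx1 : (QuotientGroup.mk x₀ : G ⧸ center G) ≠ 1 := fun h0 =>
    hx₀ ((QuotientGroup.eq_one_iff x₀).1 h0)
  refine ⟨_, hQp _ hx1, ⟨⟨fun a b => Subtype.ext (hQc a b)⟩⟩, fun a _ => ?_⟩
  by_cases ha : a = 1
  · rw [ha, one_pow]
  · rw [orderOf_eq_of_prime_orders hQc hQp hx1 ha, pow_orderOf_eq_one]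

end Cfsg.Agent.H20.CMax
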