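import Mathlib
import Cfsg.Prelude.Def_Transfer
import Cfsg.Agent.H20.CMax4

set_option autoImplicit false
set_option linter.style.haveILetI false

namespace Cfsg.Agent.H20.CMax

open Subgroup

variable {G : Type*} [Group G]

theorem caseB [Finite G] (h : Hyp G) {x : G} (hx : x ∉ center G)
    (hnn : ¬ (centralizer ({x} : Set G)).Normal) :
    (¬ IsMulCommutative (G ⧸ center G) ∧
      (∀ H : Subgroup (G ⧸ center G), H ≠ ⊤ → IsMulCommutative ↥H) ∧
      ∃ p q a : ℕ, p.Prime ∧ q.Prime ∧ p ≠ q ∧ Nat.card (G ⧸ center G) = p ^ a * q ∧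
        ∀ P : Subgroup (G ⧸ center G), Nat.card ↥P = p ^ a → P.Normal) := by
  have hMab := abel h hx hnn
  obtain ⟨y, hyZ, hy⟩ := exists_outside h hx hnn
  have hLn : (centralizer ({y} : Set G)).Normal := by
    by_contra hn
    obtain ⟨k, hk⟩ := cnt' h hyZ hx hn hnn
    exact hy k ((hk y).1 (self_mem_C y))
  have hLco : IsCoatom (centralizer ({y} : Set G)) := h y hyZ
  have hMco : IsCoatom (centralizer ({x} : Set G)) := h x hx
  set M := centralizer ({x} : Set G) with hMdef
  set L := centralizer ({y} : Set G) with hLdef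
  have hZM : center G ≤ M := center_le_C x
  have hZL : center G ≤ L := center_le_C y
  have hML : ∀ w ∈ M, w ∈ L → w ∈ center G := by
    intro w hwM hwL
    by_contra hwZ
    have e := C_eq h hx hMab hwM hwZ
    have hyw : y ∈ centralizer ({w} : Set G) := by
      rw [mem_centralizer_singleton_iff]
      exact (mem_centralizer_singleton_iff.1 hwL).symm
    rw [e] at hyw
    apply hy 1
    simpa using hyw
  have DED : ∀ D : Subgroup G, D.Normal → center G ≤ D → D ≤ L → D ≤ center G ∨ L ≤ D := by
    intro D hD hZD hDL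
    rcases hMco.le_iff.1 (le_sup_left : M ≤ M ⊔ D) with h1 | h1
    · right
      intro l hl
      have hl' : l ∈ M ⊔ D := h1 ▸ mem_top l
      rw [mem_sup_of_normal_right] at hl'
      obtain ⟨m, hm, d, hd, rfl⟩ := hl'
      have hmL : m ∈ L := by
        have := L.mul_mem hl (L.inv_mem (hDL hd))
        simpa using this
      exact D.mul_mem (hZD (hML m hm hmL)) hd
    · left
      intro d hd
      have hdM : d ∈ M := by
        rw [← h1]; exact (le_sup_right : D ≤ M ⊔ D) hd
      exact hML d hdM (hDL hd)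
  have hMcomm : ¬ ∀ a b : G, (b * a)⁻¹ * (a * b) ∈ M := by
    intro h0
    apply hnn
    refine ⟨fun n hn g => ?_⟩
    have h1 := M.mul_mem (h0 g⁻¹ n⁻¹) hn
    have e : (n⁻¹ * g⁻¹)⁻¹ * (g⁻¹ * n⁻¹) * n = g * n * g⁻¹ := by group
    rwa [e] at h1
  have hNor : ∀ w : G, w ∉ center G → (centralizer ({w} : Set G)).Normal →
      centralizer ({w} : Set G) = L := by
    intro w hw hwn
    haveI := hwn
    haveI := hLn
    rcases DED (centralizer ({w} : Set G) ⊓ L) inferInstance (le_inf (center_le_C w) hZL)
      inf_le_right with h1 | h1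
    · exfalso
      apply hMcomm
      intro a b
      exact hZM (h1 ⟨comm_mem _ (h w hw) a b, comm_mem _ hLco a b⟩)
    · exact (B0 h hyZ hw (h1.trans inf_le_left)).symm
  have hCL : ∀ w ∈ L, w ∉ center G → centralizer ({w} : Set G) = L := by
    intro w hwL hwZ
    by_cases hn : (centralizer ({w} : Set G)).Normal
    · exact hNor w hwZ hn
    · exfalso
      obtain ⟨k, hk⟩ := cnt' h hwZ hx hn hnn
      have h1 := (hk w).1 (self_mem_C w)
      have h2 := hML _ h1 (hLn.conj_mem w hwL k)
      exact hwZ ((conj_mem_center_iff _ _).1 h2)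
  have hLab : ∀ a ∈ L, ∀ b ∈ L, a * b = b * a := by
    intro a ha b hb
    by_cases haZ : a ∈ center G
    · exact ((mem_center_iff.1 haZ) b).symm
    · rw [← hCL a ha haZ] at hb
      exact (mem_centralizer_singleton_iff.1 hb).symm
  -- the prime p
  obtain ⟨p, hp, hLp⟩ : ∃ p : ℕ, p.Prime ∧ ∀ l ∈ L, l ^ p ∈ center G := by
    have hy1 : (QuotientGroup.mk y : G ⧸ center G) ≠ 1 := fun h0 =>
      hyZ ((QuotientGroup.eq_one_iff y).1 h0)
    have hn1 : orderOf (QuotientGroup.mk y : G ⧸ center G) ≠ 1 := fun h0 =>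
      hy1 (orderOf_eq_one_iff.1 h0)
    set n := orderOf (QuotientGroup.mk y : G ⧸ center G) with hn
    have hp : (n.minFac).Prime := Nat.minFac_prime hn1
    refine ⟨n.minFac, hp, ?_⟩
    have ho : orderOf ((QuotientGroup.mk y : G ⧸ center G) ^ (n / n.minFac)) = n.minFac :=
      orderOf_pow_orderOf_div (orderOf_pos _).ne' (Nat.minFac_dvd n)
    have hl0Z : y ^ (n / n.minFac) ∉ center G := by
      intro h0
      have : (QuotientGroup.mk y : G ⧸ center G) ^ (n / n.minFac) = 1 := by
        rw [← QuotientGroup.mk_pow]; exact (QuotientGroup.eq_one_iff _).2 h0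
      rw [this, orderOf_one] at ho
      exact hp.one_lt.ne ho
    have hl0p : (y ^ (n / n.minFac)) ^ n.minFac ∈ center G := by
      rw [← QuotientGroup.eq_one_iff, QuotientGroup.mk_pow, QuotientGroup.mk_pow]
      have := pow_orderOf_eq_one ((QuotientGroup.mk y : G ⧸ center G) ^ (n / n.minFac))
      rwa [ho] at this
    let D : Subgroup G :=
      { carrier := {l | l ∈ L ∧ l ^ n.minFac ∈ center G}
        mul_mem' := by
          rintro a b ⟨ha, ha'⟩ ⟨hb, hb'⟩
          refine ⟨L.mul_mem ha hb, ?_⟩
          rw [(show Commute a b from hLab a ha b hb).mul_pow]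
          exact mul_mem ha' hb'
        one_mem' := ⟨L.one_mem, by rw [one_pow]; exact one_mem _⟩
        inv_mem' := by
          rintro a ⟨ha, ha'⟩
          refine ⟨L.inv_mem ha, ?_⟩
          rw [inv_pow]
          exact inv_mem ha' }
    have hDn : D.Normal := by
      refine ⟨fun l hl g => ⟨hLn.conj_mem l hl.1 g, ?_⟩⟩
      rw [conj_pow]
      exact (conj_mem_center_iff _ _).2 hl.2
    rcases DED D hDn (fun z hz => ⟨hZL hz, pow_mem hz _⟩) (fun l hl => hl.1) with h1 | h1
    · exact absurd (h1 ⟨L.pow_mem (self_mem_C y) _, hl0p⟩) hl0Z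
    · exact fun l hl => (h1 hl).2
  haveI := Fact.mk hp
  haveI := hLn
  have hq : L.index.Prime := Cfsg.H1.index_prime_of_normal_coatom L hLco
  have hpq : p ≠ L.index := by
    intro e
    apply hnn
    apply normal_of_PZ_top (p := p) _ M hMco
    intro g
    refine ⟨2, ?_⟩
    rw [pow_two, pow_mul]
    apply hLp
    rw [e]
    exact pow_index_mem _ _
  have hsurj := QuotientGroup.mk'_surjective (center G)
  set Lb := L.map (QuotientGroup.mk' (center G)) with hLb
  have hLbn : Lb.Normal := hLn.map _ hsurj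
  have hLbp : IsPGroup p ↥Lb := by
    rintro ⟨_, l, hl, rfl⟩
    refine ⟨1, Subtype.ext ?_⟩
    show (QuotientGroup.mk' (center G) l) ^ (p ^ 1) = 1
    rw [pow_one, ← map_pow]
    exact (QuotientGroup.eq_one_iff _).2 (hLp l hl)
  obtain ⟨a, ha⟩ := IsPGroup.iff_card.1 hLbp
  have hLbi : Lb.index = L.index := by
    apply index_map_eq _ hsurj
    rw [QuotientGroup.ker_mk']
    exact hZL
  refine ⟨?_, ?_, p, L.index, a, hp, hq, hpq, ?_, ?_⟩
  · intro hc
    apply hMcomm
    intro a b
    apply hZM
    rw [← QuotientGroup.eq, QuotientGroup.mk_mul, QuotientGroup.mk_mul]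
    exact hc.is_comm.comm _ _
  · intro Hb hHb
    set H := Hb.comap (QuotientGroup.mk' (center G)) with hH
    have hHtop : H ≠ ⊤ := by
      intro h0
      apply hHb
      rw [← map_comap_eq_self_of_surjective hsurj Hb, ← hH, h0, map_top_of_surjective _ hsurj]
    have hZH : center G ≤ H := by
      intro z hz
      rw [hH, mem_comap]
      have : QuotientGroup.mk' (center G) z = 1 := (QuotientGroup.eq_one_iff z).2 hz
      rw [this]; exact one_mem _
    have key : ∀ a ∈ H, ∀ b ∈ H, (b * a)⁻¹ * (a * b) ∈ center G := by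
      by_cases hHL : H ≤ L
      · intro a ha b hb
        rw [hLab a (hHL ha) b (hHL hb)]
        simp
      · obtain ⟨t, htH, htL⟩ := SetLike.not_le_iff_exists.1 hHL
        have hLN : L ≤ normalizer ((H ⊓ L : Subgroup G) : Set G) := by
          apply le_normalizer_of_forall
          intro l hl i hi
          have : l * i * l⁻¹ = i := by
            rw [hLab l hl i hi.2]; group
          rw [this]; exact hi
        have htN : t ∈ normalizer ((H ⊓ L : Subgroup G) : Set G) := by
          have : zpowers t ≤ normalizer ((H ⊓ L : Subgroup G) : Set G) := by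
            apply le_normalizer_of_forall
            intro m hm i hi
            have hmH : m ∈ H := (zpowers_le.2 htH) hm
            exact ⟨H.mul_mem (H.mul_mem hmH hi.1) (H.inv_mem hmH), hLn.conj_mem i hi.2 m⟩
          exact this (mem_zpowers t)
        have hNtop : normalizer ((H ⊓ L : Subgroup G) : Set G) = ⊤ :=
          hLco.2 _ (lt_of_le_of_ne hLN (fun e => htL (by rw [e]; exact htN)))
        have hDn : (H ⊓ L).Normal := normalizer_eq_top_iff.1 hNtop
        rcases DED (H ⊓ L) hDn (le_inf hZH hZL) inf_le_right with h1 | h1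
        · intro a ha b hb
          exact h1 ⟨H.mul_mem (H.inv_mem (H.mul_mem hb ha)) (H.mul_mem ha hb),
            comm_mem L hLco a b⟩
        · exfalso
          apply hHtop
          exact hLco.2 _ (lt_of_le_of_ne (h1.trans inf_le_left)
            (fun e => htL (by rw [e]; exact htH)))
    refine ⟨⟨?_⟩⟩
    rintro ⟨a, ha⟩ ⟨b, hb⟩
    apply Subtype.ext
    show a * b = b * a
    obtain ⟨a, rfl⟩ := hsurj a
    obtain ⟨b, rfl⟩ := hsurj b
    have := key a ha b hb
    rw [← map_mul, ← map_mul]
    exact (QuotientGroup.eq.2 this).symm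
  · rw [← card_mul_index Lb, ha, hLbi]
  · intro P hP
    have hPL : P ≤ Lb := by
      intro u hu
      have h1 : u ^ (p ^ a) = 1 := by
        have := pow_card_eq_one' (G := ↥P) (x := ⟨u, hu⟩)
        rw [hP] at this
        exact congrArg Subtype.val this
      have h2 : u ^ Lb.index ∈ Lb := pow_index_mem _ _
      have hcop : (Lb.index).Coprime (orderOf u) := by
        rw [hLbi]
        apply Nat.Coprime.coprime_dvd_right (orderOf_dvd_of_pow_eq_one h1)
        exact Nat.Coprime.pow_right _ ((Nat.coprime_primes hq hp).2 (Ne.symm hpq))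
      obtain ⟨m, hm⟩ := exists_pow_eq_self_of_coprime hcop
      rw [← hm]
      exact pow_mem h2 m
    have : P = Lb := eq_of_le_of_card_ge hPL (by rw [hP, ha])
    rw [this]; exact hLbn

theorem main [Finite G] (hna : ¬ IsMulCommutative G)
    (h : ∀ x : G, x ∉ center G → IsCoatom (centralizer ({x} : Set G))) :
    (∃ p : ℕ, p.Prime ∧ Cfsg.IsElementaryAbelian p (⊤ : Subgroup (G ⧸ center G))) ∨
    (¬ IsMulCommutative (G ⧸ center G) ∧
      (∀ H : Subgroup (G ⧸ center G), H ≠ ⊤ → IsMulCommutative ↥H) ∧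
      ∃ p q a : ℕ, p.Prime ∧ q.Prime ∧ p ≠ q ∧ Nat.card (G ⧸ center G) = p ^ a * q ∧
        ∀ P : Subgroup (G ⧸ center G), Nat.card ↥P = p ^ a → P.Normal) := by
  by_cases hall : ∀ x : G, x ∉ center G → (centralizer ({x} : Set G)).Normal
  · left
    apply caseA h _ hall
    by_contra h0
    push Not at h0
    apply hna
    exact ⟨⟨fun a b => ((mem_center_iff.1 (h0 a)) b).symm⟩⟩
  · right
    push Not at hall
    obtain ⟨x, hx, hnn⟩ := hall
    exact caseB h hx hnn

end Cfsg.Agent.H20.CMax
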