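import Mathlib
import Cfsg.Agent.H20.CMax5

set_option autoImplicit false
set_option linter.style.haveILetI false

namespace Cfsg.Agent.H20.CMaxN

open Subgroup Cfsg.Agent.H20.CMax

variable {G : Type*} [Group G]

/-- hypothesis of the relative version -/
def Hyp2 (N : Subgroup G) : Prop :=
  ∀ x : G, x ∈ N → x ∉ centralizer (N : Set G) → IsCoatom (centralizer ({x} : Set G))

/-- the centre of `N`, inside `G` -/
def Z0 (N : Subgroup G) : Subgroup G := N ⊓ centralizer (N : Set G)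

instance Z0_normal (N : Subgroup G) [N.Normal] : (Z0 N).Normal := by
  unfold Z0; infer_instance

theorem Z0_le (N : Subgroup G) : Z0 N ≤ N := inf_le_left

theorem Z0_comm {N : Subgroup G} {z n : G} (hz : z ∈ Z0 N) (hn : n ∈ N) : n * z = z * n :=
  mem_centralizer_iff.1 hz.2 n hn

theorem mem_Z0_of {N : Subgroup G} {x : G} (hx : x ∈ N) (h : x ∈ centralizer (N : Set G)) :
    x ∈ Z0 N := ⟨hx, h⟩

theorem not_W_of_not_Z0 {N : Subgroup G} {x : G} (hx : x ∈ N) (h : x ∉ Z0 N) :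
    x ∉ centralizer (N : Set G) := fun h0 => h ⟨hx, h0⟩

theorem coatom_prod {M H : Subgroup G} (hM : IsCoatom M)
    (hnorm : ∀ m ∈ M, ∀ h ∈ H, m * h * m⁻¹ ∈ H) :
    H ≤ M ∨ ∀ g : G, ∃ h ∈ H, ∃ m ∈ M, g = h * m := by
  let S : Subgroup G :=
    { carrier := {g | ∃ h ∈ H, ∃ m ∈ M, g = h * m}
      mul_mem' := by
        rintro _ _ ⟨h, hh, m, hm, rfl⟩ ⟨h', hh', m', hm', rfl⟩
        exact ⟨h * (m * h' * m⁻¹), H.mul_mem hh (hnorm m hm h' hh'), m * m', M.mul_mem hm hm',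
          by group⟩
      one_mem' := ⟨1, H.one_mem, 1, M.one_mem, by simp⟩
      inv_mem' := by
        rintro _ ⟨h, hh, m, hm, rfl⟩
        exact ⟨m⁻¹ * h⁻¹ * (m⁻¹)⁻¹, hnorm m⁻¹ (M.inv_mem hm) h⁻¹ (H.inv_mem hh), m⁻¹,
          M.inv_mem hm, by group⟩ }
  have hMS : M ≤ S := fun m hm => ⟨1, H.one_mem, m, hm, by simp⟩
  have hHS : H ≤ S := fun h hh => ⟨h, hh, 1, M.one_mem, by simp⟩
  rcases hM.le_iff.1 hMS with h1 | h1
  · right
    intro g
    have : g ∈ S := h1 ▸ mem_top g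
    exact this
  · left
    rw [← h1]; exact hHS

theorem B0' {N : Subgroup G} (h : Hyp2 N) {x y : G} (hx : x ∈ N) (hxW : x ∉ Z0 N)
    (hy : y ∈ N) (hyW : y ∉ Z0 N)
    (hle : centralizer ({x} : Set G) ≤ centralizer ({y} : Set G)) :
    centralizer ({x} : Set G) = centralizer ({y} : Set G) := by
  by_contra hne
  exact (h y hy (not_W_of_not_Z0 hy hyW)).1
    ((h x hx (not_W_of_not_Z0 hx hxW)).2 _ (lt_of_le_of_ne hle hne))

theorem co {N : Subgroup G} (h : Hyp2 N) {x : G} (hx : x ∈ N) (hxW : x ∉ Z0 N) :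
    IsCoatom (centralizer ({x} : Set G)) := h x hx (not_W_of_not_Z0 hx hxW)

/-- for a normal subgroup `D`: either it centralizes `x` or `G = D C(x)` -/
theorem normal_alt {N : Subgroup G} (h : Hyp2 N) {x : G} (hx : x ∈ N) (hxW : x ∉ Z0 N)
    (D : Subgroup G) (hD : D.Normal) :
    D ≤ centralizer ({x} : Set G) ∨ ∀ g : G, ∃ d ∈ D, ∃ m ∈ centralizer ({x} : Set G), g = d * m :=
  coatom_prod (co h hx hxW) (fun m _ d hd => hD.conj_mem d hd m)

theorem decompN {N : Subgroup G} [hN : N.Normal] (h : Hyp2 N) {x : G} (hx : x ∈ N)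
    (hxW : x ∉ Z0 N) (g : G) : ∃ n ∈ N, ∃ m ∈ centralizer ({x} : Set G), g = n * m := by
  rcases normal_alt h hx hxW N hN with h1 | h1
  · exfalso
    apply hxW
    refine mem_Z0_of hx ?_
    rw [mem_centralizer_iff]
    intro n hn
    exact mem_centralizer_singleton_iff.1 (h1 hn)
  · exact h1 g

theorem conj_eq {N : Subgroup G} [N.Normal] (h : Hyp2 N) {x : G} (hx : x ∈ N)
    (hxW : x ∉ Z0 N) (g : G) : ∃ n ∈ N, g * x * g⁻¹ = n * x * n⁻¹ := by
  obtain ⟨n, hn, m, hm, rfl⟩ := decompN h hx hxW g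
  refine ⟨n, hn, ?_⟩
  have e : m * x = x * m := mem_centralizer_singleton_iff.1 hm
  calc n * m * x * (n * m)⁻¹ = n * (m * x) * m⁻¹ * n⁻¹ := by group
    _ = n * (x * m) * m⁻¹ * n⁻¹ := by rw [e]
    _ = n * x * n⁻¹ := by group

theorem normal_of_inv {N : Subgroup G} [N.Normal] (h : Hyp2 N) {T : Subgroup G} (hTN : T ≤ N)
    (hZT : Z0 N ≤ T) (hinv : ∀ n ∈ N, ∀ t ∈ T, n * t * n⁻¹ ∈ T) : T.Normal := by
  refine ⟨fun t ht g => ?_⟩
  by_cases htZ : t ∈ Z0 N
  · exact hZT ((Z0_normal N).conj_mem t htZ g)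
  · obtain ⟨n, hn, e⟩ := conj_eq h (hTN ht) htZ g
    rw [e]; exact hinv n hn t ht

/-- if `D ≤ N` is normal in `G` and does not centralize `x`, then `N = D C_N(x)` -/
theorem decompD {N : Subgroup G} (h : Hyp2 N) {x : G} (hx : x ∈ N) (hxW : x ∉ Z0 N)
    {D : Subgroup G} (hD : D.Normal) (hDN : D ≤ N) (hDx : ¬ D ≤ centralizer ({x} : Set G))
    {n : G} (hn : n ∈ N) : ∃ d ∈ D, ∃ m ∈ N ⊓ centralizer ({x} : Set G), n = d * m := by
  rcases normal_alt h hx hxW D hD with h1 | h1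
  · exact absurd h1 hDx
  · obtain ⟨d, hd, m, hm, e⟩ := h1 n
    refine ⟨d, hd, m, ⟨?_, hm⟩, e⟩
    have : m = d⁻¹ * n := by rw [e]; group
    rw [this]; exact N.mul_mem (N.inv_mem (hDN hd)) hn

theorem L1' {N : Subgroup G} (h : Hyp2 N) {a b : G} (haN : a ∈ N) (hbN : b ∈ N)
    (ha : a ∉ Z0 N) (hb : b ∉ Z0 N) (hab : Commute a b)
    (hcop : (orderOf a).Coprime (orderOf b)) :
    centralizer ({a} : Set G) = centralizer ({b} : Set G) := by
  have h1 : a ∈ zpowers (a * b) := by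
    obtain ⟨m, hm⟩ := exists_pow_eq_self_of_coprime hcop.symm
    have e : a ^ orderOf b = (a * b) ^ orderOf b := by
      rw [hab.mul_pow, pow_orderOf_eq_one, mul_one]
    have e2 : ((a * b) ^ orderOf b) ^ m = a := by rw [← e, hm]
    have := pow_mem (pow_mem (mem_zpowers (a * b)) (orderOf b)) m
    rwa [e2] at this
  have h2 : b ∈ zpowers (a * b) := by
    obtain ⟨m, hm⟩ := exists_pow_eq_self_of_coprime hcop
    have e : b ^ orderOf a = (a * b) ^ orderOf a := by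
      rw [hab.mul_pow, pow_orderOf_eq_one, one_mul]
    have e2 : ((a * b) ^ orderOf a) ^ m = b := by rw [← e, hm]
    have := pow_mem (pow_mem (mem_zpowers (a * b)) (orderOf a)) m
    rwa [e2] at this
  have h3 : a * b ∉ Z0 N := by
    intro h0
    exact ha ((zpowers_le.2 h0) h1)
  have habN : a * b ∈ N := N.mul_mem haN hbN
  rw [← B0' h habN h3 haN ha (C_le_of_mem_zpowers h1),
    ← B0' h habN h3 hbN hb (C_le_of_mem_zpowers h2)]

theorem L4' {N : Subgroup G} (h : Hyp2 N) {a b : G} (haN : a ∈ N) (ha : a ∉ Z0 N)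
    (hb : b ∈ N ⊓ centralizer ({a} : Set G)) (hcop : (orderOf a).Coprime (orderOf b)) :
    ∀ m ∈ N ⊓ centralizer ({a} : Set G), m * b = b * m := by
  intro m hm
  by_cases hbZ : b ∈ Z0 N
  · exact Z0_comm hbZ hm.1
  · have := L1' h haN hb.1 ha hbZ (mem_centralizer_singleton_iff.1 hb.2).symm hcop
    have hm2 := hm.2
    rw [this] at hm2
    exact mem_centralizer_singleton_iff.1 hm2

/-- dichotomy, in a uniform form: some power `m ^ (p ^ k)` is central in `C_N(x)` -/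
theorem dich [Finite G] {N : Subgroup G} (h : Hyp2 N) {x : G} (hxN : x ∈ N) (hx : x ∉ Z0 N) :
    ∃ p : ℕ, p.Prime ∧ ∀ m ∈ N ⊓ centralizer ({x} : Set G), ∃ k : ℕ,
      ∀ v ∈ N ⊓ centralizer ({x} : Set G), v * m ^ (p ^ k) = m ^ (p ^ k) * v := by
  obtain ⟨p, hp, x', hx'z, hx'Z, k0, hk0⟩ := L3 (Z0 N) _ x rfl hx
  have hx'N : x' ∈ N := (zpowers_le.2 hxN) hx'z
  have hC : centralizer ({x} : Set G) = centralizer ({x'} : Set G) :=
    B0' h hxN hx hx'N hx'Z (C_le_of_mem_zpowers hx'z)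
  refine ⟨p, hp, ?_⟩
  by_cases hcase : ∀ b ∈ N ⊓ centralizer ({x} : Set G), (orderOf b).Coprime p → b ∈ Z0 N
  · intro m hm
    obtain ⟨a, ha, b, hb, hab, ⟨k, hk⟩, hcop⟩ := decomp m hp
    have hbZ : b ∈ Z0 N := hcase b ((zpowers_le.2 hm) hb) hcop
    refine ⟨k, fun v hv => ?_⟩
    have haN : a ∈ N := (zpowers_le.2 hm.1) ha
    have hc : Commute a b := Z0_comm hbZ haN
    rw [hab, hc.mul_pow, hk, one_mul]
    exact Z0_comm (pow_mem hbZ _) hv.1
  · push Not at hcase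
    obtain ⟨m, hm, hmcop, hmZ⟩ := hcase
    have hCm : centralizer ({x'} : Set G) = centralizer ({m} : Set G) := by
      apply L1' h hx'N hm.1 hx'Z hmZ _ (coprime_of_pow hp hk0 hmcop)
      have := hm.2
      rw [hC] at this
      exact (mem_centralizer_singleton_iff.1 this).symm
    obtain ⟨r, hr, m', hm'z, hm'Z, k1, hk1⟩ := L3 (Z0 N) _ m rfl hmZ
    have hm'N : m' ∈ N := (zpowers_le.2 hm.1) hm'z
    have hCm' : centralizer ({m} : Set G) = centralizer ({m'} : Set G) :=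
      B0' h hm.1 hmZ hm'N hm'Z (C_le_of_mem_zpowers hm'z)
    have hm'cop : (orderOf m').Coprime p :=
      Nat.Coprime.coprime_dvd_left (orderOf_dvd_of_mem_zpowers hm'z) hmcop
    intro w hw
    refine ⟨0, fun v hv => ?_⟩
    rw [pow_zero, pow_one]
    obtain ⟨a, ha, b, hb, hab, ⟨k, hk⟩, hcop⟩ := decomp w hp
    have haM : a ∈ N ⊓ centralizer ({x} : Set G) := (zpowers_le.2 hw) ha
    have hbM : b ∈ N ⊓ centralizer ({x} : Set G) := (zpowers_le.2 hw) hb
    have e1 : v * b = b * v :=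
      L4' h hx'N hx'Z (hC ▸ hbM) (coprime_of_pow hp hk0 hcop) v (hC ▸ hv)
    have e2 : v * a = a * v :=
      L4' h hm'N hm'Z (hCm' ▸ hCm ▸ hC ▸ haM) (coprime_of_pow hp hk hm'cop).symm v
        (hCm' ▸ hCm ▸ hC ▸ hv)
    rw [hab, ← mul_assoc, e2, mul_assoc, e1, mul_assoc]

/-- nilpotency criterion -/
theorem nilp_of_crit [Finite G] {H : Subgroup G} {p : ℕ} (hp : p.Prime)
    (hH : ∀ m ∈ H, ∃ k : ℕ, ∀ v ∈ H, v * m ^ (p ^ k) = m ^ (p ^ k) * v) :
    Group.IsNilpotent ↥H := by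
  haveI := Fact.mk hp
  have h1 : IsPGroup p (↥H ⧸ center ↥H) := by
    intro q
    induction q using QuotientGroup.induction_on with
    | H g =>
      obtain ⟨k, hk⟩ := hH g g.2
      refine ⟨k, ?_⟩
      rw [← QuotientGroup.mk_pow, QuotientGroup.eq_one_iff, mem_center_iff]
      intro y
      apply Subtype.ext
      exact hk y y.2
  exact Group.of_quotient_center_nilpotent h1.isNilpotent

theorem exists_central_mod {H : Type*} [Group H] [Finite H] {p : ℕ} [Fact p.Prime]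
    (Z : Subgroup H) [Z.Normal] (hp : IsPGroup p (H ⧸ Z)) (hZ : Z ≠ ⊤) :
    ∃ u : H, u ∉ Z ∧ ∀ m : H, u⁻¹ * m⁻¹ * u * m ∈ Z := by
  haveI : Nontrivial (H ⧸ Z) := by
    by_contra h0
    rw [not_nontrivial_iff_subsingleton] at h0
    apply hZ
    rw [eq_top_iff]
    intro a _
    have : (QuotientGroup.mk a : H ⧸ Z) = 1 := Subsingleton.elim _ _
    rwa [QuotientGroup.eq_one_iff] at this
  haveI := hp.center_nontrivial
  obtain ⟨⟨ub, hub⟩, hne⟩ := exists_ne (1 : center (H ⧸ Z))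
  induction ub using QuotientGroup.induction_on with
  | H u =>
    refine ⟨u, ?_, ?_⟩
    · intro h0
      apply hne
      apply Subtype.ext
      exact (QuotientGroup.eq_one_iff u).2 h0
    · intro m
      have h1 := (mem_center_iff.1 hub) (QuotientGroup.mk m)
      rw [← QuotientGroup.mk_mul, ← QuotientGroup.mk_mul, QuotientGroup.eq] at h1
      simpa [mul_assoc] using h1

end Cfsg.Agent.H20.CMaxN
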