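import Mathlib
import Cfsg.Agent.H20.CMaxN1

set_option autoImplicit false
set_option linter.style.haveILetI false

namespace Cfsg.Agent.H20.CMaxN

open Subgroup Cfsg.Agent.H20.CMax

variable {G : Type*} [Group G]

theorem comm_mul {a b c : G} (h1 : a * b = b * a) (h2 : a * c = c * a) :
    a * (b * c) = (b * c) * a := by
  rw [← mul_assoc, h1, mul_assoc, h2, mul_assoc]

theorem alt4 {N : Subgroup G} [hN : N.Normal] (h : Hyp2 N) {x : G} (hx : x ∈ N)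
    (hxW : x ∉ Z0 N) :
    (∀ n ∈ N, n * x * n⁻¹ * x⁻¹ ∈ Z0 N → n * x * n⁻¹ * x⁻¹ = 1) ∨
      (∀ n ∈ N, n * x * n⁻¹ * x⁻¹ ∈ Z0 N) := by
  let H : Subgroup G :=
    { carrier := {n | n ∈ N ∧ n * x * n⁻¹ * x⁻¹ ∈ Z0 N}
      mul_mem' := by
        rintro a b ⟨ha, ha'⟩ ⟨hb, hb'⟩
        refine ⟨N.mul_mem ha hb, ?_⟩
        have e : a * b * x * (a * b)⁻¹ * x⁻¹ =
            a * (b * x * b⁻¹ * x⁻¹) * a⁻¹ * (a * x * a⁻¹ * x⁻¹) := by group
        rw [e]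
        exact (Z0 N).mul_mem ((Z0_normal N).conj_mem _ hb' a) ha'
      one_mem' := ⟨N.one_mem, by simp⟩
      inv_mem' := by
        rintro a ⟨ha, ha'⟩
        refine ⟨N.inv_mem ha, ?_⟩
        have e : a⁻¹ * x * (a⁻¹)⁻¹ * x⁻¹ = a⁻¹ * (a * x * a⁻¹ * x⁻¹)⁻¹ * (a⁻¹)⁻¹ := by group
        rw [e]
        exact (Z0_normal N).conj_mem _ ((Z0 N).inv_mem ha') a⁻¹ }
  have hnorm : ∀ m ∈ centralizer ({x} : Set G), ∀ n ∈ H, m * n * m⁻¹ ∈ H := by
    intro m hm n hn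
    refine ⟨hN.conj_mem n hn.1 m, ?_⟩
    have e1 : m * x = x * m := mem_centralizer_singleton_iff.1 hm
    have e2 : m⁻¹ * x * m = x := by rw [mul_assoc, ← e1]; group
    have e3 : m⁻¹ * x⁻¹ * m = x⁻¹ := by
      have : (m⁻¹ * x * m)⁻¹ = x⁻¹ := by rw [e2]
      calc m⁻¹ * x⁻¹ * m = (m⁻¹ * x * m)⁻¹ := by group
        _ = x⁻¹ := this
    have e : m * n * m⁻¹ * x * (m * n * m⁻¹)⁻¹ * x⁻¹ =
        m * (n * (m⁻¹ * x * m) * n⁻¹ * (m⁻¹ * x⁻¹ * m)) * m⁻¹ := by group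
    rw [e, e2, e3]
    exact (Z0_normal N).conj_mem _ hn.2 m
  rcases coatom_prod (co h hx hxW) hnorm with h1 | h1
  · left
    intro n hn hnZ
    have : n ∈ centralizer ({x} : Set G) := h1 ⟨hn, hnZ⟩
    rw [mem_centralizer_singleton_iff] at this
    rw [this]; group
  · right
    intro n _
    obtain ⟨a, ha, m, hm, rfl⟩ := h1 n
    have e1 : m * x = x * m := mem_centralizer_singleton_iff.1 hm
    have e : a * m * x * (a * m)⁻¹ * x⁻¹ = a * x * a⁻¹ * x⁻¹ := by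
      calc a * m * x * (a * m)⁻¹ * x⁻¹ = a * (m * x) * m⁻¹ * a⁻¹ * x⁻¹ := by group
        _ = a * (x * m) * m⁻¹ * a⁻¹ * x⁻¹ := by rw [e1]
        _ = _ := by group
    rw [e]; exact ha.2

theorem pow1' {x g c : G} (hc : c * x = x * c) (e : x * g = g * x * c) (n : ℕ) :
    x ^ n * g = g * x ^ n * c ^ n := by
  induction n with
  | zero => simp
  | succ n ih =>
    have hcn : c ^ n * x = x * c ^ n := (Commute.pow_left (show Commute c x from hc) n).eq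
    calc x ^ (n + 1) * g = x ^ n * (x * g) := by rw [pow_succ, mul_assoc]
      _ = x ^ n * (g * x * c) := by rw [e]
      _ = (x ^ n * g) * x * c := by simp only [mul_assoc]
      _ = (g * x ^ n * c ^ n) * x * c := by rw [ih]
      _ = g * x ^ n * (c ^ n * x) * c := by simp only [mul_assoc]
      _ = g * x ^ n * (x * c ^ n) * c := by rw [hcn]
      _ = g * x ^ (n + 1) * c ^ (n + 1) := by rw [pow_succ, pow_succ]; simp only [mul_assoc]

theorem pow2' {x g c : G} (hc : c * g = g * c) (e : x * g = g * x * c) (n : ℕ) :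
    x * g ^ n = g ^ n * x * c ^ n := by
  induction n with
  | zero => simp
  | succ n ih =>
    have hcn : c ^ n * g = g * c ^ n := (Commute.pow_left (show Commute c g from hc) n).eq
    calc x * g ^ (n + 1) = (x * g ^ n) * g := by rw [pow_succ, mul_assoc]
      _ = (g ^ n * x * c ^ n) * g := by rw [ih]
      _ = g ^ n * x * (c ^ n * g) := by simp only [mul_assoc]
      _ = g ^ n * x * (g * c ^ n) := by rw [hcn]
      _ = g ^ n * (x * g) * c ^ n := by simp only [mul_assoc]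
      _ = g ^ n * (g * x * c) * c ^ n := by rw [e]
      _ = g ^ (n + 1) * x * c ^ (n + 1) := by rw [pow_succ, pow_succ']; simp only [mul_assoc]

/-- Case I, step 1: `N / Z(N)` is abelian. -/
theorem caseI_comm {N : Subgroup G} [hN : N.Normal] (h : Hyp2 N) {x₀ : G} (hx₀ : x₀ ∈ N)
    (hx₀W : x₀ ∉ Z0 N) (hI : ∀ n ∈ N, n * x₀ * n⁻¹ * x₀⁻¹ ∈ Z0 N) :
    ∀ a ∈ N, ∀ n ∈ N, n * a * n⁻¹ * a⁻¹ ∈ Z0 N := by
  let S : Subgroup G :=
    { carrier := {a | a ∈ N ∧ ∀ n ∈ N, n * a * n⁻¹ * a⁻¹ ∈ Z0 N}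
      mul_mem' := by
        rintro a b ⟨ha, ha'⟩ ⟨hb, hb'⟩
        refine ⟨N.mul_mem ha hb, fun n hn => ?_⟩
        have e : n * (a * b) * n⁻¹ * (a * b)⁻¹ =
            (n * a * n⁻¹ * a⁻¹) * (a * (n * b * n⁻¹ * b⁻¹) * a⁻¹) := by group
        rw [e]
        exact (Z0 N).mul_mem (ha' n hn) ((Z0_normal N).conj_mem _ (hb' n hn) a)
      one_mem' := ⟨N.one_mem, fun n _ => by simp⟩
      inv_mem' := by
        rintro a ⟨ha, ha'⟩
        refine ⟨N.inv_mem ha, fun n hn => ?_⟩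
        have e : n * a⁻¹ * n⁻¹ * (a⁻¹)⁻¹ = a⁻¹ * (n * a * n⁻¹ * a⁻¹)⁻¹ * (a⁻¹)⁻¹ := by group
        rw [e]
        exact (Z0_normal N).conj_mem _ ((Z0 N).inv_mem (ha' n hn)) a⁻¹ }
  have hSn : S.Normal := by
    refine ⟨fun a ha g => ⟨hN.conj_mem a ha.1 g, fun n hn => ?_⟩⟩
    have e : n * (g * a * g⁻¹) * n⁻¹ * (g * a * g⁻¹)⁻¹ =
        g * ((g⁻¹ * n * (g⁻¹)⁻¹) * a * (g⁻¹ * n * (g⁻¹)⁻¹)⁻¹ * a⁻¹) * g⁻¹ := by group
    rw [e]
    exact (Z0_normal N).conj_mem _ (ha.2 _ (hN.conj_mem n hn g⁻¹)) g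
  have hZS : Z0 N ≤ S := by
    intro z hz
    refine ⟨hz.1, fun n hn => ?_⟩
    rw [Z0_comm hz hn]
    simp
  have halt : ∀ y ∈ N, y ∈ S ∨ S ≤ centralizer ({y} : Set G) := by
    intro y hy
    by_cases hyZ : y ∈ Z0 N
    · exact Or.inl (hZS hyZ)
    · rcases normal_alt h hy hyZ S hSn with h1 | h1
      · exact Or.inr h1
      · left
        refine ⟨hy, fun n _ => ?_⟩
        obtain ⟨d, hd, m, hm, rfl⟩ := h1 n
        have e1 : m * y = y * m := mem_centralizer_singleton_iff.1 hm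
        have e : d * m * y * (d * m)⁻¹ * y⁻¹ = (y * d * y⁻¹ * d⁻¹)⁻¹ := by
          calc d * m * y * (d * m)⁻¹ * y⁻¹ = d * (m * y) * m⁻¹ * d⁻¹ * y⁻¹ := by group
            _ = d * (y * m) * m⁻¹ * d⁻¹ * y⁻¹ := by rw [e1]
            _ = _ := by group
        rw [e]
        exact (Z0 N).inv_mem (hd.2 y hy)
  have hx₀S : x₀ ∈ S := ⟨hx₀, hI⟩
  have hNS : N ≤ S := by
    by_contra hcon
    obtain ⟨y₁, hy₁, hy₁S⟩ := SetLike.not_le_iff_exists.1 hcon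
    apply hx₀W
    refine mem_Z0_of hx₀ ?_
    rw [mem_centralizer_iff]
    have key : ∀ n ∈ N, n ∉ S → n * x₀ = x₀ * n := by
      intro n hn hnS
      have := (halt n hn).resolve_left hnS hx₀S
      exact (mem_centralizer_singleton_iff.1 this).symm
    intro n hn
    by_cases hnS : n ∈ S
    · have h1 : n * y₁ ∉ S := by
        intro h0
        apply hy₁S
        have := S.mul_mem (S.inv_mem hnS) h0
        simpa using this
      have e1 := key _ (N.mul_mem hn hy₁) h1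
      have e2 := key _ hy₁ hy₁S
      have e3 : n * x₀ * y₁ = x₀ * n * y₁ := by
        calc n * x₀ * y₁ = n * (x₀ * y₁) := by group
          _ = n * (y₁ * x₀) := by rw [e2]
          _ = n * y₁ * x₀ := by group
          _ = x₀ * (n * y₁) := e1
          _ = _ := by group
      exact mul_right_cancel e3
    · exact key n hn hnS
  exact fun a ha => (hNS ha).2

/-- Case I, step 2: `x ^ p ∈ Z(N)` for a prime `p`. -/
theorem caseI_pow [Finite G] {N : Subgroup G} [hN : N.Normal] (h : Hyp2 N)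
    (hc : ∀ a ∈ N, ∀ n ∈ N, n * a * n⁻¹ * a⁻¹ ∈ Z0 N) {x : G} (hx : x ∈ N) (hxW : x ∉ Z0 N) :
    ∃ p : ℕ, p.Prime ∧ x ^ p ∈ Z0 N := by
  -- multiplicativity
  have mulφ : ∀ a ∈ N, ∀ b ∈ N, a * b * x * (a * b)⁻¹ * x⁻¹ =
      (b * x * b⁻¹ * x⁻¹) * (a * x * a⁻¹ * x⁻¹) := by
    intro a ha b hb
    have e : a * b * x * (a * b)⁻¹ * x⁻¹ =
        a * (b * x * b⁻¹ * x⁻¹) * a⁻¹ * (a * x * a⁻¹ * x⁻¹) := by group
    rw [e, Z0_comm (hc x hx b hb) ha]
    group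
  have conjφ : ∀ ν ∈ N, ∀ n ∈ N, (ν * n * ν⁻¹) * x * (ν * n * ν⁻¹)⁻¹ * x⁻¹ =
      n * x * n⁻¹ * x⁻¹ := by
    intro ν hν n hn
    rw [mulφ _ (N.mul_mem hν hn) _ (N.inv_mem hν), mulφ _ hν _ hn]
    have e1 := mulφ ν hν ν⁻¹ (N.inv_mem hν)
    have e2 : ν * ν⁻¹ * x * (ν * ν⁻¹)⁻¹ * x⁻¹ = 1 := by group
    rw [e2] at e1
    have e3 := Z0_comm (hc x hx n hn) (Z0_le N (hc x hx ν⁻¹ (N.inv_mem hν)))
    rw [← mul_assoc, e3, mul_assoc, ← e1, mul_one]
  have key : ∀ g ∈ centralizer ({x} : Set G), ∀ n ∈ N,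
      g * (n * x * n⁻¹ * x⁻¹) = (n * x * n⁻¹ * x⁻¹) * g := by
    intro g hg n hn
    by_cases hnZ : n ∈ Z0 N
    · have : n * x * n⁻¹ * x⁻¹ = 1 := by
        rw [← Z0_comm hnZ hx]; group
      rw [this, mul_one, one_mul]
    · obtain ⟨ν, hν, e⟩ := conj_eq h hn hnZ g
      have e1 : g * x = x * g := mem_centralizer_singleton_iff.1 hg
      have e2 : g * x * g⁻¹ = x := by rw [e1]; group
      have e3 : g * (n * x * n⁻¹ * x⁻¹) * g⁻¹ = n * x * n⁻¹ * x⁻¹ := by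
        calc g * (n * x * n⁻¹ * x⁻¹) * g⁻¹
            = (g * n * g⁻¹) * (g * x * g⁻¹) * (g * n * g⁻¹)⁻¹ * (g * x * g⁻¹)⁻¹ := by group
          _ = (ν * n * ν⁻¹) * x * (ν * n * ν⁻¹)⁻¹ * x⁻¹ := by rw [e, e2]
          _ = _ := conjφ ν hν n hn
      calc g * (n * x * n⁻¹ * x⁻¹) = g * (n * x * n⁻¹ * x⁻¹) * g⁻¹ * g := by group
        _ = _ := by rw [e3]
  haveI hnor : (centralizer ({x} : Set G)).Normal := by
    refine ⟨fun m hm g => ?_⟩
    obtain ⟨n, hn, m₁, hm₁, rfl⟩ := decompN h hx hxW g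
    have hm₂ : m₁ * m * m₁⁻¹ ∈ centralizer ({x} : Set G) :=
      mul_mem (mul_mem hm₁ hm) (inv_mem hm₁)
    set m₂ := m₁ * m * m₁⁻¹ with hm₂def
    have e0 : n * m₁ * m * (n * m₁)⁻¹ = n * m₂ * n⁻¹ := by rw [hm₂def]; group
    rw [e0, mem_centralizer_singleton_iff]
    have e1 : m₂ * x = x * m₂ := mem_centralizer_singleton_iff.1 hm₂
    have e2 := key m₂ hm₂ n⁻¹ (N.inv_mem hn)
    have e3 : m₂ * (n⁻¹ * x * n) = (n⁻¹ * x * n) * m₂ := by
      have e4 : n⁻¹ * x * n = (n⁻¹ * x * (n⁻¹)⁻¹ * x⁻¹) * x := by group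
      rw [e4]
      exact comm_mul e2 e1
    calc n * m₂ * n⁻¹ * x = n * (m₂ * (n⁻¹ * x * n)) * n⁻¹ := by group
      _ = n * ((n⁻¹ * x * n) * m₂) * n⁻¹ := by rw [e3]
      _ = _ := by group
  refine ⟨_, Cfsg.H1.index_prime_of_normal_coatom _ (co h hx hxW), ?_⟩
  set p := (centralizer ({x} : Set G)).index with hp
  refine mem_Z0_of (N.pow_mem hx _) ?_
  rw [mem_centralizer_iff]
  intro n hn
  have hcZ : (n * x)⁻¹ * (x * n) ∈ Z0 N := by
    have := hc n⁻¹ (N.inv_mem hn) x⁻¹ (N.inv_mem hx)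
    have e : x⁻¹ * n⁻¹ * (x⁻¹)⁻¹ * (n⁻¹)⁻¹ = (n * x)⁻¹ * (x * n) := by group
    rwa [e] at this
  have e : x * n = n * x * ((n * x)⁻¹ * (x * n)) := by group
  have h1 : n ^ p ∈ centralizer ({x} : Set G) := pow_index_mem _ _
  rw [mem_centralizer_singleton_iff] at h1
  have h2 := pow2' (Z0_comm hcZ hn).symm e p
  rw [← h1] at h2
  have h3 : ((n * x)⁻¹ * (x * n)) ^ p = 1 := by
    have := h2.symm
    rwa [mul_eq_left] at this
  have h4 := pow1' (Z0_comm hcZ hx).symm e p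
  rw [h3, mul_one] at h4
  exact h4.symm

theorem mem_center_iff_Z0 {N : Subgroup G} (a : ↥N) : a ∈ center ↥N ↔ (a : G) ∈ Z0 N := by
  constructor
  · intro ha
    refine mem_Z0_of a.2 ?_
    rw [mem_centralizer_iff]
    intro n hn
    exact congrArg Subtype.val ((mem_center_iff.1 ha) ⟨n, hn⟩)
  · intro ha
    rw [mem_center_iff]
    intro n
    exact Subtype.ext (Z0_comm ha n.2)

theorem caseI [Finite G] {N : Subgroup G} [hN : N.Normal] (h : Hyp2 N) {x₀ : G} (hx₀ : x₀ ∈ N)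
    (hx₀W : x₀ ∉ Z0 N) (hI : ∀ n ∈ N, n * x₀ * n⁻¹ * x₀⁻¹ ∈ Z0 N) :
    ∃ p : ℕ, p.Prime ∧ Cfsg.IsElementaryAbelian p (⊤ : Subgroup (↥N ⧸ center ↥N)) := by
  have hc := caseI_comm h hx₀ hx₀W hI
  have hQc : ∀ a b : ↥N ⧸ center ↥N, a * b = b * a := by
    intro a b
    induction a using QuotientGroup.induction_on with
    | H a =>
      induction b using QuotientGroup.induction_on with
      | H b =>
        rw [← QuotientGroup.mk_mul, ← QuotientGroup.mk_mul]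
        symm
        rw [QuotientGroup.eq, mem_center_iff_Z0]
        have := hc (b : G)⁻¹ (N.inv_mem b.2) (a : G)⁻¹ (N.inv_mem a.2)
        have e : (a : G)⁻¹ * (b : G)⁻¹ * ((a : G)⁻¹)⁻¹ * ((b : G)⁻¹)⁻¹ =
            (((b * a)⁻¹ * (a * b) : ↥N) : G) := by
          push_cast
          group
        rwa [e] at this
  have hQp : ∀ a : ↥N ⧸ center ↥N, a ≠ 1 → (orderOf a).Prime := by
    intro a ha
    induction a using QuotientGroup.induction_on with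
    | H a =>
      have haZ : (a : G) ∉ Z0 N := fun h0 =>
        ha ((QuotientGroup.eq_one_iff a).2 ((mem_center_iff_Z0 a).2 h0))
      obtain ⟨p, hp, hap⟩ := caseI_pow h hc a.2 haZ
      haveI := Fact.mk hp
      have : orderOf (QuotientGroup.mk a : ↥N ⧸ center ↥N) = p := by
        apply orderOf_eq_prime _ ha
        rw [← QuotientGroup.mk_pow]
        exact (QuotientGroup.eq_one_iff _).2 ((mem_center_iff_Z0 _).2 hap)
      rw [this]; exact hp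
  have hx1 : (QuotientGroup.mk (⟨x₀, hx₀⟩ : ↥N) : ↥N ⧸ center ↥N) ≠ 1 := fun h0 =>
    hx₀W ((mem_center_iff_Z0 _).1 ((QuotientGroup.eq_one_iff _).1 h0))
  refine ⟨_, hQp _ hx1, ⟨⟨fun a b => Subtype.ext (hQc a b)⟩⟩, fun a _ => ?_⟩
  by_cases ha : a = 1
  · rw [ha, one_pow]
  · rw [orderOf_eq_of_prime_orders hQc hQp hx1 ha, pow_orderOf_eq_one]

end Cfsg.Agent.H20.CMaxN
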