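import Mathlib
import Cfsg.Agent.H20.CMaxN2
import Cfsg.Agent.Lib.Helper13.NilMax
import Cfsg.Agent.S0086

set_option autoImplicit false
set_option linter.style.haveILetI false

namespace Cfsg.Agent.H20.CMaxN

open Subgroup Cfsg.Agent.H20.CMax Cfsg.Agent.Lib.Helper13

universe u

variable {G : Type u} [Group G]

/-- Case II hypothesis -/
def HII (N : Subgroup G) : Prop :=
  ∀ x ∈ N, x ∉ Z0 N → ∀ n ∈ N, n * x * n⁻¹ * x⁻¹ ∈ Z0 N → n * x * n⁻¹ * x⁻¹ = 1

theorem comm_of_cm {n x : G} (h : n * x * n⁻¹ * x⁻¹ = 1) : n * x = x * n := by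
  have h1 := mul_inv_eq_one.1 h
  exact mul_inv_eq_iff_eq_mul.1 h1

theorem comm_of_central_mod {N : Subgroup G} [N.Normal] (hII : HII N) {u m : G} (huN : u ∈ N)
    (huZ : u ∉ Z0 N) (hm : m ∈ N) (hw : u⁻¹ * m⁻¹ * u * m ∈ Z0 N) : m * u = u * m := by
  have h1 := (Z0_normal N).conj_mem _ hw u
  have e : u * (u⁻¹ * m⁻¹ * u * m) * u⁻¹ = m⁻¹ * u * (m⁻¹)⁻¹ * u⁻¹ := by group
  rw [e] at h1
  have h2 := comm_of_cm (hII u huN huZ m⁻¹ (N.inv_mem hm) h1)
  calc m * u = m * (u * m⁻¹) * m := by group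
    _ = m * (m⁻¹ * u) * m := by rw [h2]
    _ = u * m := by group

theorem isPGroup_zpowers {H : Type*} [Group H] {p : ℕ} [Fact p.Prime] {c : H} {j : ℕ}
    (hc : c ^ (p ^ j) = 1) : IsPGroup p ↥(zpowers c) := by
  obtain ⟨i, _, hi⟩ := (Nat.dvd_prime_pow (Fact.out : p.Prime)).1 (orderOf_dvd_of_pow_eq_one hc)
  apply IsPGroup.of_card (n := i)
  rw [Nat.card_zpowers, hi]

theorem T_abelian [Finite G] {N : Subgroup G} [hN : N.Normal] (h : Hyp2 N) (hII : HII N)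
    {T : Subgroup G} (hTn : T.Normal) (hTN : T ≤ N) (hZT : Z0 N ≤ T) (hTne : T ≠ Z0 N)
    (hmin : ∀ D : Subgroup G, D.Normal → Z0 N ≤ D → D ≤ T → D = Z0 N ∨ D = T) :
    ∀ a ∈ T, ∀ b ∈ T, a * b = b * a := by
  by_contra hna
  haveI := hTn
  -- (V.a)
  have hZT' : ∀ t ∈ T, (∀ s ∈ T, s * t = t * s) → t ∈ Z0 N := by
    intro t ht hts
    have hmem : t ∈ T ⊓ centralizer (T : Set G) := ⟨ht, mem_centralizer_iff.2 hts⟩
    rcases hmin (T ⊓ centralizer (T : Set G)) inferInstance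
      (fun z hz => ⟨hZT hz, mem_centralizer_iff.2 (fun s hs => Z0_comm hz (hTN hs))⟩)
      inf_le_left with h1 | h1
    · rw [h1] at hmem; exact hmem
    · exfalso
      apply hna
      intro a ha b hb
      have : b ∈ T ⊓ centralizer (T : Set G) := by rw [h1]; exact hb
      exact mem_centralizer_iff.1 this.2 a ha
  -- (V.b)
  have notPZ : ∀ r : ℕ, r.Prime → ¬ ∀ t ∈ T, ∃ k : ℕ, t ^ (r ^ k) ∈ Z0 N := by
    intro r hr hall
    haveI := Fact.mk hr
    haveI : ((Z0 N).subgroupOf T).Normal := (Z0_normal N).subgroupOf T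
    have hp : IsPGroup r (↥T ⧸ (Z0 N).subgroupOf T) := by
      intro q
      induction q using QuotientGroup.induction_on with
      | H g =>
        obtain ⟨k, hk⟩ := hall g g.2
        refine ⟨k, ?_⟩
        rw [← QuotientGroup.mk_pow, QuotientGroup.eq_one_iff]
        exact hk
    have hne : (Z0 N).subgroupOf T ≠ ⊤ := by
      intro h0
      rw [subgroupOf_eq_top] at h0
      exact hTne (le_antisymm h0 hZT)
    obtain ⟨u, hu, hum⟩ := exists_central_mod _ hp hne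
    have huZ : (u : G) ∉ Z0 N := hu
    apply huZ
    apply hZT' u u.2
    intro s hs
    exact comm_of_central_mod hII (hTN u.2) huZ (hTN hs) (hum ⟨s, hs⟩)
  -- (V.c)
  obtain ⟨p, hp, hp2, c, hcT, hcZ, j, hcj⟩ : ∃ p : ℕ, p.Prime ∧ p ≠ 2 ∧ ∃ c ∈ T, c ∉ Z0 N ∧
      ∃ j : ℕ, c ^ (p ^ j) = 1 := by
    have h2 := notPZ 2 Nat.prime_two
    push Not at h2
    obtain ⟨t, ht, htk⟩ := h2
    obtain ⟨a, ha, b, hb, hab, ⟨k, hk⟩, hcop⟩ := decomp t Nat.prime_two
    have hbZ : b ∉ Z0 N := by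
      intro h0
      apply htk k
      have hc : Commute a b := by
        obtain ⟨i, rfl⟩ := mem_zpowers_iff.1 ha
        obtain ⟨i', rfl⟩ := mem_zpowers_iff.1 hb
        exact Commute.zpow_zpow_self t i i'
      rw [hab, hc.mul_pow, hk, one_mul]
      exact pow_mem h0 _
    obtain ⟨p, hp, c, hc, hcZ, j, hcj⟩ := L3 (Z0 N) _ b rfl hbZ
    refine ⟨p, hp, ?_, c, (zpowers_le.2 ht) ((zpowers_le.2 hb) hc), hcZ, j, hcj⟩
    rintro rfl
    apply hcZ
    have h3 : orderOf c = 1 :=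
      Nat.eq_one_of_dvd_coprimes (Nat.Coprime.pow_right j hcop)
        (orderOf_dvd_of_mem_zpowers hc) (orderOf_dvd_of_pow_eq_one hcj)
    rw [orderOf_eq_one_iff] at h3
    rw [h3]; exact one_mem _
  haveI := Fact.mk hp
  -- (V.d)
  have hc' : (⟨c, hcT⟩ : ↥T) ^ (p ^ j) = 1 := Subtype.ext hcj
  obtain ⟨P, hP⟩ := (isPGroup_zpowers hc').exists_le_sylow
  set P' : Subgroup G := (P : Subgroup ↥T).map T.subtype with hP'def
  have hP'p : IsPGroup p ↥P' := P.2.map _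
  have hP'T : P' ≤ T := by
    rintro _ ⟨t, _, rfl⟩
    exact t.2
  have hcP' : c ∈ P' := ⟨⟨c, hcT⟩, hP (mem_zpowers _), rfl⟩
  obtain ⟨z, hzP', hzZ, hzc⟩ : ∃ z ∈ P', z ∉ Z0 N ∧ ∀ y ∈ P', y * z = z * y := by
    haveI : ((Z0 N).subgroupOf P').Normal := (Z0_normal N).subgroupOf P'
    have hne : (Z0 N).subgroupOf P' ≠ ⊤ := by
      intro h0
      rw [subgroupOf_eq_top] at h0
      exact hcZ (h0 hcP')
    obtain ⟨u, hu, hum⟩ := exists_central_mod _ (hP'p.to_quotient ((Z0 N).subgroupOf P')) hne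
    refine ⟨u, u.2, hu, fun y hy => ?_⟩
    exact comm_of_central_mod hII (hTN (hP'T u.2)) hu (hTN (hP'T hy)) (hum ⟨y, hy⟩)
  have hzT : z ∈ T := hP'T hzP'
  have hzN : z ∈ N := hTN hzT
  -- (V.e)
  set H : Subgroup G := T ⊓ centralizer ({z} : Set G) with hHdef
  have hP'H : P' ≤ H := fun y hy => ⟨hP'T hy, mem_centralizer_singleton_iff.2 (hzc y hy)⟩
  obtain ⟨p₀, hp₀, hcrit⟩ := dich h hzN hzZ
  have hHle : H ≤ N ⊓ centralizer ({z} : Set G) := fun y hy => ⟨hTN hy.1, hy.2⟩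
  haveI hHnil : Group.IsNilpotent ↥H := nilp_of_crit hp₀ (fun m hm => by
    obtain ⟨k, hk⟩ := hcrit m (hHle hm)
    exact ⟨k, fun v hv => hk v (hHle hv)⟩)
  -- (V.f)
  have hchar : ∀ y ∈ H, (∃ k : ℕ, y ^ (p ^ k) = 1) → y ∈ P' := by
    obtain ⟨S, hS⟩ := (hP'p.comap_subtype (K := H)).exists_le_sylow
    haveI hSn : (S : Subgroup ↥H).Normal :=
      Sylow.normal_of_normalizerCondition Group.normalizerCondition_of_isNilpotent S
    have hSP : ∀ s : ↥H, s ∈ S → (s : G) ∈ P' := by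
      have h1 : IsPGroup p ↥(((S : Subgroup ↥H).map H.subtype).subgroupOf T) :=
        (S.2.map H.subtype).comap_subtype
      have h2 : (P : Subgroup ↥T) ≤ ((S : Subgroup ↥H).map H.subtype).subgroupOf T := by
        intro t ht
        have htP' : (t : G) ∈ P' := ⟨t, ht, rfl⟩
        exact ⟨⟨t, hP'H htP'⟩, hS htP', rfl⟩
      have h3 := P.is_maximal' h1 h2
      intro s hs
      have hsT : (s : G) ∈ T := s.2.1
      have : (⟨s, hsT⟩ : ↥T) ∈ ((S : Subgroup ↥H).map H.subtype).subgroupOf T := ⟨s, hs, rfl⟩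
      rw [h3] at this
      exact ⟨_, this, rfl⟩
    rintro y hy ⟨k, hk⟩
    have hy' : (⟨y, hy⟩ : ↥H) ^ (p ^ k) = 1 := Subtype.ext hk
    obtain ⟨S₂, hS₂⟩ := (isPGroup_zpowers hy').exists_le_sylow
    obtain ⟨g, hg⟩ := MulAction.exists_smul_eq ↥H S S₂
    rw [Sylow.smul_eq_of_normal] at hg
    rw [← hg] at hS₂
    exact hSP _ (hS₂ (mem_zpowers _))
  -- (V.g)
  have hMP : centralizer ({z} : Set G) ≤ normalizer (P' : Set G) := by
    apply le_normalizer_of_forall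
    intro g hg y hy
    obtain ⟨k, hk⟩ := hP'p ⟨y, hy⟩
    have hk' : y ^ (p ^ k) = 1 := congrArg Subtype.val hk
    apply hchar
    · exact mem_inf.2 ⟨hTn.conj_mem y (hP'T hy) g,
        mul_mem (mul_mem hg (mem_inf.1 (hP'H hy)).2) (inv_mem hg)⟩
    · exact ⟨k, by rw [conj_pow, hk']; group⟩
  set K : Subgroup G := zAb 0 P' with hKdef
  have hMK : centralizer ({z} : Set G) ≤ normalizer (K : Set G) :=
    hMP.trans (normalizer_le_normalizer_zAb P')
  have hzK : z ∈ K := by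
    apply (mem_sInf).2
    intro A hA
    apply mem_of_mem_maxAb hA hzP' _ (pow_zero z)
    rw [mem_centralizer_iff]
    intro a ha
    exact hzc a (hA.1 ha)
  have hKP' : K ≤ P' := zAb_le P'
  have hKab := (zAb_abExp (e := 0) P').1
  rcases (co h hzN hzZ).le_iff.1 hMK with h1 | h1
  · haveI hKn : K.Normal := normalizer_eq_top_iff.1 h1
    rcases hmin (K ⊔ Z0 N) inferInstance le_sup_right (sup_le (hKP'.trans hP'T) hZT) with h2 | h2
    · exact hzZ (h2 ▸ (le_sup_left : K ≤ K ⊔ Z0 N) hzK)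
    · apply hna
      intro a ha b hb
      rw [← h2, mem_sup_of_normal_right] at ha hb
      obtain ⟨k₁, hk₁, ζ₁, hζ₁, rfl⟩ := ha
      obtain ⟨k₂, hk₂, ζ₂, hζ₂, rfl⟩ := hb
      have hk₁N : k₁ ∈ N := hTN (hP'T (hKP' hk₁))
      have hk₂N : k₂ ∈ N := hTN (hP'T (hKP' hk₂))
      have e1 := hKab k₁ hk₁ k₂ hk₂
      have e2 := Z0_comm hζ₁ hk₂N
      have e3 := Z0_comm hζ₂ hk₁N
      have e4 := Z0_comm hζ₁ (Z0_le N hζ₂)
      calc k₁ * ζ₁ * (k₂ * ζ₂) = k₁ * (ζ₁ * k₂) * ζ₂ := by group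
        _ = k₁ * (k₂ * ζ₁) * ζ₂ := by rw [e2]
        _ = (k₁ * k₂) * (ζ₁ * ζ₂) := by group
        _ = (k₂ * k₁) * (ζ₂ * ζ₁) := by rw [e1, e4]
        _ = k₂ * (k₁ * ζ₂) * ζ₁ := by group
        _ = k₂ * (ζ₂ * k₁) * ζ₁ := by rw [e3]
        _ = _ := by group
  · -- normal p-complement
    have hPeq : P'.subgroupOf T = (P : Subgroup ↥T) := by
      rw [hP'def, subgroupOf, comap_map_eq_self_of_injective T.subtype_injective]
    have hKmap : (zAb 0 (P : Subgroup ↥T)).map T.subtype = K := by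
      rw [← hPeq]; exact zAb_map_subtype 0 hP'T
    have hRle : normalizer (zAb 0 (P : Subgroup ↥T) : Set ↥T) ≤ H.subgroupOf T := by
      have h3 : (normalizer (zAb 0 (P : Subgroup ↥T) : Set ↥T)).map T.subtype ≤
          normalizer (K : Set G) := by
        apply le_normalizer_of_forall
        rintro _ ⟨r, hr, rfl⟩ i hi
        rw [← hKmap] at hi ⊢
        obtain ⟨t, ht, rfl⟩ := hi
        exact ⟨r * t * r⁻¹, (mem_normalizer_iff.1 hr t).1 ht, rfl⟩
      intro r hr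
      have h4 : (r : G) ∈ normalizer (K : Set G) := h3 ⟨r, hr, rfl⟩
      rw [h1] at h4
      exact ⟨r.2, h4⟩
    haveI : Group.IsNilpotent ↥(H.subgroupOf T) := nilp_of_crit hp₀ (fun m hm => by
      obtain ⟨k, hk⟩ := hcrit m (hHle hm)
      exact ⟨k, fun v hv => Subtype.ext (hk v (hHle hv))⟩)
    have hnpc : HasNormalPComplement p ↥T :=
      npc_of_zAb hp2 (Or.inl rfl) P (npc_of_le hRle (npc_of_nilpotent p))
    obtain ⟨P₂, L, hLn, hLc⟩ := hnpc
    haveI := hLn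
    have hLmem := Cfsg.Agent.S0086.result P₂ L hLc
    have hL'n : (L.map T.subtype).Normal := by
      refine ⟨?_⟩
      rintro _ ⟨t, ht, rfl⟩ g
      refine ⟨⟨g * t * g⁻¹, hTn.conj_mem t t.2 g⟩, ?_, rfl⟩
      have ht : t ∈ L := ht
      show (⟨g * t * g⁻¹, hTn.conj_mem t t.2 g⟩ : ↥T) ∈ L
      rw [hLmem] at ht ⊢
      have e1 : orderOf (⟨g * t * g⁻¹, hTn.conj_mem t t.2 g⟩ : ↥T) = orderOf t := by
        rw [← Subgroup.orderOf_coe, ← Subgroup.orderOf_coe]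
        exact (MulAut.conj g).orderOf_eq (t : G)
      rw [e1]; exact ht
    haveI := hL'n
    have hL'T : L.map T.subtype ≤ T := by
      rintro _ ⟨t, _, rfl⟩
      exact t.2
    rcases hmin (L.map T.subtype ⊔ Z0 N) inferInstance le_sup_right (sup_le hL'T hZT) with h2 | h2
    · apply notPZ p hp
      intro t ht
      obtain ⟨k, hk⟩ := IsPGroup.iff_card.1 P₂.2
      refine ⟨k, ?_⟩
      have h5 : (⟨t, ht⟩ : ↥T) ^ L.index ∈ L := pow_index_mem _ _
      rw [hLc.symm.index_eq_card, hk] at h5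
      rw [← h2]
      exact (le_sup_left : L.map T.subtype ≤ _) ⟨_, h5, rfl⟩
    · apply hcZ
      have hc2 : c ∈ L.map T.subtype ⊔ Z0 N := by rw [h2]; exact hcT
      rw [mem_sup_of_normal_right] at hc2
      obtain ⟨_, ⟨l, hl, rfl⟩, ζ, hζ, e⟩ := hc2
      have hlc := (hLmem l).1 hl
      rw [← Subgroup.orderOf_coe] at hlc
      have hcomm : Commute (l : G) ζ := Z0_comm hζ (hTN l.2)
      have e2 : c ^ orderOf (l : G) ∈ Z0 N := by
        have e' : T.subtype l * ζ = c := e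
        rw [← e']
        show ((l : G) * ζ) ^ orderOf (l : G) ∈ Z0 N
        rw [hcomm.mul_pow, pow_orderOf_eq_one, one_mul]
        exact pow_mem hζ _
      have hcop : (orderOf (l : G)).Coprime (orderOf c) :=
        Nat.Coprime.coprime_dvd_right (orderOf_dvd_of_pow_eq_one hcj) (Nat.Coprime.pow_right _ hlc)
      obtain ⟨i, hi⟩ := exists_pow_eq_self_of_coprime hcop
      rw [← hi]
      exact pow_mem e2 i

end Cfsg.Agent.H20.CMaxN
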