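import Mathlib
import Cfsg.Agent.H20.CMaxN3

set_option autoImplicit false
set_option linter.style.haveILetI false

namespace Cfsg.Agent.H20.CMaxN

open Subgroup Cfsg.Agent.H20.CMax

universe u

variable {G : Type u} [Group G]

/-- internal structure in Case II -/
structure Dat (N T : Subgroup G) (p : ℕ) : Prop where
  hTn : T.Normal
  hTN : T ≤ N
  hZT : Z0 N ≤ T
  hTab : ∀ a ∈ T, ∀ b ∈ T, a * b = b * a
  ht₀ : ∃ t₀ ∈ T, t₀ ∉ Z0 N
  hx₁ : ∃ x₁ ∈ N, x₁ ∉ T
  hdec : ∀ x ∈ N, x ∉ T → ∀ n ∈ N, ∃ d ∈ T, ∃ m ∈ N ⊓ centralizer ({x} : Set G), n = d * m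
  hfix : ∀ x ∈ N, x ∉ T → ∀ t ∈ T, t * x = x * t → t ∈ Z0 N
  hidx : (T.subgroupOf N).index.Prime
  hp : p.Prime
  hpow : ∀ t ∈ T, t ^ p ∈ Z0 N

theorem exists_dat [Finite G] {N : Subgroup G} [hN : N.Normal] (h : Hyp2 N) (hII : HII N)
    {T : Subgroup G} (hTn : T.Normal) (hTN : T ≤ N) (hZT : Z0 N ≤ T) (hTne : T ≠ Z0 N)
    (hmin : ∀ D : Subgroup G, D.Normal → Z0 N ≤ D → D ≤ T → D = Z0 N ∨ D = T) :
    ∃ p : ℕ, Dat N T p := by
  have hTab := T_abelian h hII hTn hTN hZT hTne hmin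
  haveI := hTn
  obtain ⟨t₀, ht₀T, ht₀Z⟩ : ∃ t₀ ∈ T, t₀ ∉ Z0 N := by
    by_contra h0
    push Not at h0
    exact hTne (le_antisymm h0 hZT)
  -- elements not centralizing T
  have hnZ : ∀ x ∈ N, ¬ T ≤ centralizer ({x} : Set G) → x ∉ Z0 N := by
    intro x _ hxT hxZ
    apply hxT
    intro t ht
    rw [mem_centralizer_singleton_iff]
    exact Z0_comm hxZ (hTN ht)
  have hdec0 : ∀ x ∈ N, ¬ T ≤ centralizer ({x} : Set G) → ∀ n ∈ N,
      ∃ d ∈ T, ∃ m ∈ N ⊓ centralizer ({x} : Set G), n = d * m := fun x hx hxT n hn =>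
    decompD h hx (hnZ x hx hxT) hTn hTN hxT hn
  have hfix0 : ∀ x ∈ N, ¬ T ≤ centralizer ({x} : Set G) → ∀ t ∈ T, t * x = x * t → t ∈ Z0 N := by
    intro x hx hxT t ht htx
    have hD : (T ⊓ centralizer ({x} : Set G)).Normal := by
      apply normal_of_inv h (inf_le_left.trans hTN)
      · intro z hz
        exact ⟨hZT hz, mem_centralizer_singleton_iff.2 (Z0_comm hz hx).symm⟩
      · intro n hn s hs
        obtain ⟨d, hd, m, hm, rfl⟩ := hdec0 x hx hxT n hn
        have h1 : m * s * m⁻¹ ∈ T := hTn.conj_mem s hs.1 m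
        have e : d * m * s * (d * m)⁻¹ = m * s * m⁻¹ := by
          calc d * m * s * (d * m)⁻¹ = d * (m * s * m⁻¹) * d⁻¹ := by group
            _ = (m * s * m⁻¹) * d * d⁻¹ := by rw [hTab d hd _ h1]
            _ = _ := by group
        rw [e]
        exact mem_inf.2 ⟨h1, mul_mem (mul_mem hm.2 (mem_inf.1 hs).2) (inv_mem hm.2)⟩
    rcases hmin _ hD (fun z hz => ⟨hZT hz, mem_centralizer_singleton_iff.2 (Z0_comm hz hx).symm⟩)
      inf_le_left with h1 | h1
    · rw [← h1]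
      exact ⟨ht, mem_centralizer_singleton_iff.2 htx⟩
    · exact absurd (h1 ▸ inf_le_right) hxT
  -- E = Z0
  have hE : ∀ x ∈ N, ¬ T ≤ centralizer ({x} : Set G) → ∀ e ∈ N, (∀ t ∈ T, t * e = e * t) →
      e * x = x * e → e ∈ Z0 N := by
    intro x hx hxT e₀ he₀N he₀T he₀x
    by_contra he₀Z
    set E : Subgroup G := (N ⊓ centralizer (T : Set G)) ⊓ centralizer ({x} : Set G) with hEdef
    have hZE : Z0 N ≤ E := fun z hz =>
      ⟨⟨hz.1, mem_centralizer_iff.2 (fun t ht => Z0_comm hz (hTN ht))⟩,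
        mem_centralizer_singleton_iff.2 (Z0_comm hz hx).symm⟩
    have hEN : E ≤ N := fun y hy => hy.1.1
    have hEn : E.Normal := by
      apply normal_of_inv h hEN hZE
      intro n hn s hs
      obtain ⟨d, hd, m, hm, rfl⟩ := hdec0 x hx hxT n hn
      have h1 : m * s * m⁻¹ ∈ N ⊓ centralizer (T : Set G) :=
        (inferInstance : (N ⊓ centralizer (T : Set G)).Normal).conj_mem s hs.1 m
      have e : d * m * s * (d * m)⁻¹ = m * s * m⁻¹ := by
        calc d * m * s * (d * m)⁻¹ = d * (m * s * m⁻¹) * d⁻¹ := by group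
          _ = (m * s * m⁻¹) * d * d⁻¹ := by rw [mem_centralizer_iff.1 h1.2 d hd]
          _ = _ := by group
      rw [e]
      exact mem_inf.2 ⟨h1, mul_mem (mul_mem hm.2 (mem_inf.1 hs).2) (inv_mem hm.2)⟩
    have he₀E : e₀ ∈ E :=
      ⟨⟨he₀N, mem_centralizer_iff.2 he₀T⟩, mem_centralizer_singleton_iff.2 he₀x⟩
    have hTE : ∀ w ∈ T, w ∈ E → w ∈ Z0 N := fun w hwT hwE =>
      hfix0 x hx hxT w hwT (mem_centralizer_singleton_iff.1 hwE.2)
    apply hxT
    intro t ht
    rw [mem_centralizer_singleton_iff]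
    by_cases htZ : t ∈ Z0 N
    · exact (Z0_comm htZ hx).symm
    · have hteN : t * e₀ ∈ N := N.mul_mem (hTN ht) he₀N
      have hteZ : t * e₀ ∉ Z0 N := by
        intro h0
        apply htZ
        apply hTE t ht
        have := E.mul_mem (hZE h0) (E.inv_mem he₀E)
        simpa using this
      have hboth : ∀ g ∈ centralizer ({t * e₀} : Set G), g * t = t * g ∧ g * e₀ = e₀ * g := by
        intro g hg
        have e1 : g * (t * e₀) = t * e₀ * g := mem_centralizer_singleton_iff.1 hg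
        have e2 : (g * t * g⁻¹) * (g * e₀ * g⁻¹) = t * e₀ := by
          calc (g * t * g⁻¹) * (g * e₀ * g⁻¹) = g * (t * e₀) * g⁻¹ := by group
            _ = t * e₀ * g * g⁻¹ := by rw [e1]
            _ = _ := by group
        have ht' : g * t * g⁻¹ ∈ T := hTn.conj_mem t ht g
        have he' : g * e₀ * g⁻¹ ∈ E := hEn.conj_mem e₀ he₀E g
        have e3 : g * t * g⁻¹ * t⁻¹ = t * (e₀ * (g * e₀ * g⁻¹)⁻¹) * t⁻¹ := by
          have : g * t * g⁻¹ = t * e₀ * (g * e₀ * g⁻¹)⁻¹ := by rw [← e2]; group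
          rw [this]; group
        have h3 : g * t * g⁻¹ * t⁻¹ ∈ Z0 N := by
          apply hTE _ (T.mul_mem ht' (T.inv_mem ht))
          rw [e3]
          exact hEn.conj_mem _ (E.mul_mem he₀E (E.inv_mem he')) t
        obtain ⟨ν, hν, e4⟩ := conj_eq h (hTN ht) htZ g
        rw [e4] at h3
        have e5 := hII t (hTN ht) htZ ν hν h3
        rw [← e4] at e5
        have e6 : g * t = t * g := comm_of_cm e5
        refine ⟨e6, ?_⟩
        have e7 : t * (g * e₀) = t * (e₀ * g) := by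
          calc t * (g * e₀) = (t * g) * e₀ := by group
            _ = (g * t) * e₀ := by rw [e6]
            _ = g * (t * e₀) := by group
            _ = t * e₀ * g := e1
            _ = _ := by group
        exact mul_left_cancel e7
      have c1 := B0' h hteN hteZ (hTN ht) htZ (fun g hg =>
        mem_centralizer_singleton_iff.2 (hboth g hg).1)
      have c2 := B0' h hteN hteZ he₀N he₀Z (fun g hg =>
        mem_centralizer_singleton_iff.2 (hboth g hg).2)
      have hx2 : x ∈ centralizer ({e₀} : Set G) := mem_centralizer_singleton_iff.2 he₀x.symm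
      rw [← c2, c1] at hx2
      exact (mem_centralizer_singleton_iff.1 hx2).symm
  -- some x does not centralize T
  obtain ⟨x₀, hx₀N, hx₀T⟩ : ∃ x₀ ∈ N, ¬ T ≤ centralizer ({x₀} : Set G) := by
    by_contra h0
    push Not at h0
    apply ht₀Z
    refine mem_Z0_of (hTN ht₀T) ?_
    rw [mem_centralizer_iff]
    intro n hn
    exact (mem_centralizer_singleton_iff.1 (h0 n hn ht₀T)).symm
  have hCT : ∀ c ∈ N, T ≤ centralizer ({c} : Set G) → c ∈ T := by
    intro c hc hcT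
    obtain ⟨d, hd, m, hm, rfl⟩ := hdec0 x₀ hx₀N hx₀T c hc
    apply T.mul_mem hd
    apply hZT
    apply hE x₀ hx₀N hx₀T m hm.1 _ (mem_centralizer_singleton_iff.1 hm.2)
    intro t ht
    have e1 : t * (d * m) = d * m * t := mem_centralizer_singleton_iff.1 (hcT ht)
    have e2 : d * (t * m) = d * (m * t) := by
      calc d * (t * m) = (d * t) * m := by group
        _ = (t * d) * m := by rw [hTab d hd t ht]
        _ = t * (d * m) := by group
        _ = d * m * t := e1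
        _ = _ := by group
    exact mul_left_cancel e2
  have hnT : ∀ x ∈ N, x ∉ T → ¬ T ≤ centralizer ({x} : Set G) := fun x hx hxT h0 =>
    hxT (hCT x hx h0)
  have hx₀nT : x₀ ∉ T := by
    intro h0
    apply hx₀T
    intro t ht
    exact mem_centralizer_singleton_iff.2 (hTab t ht x₀ h0)
  have hdec : ∀ x ∈ N, x ∉ T → ∀ n ∈ N,
      ∃ d ∈ T, ∃ m ∈ N ⊓ centralizer ({x} : Set G), n = d * m := fun x hx hxT =>
    hdec0 x hx (hnT x hx hxT)
  have hfix : ∀ x ∈ N, x ∉ T → ∀ t ∈ T, t * x = x * t → t ∈ Z0 N := fun x hx hxT =>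
    hfix0 x hx (hnT x hx hxT)
  -- C_N(t) = T
  have hCt : ∀ t ∈ T, t ∉ Z0 N → ∀ y ∈ N, y * t = t * y → y ∈ T := by
    intro t ht htZ y hy hyt
    by_contra hyT
    exact htZ (hfix y hy hyT t ht hyt.symm)
  -- N/T abelian
  have hNT : ∀ n ∈ N, ∀ d ∈ N, n * d * n⁻¹ * d⁻¹ ∈ T := by
    intro n hn d hd
    by_cases hdT : d ∈ T
    · exact T.mul_mem (hTn.conj_mem d hdT n) (T.inv_mem hdT)
    · obtain ⟨τ, hτ, m, hm, rfl⟩ := hdec d hd hdT n hn
      have e1 : m * d = d * m := mem_centralizer_singleton_iff.1 hm.2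
      have e : τ * m * d * (τ * m)⁻¹ * d⁻¹ = τ * (d * τ⁻¹ * d⁻¹) := by
        calc τ * m * d * (τ * m)⁻¹ * d⁻¹ = τ * (m * d) * m⁻¹ * τ⁻¹ * d⁻¹ := by group
          _ = τ * (d * m) * m⁻¹ * τ⁻¹ * d⁻¹ := by rw [e1]
          _ = _ := by group
      rw [e]
      exact T.mul_mem hτ (hTn.conj_mem _ (T.inv_mem hτ) d)
  -- prime index
  have hidx : (T.subgroupOf N).index.Prime := by
    haveI : (T.subgroupOf N).Normal := hTn.subgroupOf N
    apply Cfsg.H1.index_prime_of_normal_coatom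
    constructor
    · intro h0
      rw [subgroupOf_eq_top] at h0
      exact hx₀nT (h0 hx₀N)
    · intro D' hD'
      set D : Subgroup G := D'.map N.subtype with hDdef
      have hDN : D ≤ N := by
        rintro _ ⟨y, _, rfl⟩
        exact y.2
      have hTD : T ≤ D := fun t ht => ⟨⟨t, hTN ht⟩, hD'.le ht, rfl⟩
      have hDn : D.Normal := by
        apply normal_of_inv h hDN (hZT.trans hTD)
        intro n hn d hd
        have := D.mul_mem (hTD (hNT n hn d (hDN hd))) hd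
        simpa using this
      obtain ⟨y, hyD', hyT⟩ := SetLike.exists_of_lt hD'
      have hyD : (y : G) ∈ D := ⟨y, hyD', rfl⟩
      have hDt : ¬ D ≤ centralizer ({t₀} : Set G) := by
        intro h0
        exact hyT (hCt t₀ ht₀T ht₀Z y y.2 (mem_centralizer_singleton_iff.1 (h0 hyD)))
      rw [eq_top_iff]
      intro n _
      obtain ⟨d, hd, m, hm, e⟩ := decompD h (hTN ht₀T) ht₀Z hDn hDN hDt n.2
      have hmT : m ∈ T := hCt t₀ ht₀T ht₀Z m hm.1 (mem_centralizer_singleton_iff.1 hm.2)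
      have hnD : (n : G) ∈ D := by rw [e]; exact D.mul_mem hd (hTD hmT)
      obtain ⟨n', hn', e'⟩ := hnD
      have : n' = n := Subtype.ext e'
      rwa [← this]
  -- the prime p
  obtain ⟨p, hp, hpow⟩ : ∃ p : ℕ, p.Prime ∧ ∀ t ∈ T, t ^ p ∈ Z0 N := by
    have hy1 : (QuotientGroup.mk t₀ : G ⧸ Z0 N) ≠ 1 := fun h0 =>
      ht₀Z ((QuotientGroup.eq_one_iff t₀).1 h0)
    have hn1 : orderOf (QuotientGroup.mk t₀ : G ⧸ Z0 N) ≠ 1 := fun h0 =>
      hy1 (orderOf_eq_one_iff.1 h0)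
    set n := orderOf (QuotientGroup.mk t₀ : G ⧸ Z0 N) with hn
    have hp : (n.minFac).Prime := Nat.minFac_prime hn1
    refine ⟨n.minFac, hp, ?_⟩
    have ho : orderOf ((QuotientGroup.mk t₀ : G ⧸ Z0 N) ^ (n / n.minFac)) = n.minFac :=
      orderOf_pow_orderOf_div (orderOf_pos _).ne' (Nat.minFac_dvd n)
    have hl0Z : t₀ ^ (n / n.minFac) ∉ Z0 N := by
      intro h0
      have : (QuotientGroup.mk t₀ : G ⧸ Z0 N) ^ (n / n.minFac) = 1 := by
        rw [← QuotientGroup.mk_pow]; exact (QuotientGroup.eq_one_iff _).2 h0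
      rw [this, orderOf_one] at ho
      exact hp.one_lt.ne ho
    have hl0p : (t₀ ^ (n / n.minFac)) ^ n.minFac ∈ Z0 N := by
      rw [← QuotientGroup.eq_one_iff, QuotientGroup.mk_pow, QuotientGroup.mk_pow]
      have := pow_orderOf_eq_one ((QuotientGroup.mk t₀ : G ⧸ Z0 N) ^ (n / n.minFac))
      rwa [ho] at this
    let D : Subgroup G :=
      { carrier := {l | l ∈ T ∧ l ^ n.minFac ∈ Z0 N}
        mul_mem' := by
          rintro a b ⟨ha, ha'⟩ ⟨hb, hb'⟩
          refine ⟨T.mul_mem ha hb, ?_⟩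
          rw [(show Commute a b from hTab a ha b hb).mul_pow]
          exact mul_mem ha' hb'
        one_mem' := ⟨T.one_mem, by rw [one_pow]; exact one_mem _⟩
        inv_mem' := by
          rintro a ⟨ha, ha'⟩
          refine ⟨T.inv_mem ha, ?_⟩
          rw [inv_pow]
          exact inv_mem ha' }
    have hDn : D.Normal := by
      refine ⟨fun l hl g => ⟨hTn.conj_mem l hl.1 g, ?_⟩⟩
      rw [conj_pow]
      exact (Z0_normal N).conj_mem _ hl.2 g
    rcases hmin D hDn (fun z hz => ⟨hZT hz, pow_mem hz _⟩) (fun l hl => hl.1) with h1 | h1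
    · have : t₀ ^ (n / n.minFac) ∈ D := ⟨T.pow_mem ht₀T _, hl0p⟩
      rw [h1] at this
      exact absurd this hl0Z
    · intro l hl
      have : l ∈ D := by rw [h1]; exact hl
      exact this.2
  exact ⟨p, ⟨hTn, hTN, hZT, hTab, ⟨t₀, ht₀T, ht₀Z⟩, ⟨x₀, hx₀N, hx₀nT⟩, hdec, hfix, hidx, hp, hpow⟩⟩

end Cfsg.Agent.H20.CMaxN
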