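import Mathlib
import Cfsg.Prelude.Def_Solvable
import Cfsg.Agent.H20.CMaxN4
import Cfsg.Agent.S0039
import Cfsg.Agent.S0034

set_option autoImplicit false
set_option linter.style.haveILetI false

namespace Cfsg.Agent.H20.CMaxN

open Subgroup Cfsg.Agent.H20.CMax

universe u

variable {G : Type u} [Group G]

theorem mem_map_iff {N : Subgroup G} {S : Subgroup G} (hS : Z0 N ≤ S) (a : ↥N) :
    QuotientGroup.mk' (center ↥N) a ∈ (S.subgroupOf N).map (QuotientGroup.mk' (center ↥N)) ↔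
      (a : G) ∈ S := by
  constructor
  · rintro ⟨b, hb, e⟩
    have h1 : b⁻¹ * a ∈ center ↥N := QuotientGroup.eq.1 e
    rw [mem_center_iff_Z0] at h1
    have h2 : (b : G) ∈ S := hb
    have h3 := S.mul_mem h2 (hS h1)
    simpa using h3
  · intro ha
    exact ⟨a, ha, rfl⟩

theorem final_of_dat [Finite G] {N T : Subgroup G} [hN : N.Normal] (hII : HII N) {p : ℕ}
    (D : Dat N T p) :
    ∃ (Q K : Subgroup (↥N ⧸ center ↥N)) (p : ℕ), p.Prime ∧ Cfsg.IsFrobeniusComplement Q ∧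
      (Nat.card ↥Q).Prime ∧ K.Normal ∧ (K : Set (↥N ⧸ center ↥N)) = Cfsg.frobeniusKernel Q ∧
      Cfsg.IsElementaryAbelian p K := by
  obtain ⟨x₁, hx₁N, hx₁T⟩ := D.hx₁
  obtain ⟨t₀, ht₀T, ht₀Z⟩ := D.ht₀
  have hsurj := QuotientGroup.mk'_surjective (center ↥N)
  have one_iff : ∀ a : ↥N, QuotientGroup.mk' (center ↥N) a = 1 ↔ (a : G) ∈ Z0 N := fun a =>
    (QuotientGroup.eq_one_iff a).trans (mem_center_iff_Z0 a)
  have hZC : Z0 N ≤ centralizer ({x₁} : Set G) := fun z hz =>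
    mem_centralizer_singleton_iff.2 (Z0_comm hz hx₁N).symm
  have hx₁Z : x₁ ∉ Z0 N := fun h0 => hx₁T (D.hZT h0)
  set Kb := (T.subgroupOf N).map (QuotientGroup.mk' (center ↥N)) with hKb
  set Qb := ((centralizer ({x₁} : Set G)).subgroupOf N).map (QuotientGroup.mk' (center ↥N))
    with hQb
  have memK : ∀ a : ↥N, QuotientGroup.mk' (center ↥N) a ∈ Kb ↔ (a : G) ∈ T := mem_map_iff D.hZT
  have memQ : ∀ a : ↥N, QuotientGroup.mk' (center ↥N) a ∈ Qb ↔
      (a : G) ∈ centralizer ({x₁} : Set G) := mem_map_iff hZC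
  haveI hKn : Kb.Normal := (D.hTn.subgroupOf N).map _ hsurj
  have hdisj : ∀ q : ↥N ⧸ center ↥N, q ∈ Kb → q ∈ Qb → q = 1 := by
    intro q hqK hqQ
    obtain ⟨a, rfl⟩ := hsurj q
    rw [one_iff]
    exact D.hfix x₁ hx₁N hx₁T a ((memK a).1 hqK)
      (mem_centralizer_singleton_iff.1 ((memQ a).1 hqQ))
  have hc : IsComplement' Kb Qb := by
    apply isComplement'_of_disjoint_and_mul_eq_univ
    · rw [disjoint_def]
      intro q hqK hqQ
      exact hdisj q hqK hqQ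
    · apply Set.eq_univ_of_forall
      intro q
      obtain ⟨n, rfl⟩ := hsurj q
      obtain ⟨d, hd, m, hm, e⟩ := D.hdec x₁ hx₁N hx₁T n n.2
      refine Set.mem_mul.2 ⟨QuotientGroup.mk' (center ↥N) ⟨d, D.hTN hd⟩, (memK _).2 hd,
        QuotientGroup.mk' (center ↥N) ⟨m, hm.1⟩, (memQ _).2 hm.2, ?_⟩
      rw [← map_mul]
      congr 1
      exact Subtype.ext e.symm
  have hK : Kb ≠ ⊥ := by
    intro h0
    have h1 : QuotientGroup.mk' (center ↥N) ⟨t₀, D.hTN ht₀T⟩ ∈ Kb := (memK _).2 ht₀T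
    rw [h0, mem_bot, one_iff] at h1
    exact ht₀Z h1
  have hQ : Qb ≠ ⊥ := by
    intro h0
    have h1 : QuotientGroup.mk' (center ↥N) ⟨x₁, hx₁N⟩ ∈ Qb := (memQ _).2 (self_mem_C x₁)
    rw [h0, mem_bot, one_iff] at h1
    exact hx₁Z h1
  have hF : Cfsg.IsFrobeniusComplement Qb := by
    rw [Cfsg.Agent.S0039.result Kb Qb hc hK hQ]
    intro hh hhQ hh1
    rw [eq_bot_iff]
    rintro k ⟨hkK, hkC⟩
    rw [mem_bot]
    obtain ⟨a, rfl⟩ := hsurj k
    obtain ⟨b, rfl⟩ := hsurj hh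
    have haT : (a : G) ∈ T := (memK a).1 hkK
    have hbC : (b : G) ∈ centralizer ({x₁} : Set G) := (memQ b).1 hhQ
    have hbZ : (b : G) ∉ Z0 N := fun h0 => hh1 ((one_iff b).2 h0)
    have hbT : (b : G) ∉ T := fun h0 =>
      hbZ (D.hfix x₁ hx₁N hx₁T b h0 (mem_centralizer_singleton_iff.1 hbC))
    have e1 : QuotientGroup.mk' (center ↥N) a * QuotientGroup.mk' (center ↥N) b =
        QuotientGroup.mk' (center ↥N) b * QuotientGroup.mk' (center ↥N) a :=
      mem_centralizer_singleton_iff.1 hkC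
    rw [← map_mul, ← map_mul] at e1
    have h1 : (a * b)⁻¹ * (b * a) ∈ center ↥N := QuotientGroup.eq.1 e1
    rw [mem_center_iff_Z0] at h1
    have e2 : (((a * b)⁻¹ * (b * a) : ↥N) : G) = (b : G)⁻¹ * (a : G)⁻¹ * b * a := by
      push_cast
      group
    rw [e2] at h1
    have e3 := comm_of_central_mod hII b.2 hbZ a.2 h1
    rw [one_iff]
    exact D.hfix b b.2 hbT a haT e3
  have hidx : Kb.index = (T.subgroupOf N).index := by
    apply index_map_eq _ hsurj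
    rw [QuotientGroup.ker_mk']
    intro a ha
    exact D.hZT ((mem_center_iff_Z0 a).1 ha)
  refine ⟨Qb, Kb, p, D.hp, hF, ?_, hKn, ?_, ?_, ?_⟩
  · rw [← hc.symm.index_eq_card, hidx]
    exact D.hidx
  · apply Set.eq_of_subset_of_ncard_le
    · intro k hk
      by_cases hk1 : k = 1
      · exact Or.inl hk1
      · right
        intro g hg
        rw [Cfsg.H1.mem_conj_smul_iff] at hg
        apply hk1
        have h1 : g⁻¹ * k * g ∈ Kb := by
          have := hKn.conj_mem k hk g⁻¹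
          simpa using this
        have h2 := hdisj _ h1 hg
        have : k = g * (g⁻¹ * k * g) * g⁻¹ := by group
        rw [this, h2]; group
    · rw [← Nat.card_coe_set_eq, ← Nat.card_coe_set_eq, (Cfsg.Agent.S0034.result Qb hF).1,
        hc.index_eq_card]
      exact le_refl _
    · exact Set.toFinite _
  · refine ⟨⟨?_⟩⟩
    rintro ⟨a, ha⟩ ⟨b, hb⟩
    apply Subtype.ext
    show a * b = b * a
    obtain ⟨a, rfl⟩ := hsurj a
    obtain ⟨b, rfl⟩ := hsurj b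
    rw [← map_mul, ← map_mul]
    congr 1
    exact Subtype.ext (D.hTab a ((memK a).1 ha) b ((memK b).1 hb))
  · intro a ha
    obtain ⟨a, rfl⟩ := hsurj a
    rw [← map_pow, one_iff]
    exact D.hpow a ((memK a).1 ha)

theorem main2 [Finite G] (N : Subgroup G) [hN : N.Normal]
    (h : ∀ x : G, x ∈ N → x ∉ centralizer (N : Set G) → IsCoatom (centralizer ({x} : Set G))) :
    (∃ p : ℕ, p.Prime ∧ Cfsg.IsElementaryAbelian p (⊤ : Subgroup (↥N ⧸ center ↥N))) ∨
    (∃ (Q K : Subgroup (↥N ⧸ center ↥N)) (p : ℕ), p.Prime ∧ Cfsg.IsFrobeniusComplement Q ∧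
      (Nat.card ↥Q).Prime ∧ K.Normal ∧ (K : Set (↥N ⧸ center ↥N)) = Cfsg.frobeniusKernel Q ∧
      Cfsg.IsElementaryAbelian p K) := by
  have h' : Hyp2 N := h
  by_cases hab : ∀ x ∈ N, x ∈ Z0 N
  · left
    have hone : ∀ q : ↥N ⧸ center ↥N, q = 1 := by
      intro q
      obtain ⟨a, rfl⟩ := QuotientGroup.mk'_surjective (center ↥N) q
      exact (QuotientGroup.eq_one_iff a).2 ((mem_center_iff_Z0 a).2 (hab a a.2))
    refine ⟨2, Nat.prime_two, ⟨⟨fun a b => Subtype.ext ?_⟩⟩, fun a _ => ?_⟩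
    · show (a : ↥N ⧸ center ↥N) * b = b * a
      rw [hone a, hone b]
    · rw [hone a, one_pow]
  · push Not at hab
    obtain ⟨x₀, hx₀N, hx₀Z⟩ := hab
    by_cases hI : ∃ x ∈ N, x ∉ Z0 N ∧ ∀ n ∈ N, n * x * n⁻¹ * x⁻¹ ∈ Z0 N
    · left
      obtain ⟨x, hx, hxZ, hxI⟩ := hI
      exact caseI h' hx hxZ hxI
    · right
      have hII : HII N := fun x hx hxZ =>
        (alt4 h' hx hxZ).resolve_right (fun h0 => hI ⟨x, hx, hxZ, h0⟩)
      obtain ⟨T, ⟨hTn, hZT, hTN, hTne⟩, hTmin⟩ := Set.exists_min_image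
        {D : Subgroup G | D.Normal ∧ Z0 N ≤ D ∧ D ≤ N ∧ D ≠ Z0 N} (fun D => Nat.card D)
        (Set.toFinite _) ⟨N, hN, Z0_le N, le_refl _, fun h0 => hx₀Z (h0 ▸ hx₀N)⟩
      have hmin : ∀ D : Subgroup G, D.Normal → Z0 N ≤ D → D ≤ T → D = Z0 N ∨ D = T := by
        intro D hDn hZD hDT
        by_cases hD : D = Z0 N
        · exact Or.inl hD
        · right
          exact eq_of_le_of_card_ge hDT (hTmin D ⟨hDn, hZD, hDT.trans hTN, hD⟩)
      obtain ⟨p, hD⟩ := exists_dat h' hII hTn hTN hZT hTne hmin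
      exact final_of_dat hII hD

end Cfsg.Agent.H20.CMaxN
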