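import Mathlib
import Cfsg.Prelude.Def_Local
import Cfsg.Agent.H1.PLength
import Cfsg.Agent.H1.Hall
import Cfsg.Agent.H20.PSolvHall
import Cfsg.Agent.Lib.Helper23.PSolv

/-!
An internal description of `p`-length (helper20).
-/

set_option autoImplicit false

namespace Cfsg.Agent.H20

open Subgroup Cfsg.H1

variable {G : Type*} [Group G]

/-- `PL p k M T`: the section `T/M` has a series of normal subgroups of `G` with factors
`p', p, p', …, p, p'` with `k` factors of `p`-type. -/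
def PL (p : ℕ) : ℕ → Subgroup G → Subgroup G → Prop
  | 0, M, T => M ≤ T ∧ (M.relIndex T).Coprime p
  | k + 1, M, T => ∃ A B : Subgroup G, A.Normal ∧ B.Normal ∧ M ≤ A ∧ A ≤ B ∧
      (M.relIndex A).Coprime p ∧ (∃ j : ℕ, A.relIndex B = p ^ j) ∧ PL p k B T

theorem PL.le {p k : ℕ} : ∀ {M T : Subgroup G}, PL p k M T → M ≤ T := by
  induction k with
  | zero => intro M T h; exact h.1
  | succ k ih =>
    rintro M T ⟨A, B, -, -, h1, h2, -, -, h5⟩
    exact h1.trans (h2.trans (ih h5))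

theorem relIndex_sup_dvd {M T : Subgroup G} [M.Normal] (hMT : M ≤ T) (R : Subgroup G) [R.Normal] :
    (M ⊔ R).relIndex (T ⊔ R) ∣ M.relIndex T := by
  have := relIndex_map_dvd (QuotientGroup.mk' R) hMT
  rwa [relIndex_map_map, QuotientGroup.ker_mk'] at this

theorem relIndex_inf_dvd [Finite G] {M T : Subgroup G} [M.Normal] (hMT : M ≤ T) (R : Subgroup G) :
    (M ⊓ R).relIndex (T ⊓ R) ∣ M.relIndex T := by
  have e : (M ⊓ R).relIndex (T ⊓ R) = M.relIndex (T ⊓ R) := by
    rw [← inf_relIndex_right M (T ⊓ R), ← inf_assoc, inf_eq_left.2 hMT]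
  rw [e]
  exact Cfsg.Agent.Lib.Helper23.relIndex_dvd_relIndex_of_normal M inf_le_left

theorem PL.sup {p k : ℕ} (hp : p.Prime) (R : Subgroup G) [R.Normal] :
    ∀ {M T : Subgroup G} [M.Normal], PL p k M T → PL p k (M ⊔ R) (T ⊔ R) := by
  induction k with
  | zero =>
    intro M T _ h
    exact ⟨sup_le_sup_right h.1 R, Nat.Coprime.coprime_dvd_left (relIndex_sup_dvd h.1 R) h.2⟩
  | succ k ih =>
    rintro M T _ ⟨A, B, hA, hB, h1, h2, h3, ⟨j, h4⟩, h5⟩
    refine ⟨A ⊔ R, B ⊔ R, inferInstance, inferInstance, sup_le_sup_right h1 R, sup_le_sup_right h2 R,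
      Nat.Coprime.coprime_dvd_left (relIndex_sup_dvd h1 R) h3, ?_, ih h5⟩
    have := relIndex_sup_dvd h2 R
    rw [h4] at this
    obtain ⟨i, -, hi⟩ := (Nat.dvd_prime_pow hp).1 this
    exact ⟨i, hi⟩

theorem PL.inf [Finite G] {p k : ℕ} (hp : p.Prime) (R : Subgroup G) [R.Normal] :
    ∀ {M T : Subgroup G} [M.Normal], PL p k M T → PL p k (M ⊓ R) (T ⊓ R) := by
  induction k with
  | zero =>
    intro M T _ h
    exact ⟨inf_le_inf_right R h.1, Nat.Coprime.coprime_dvd_left (relIndex_inf_dvd h.1 R) h.2⟩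
  | succ k ih =>
    rintro M T _ ⟨A, B, hA, hB, h1, h2, h3, ⟨j, h4⟩, h5⟩
    refine ⟨A ⊓ R, B ⊓ R, inferInstance, inferInstance, inf_le_inf_right R h1, inf_le_inf_right R h2,
      Nat.Coprime.coprime_dvd_left (relIndex_inf_dvd h1 R) h3, ?_, ih h5⟩
    have := relIndex_inf_dvd h2 R
    rw [h4] at this
    obtain ⟨i, -, hi⟩ := (Nat.dvd_prime_pow hp).1 this
    exact ⟨i, hi⟩

theorem PL.concat {p k k' : ℕ} : ∀ {M T T' : Subgroup G}, PL p k M T → PL p k' T T' →
    PL p (k + k') M T' := by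
  induction k with
  | zero =>
    intro M T T' h h'
    rw [Nat.zero_add]
    cases k' with
    | zero =>
      refine ⟨h.1.trans h'.1, ?_⟩
      rw [← relIndex_mul_relIndex M T T' h.1 h'.1]
      exact Nat.Coprime.mul_left h.2 h'.2
    | succ k' =>
      obtain ⟨A, B, hA, hB, h1, h2, h3, h4, h5⟩ := h'
      refine ⟨A, B, hA, hB, h.1.trans h1, h2, ?_, h4, h5⟩
      rw [← relIndex_mul_relIndex M T A h.1 h1]
      exact Nat.Coprime.mul_left h.2 h3
  | succ k ih =>
    rintro M T T' ⟨A, B, hA, hB, h1, h2, h3, h4, h5⟩ h'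
    rw [Nat.succ_add]
    exact ⟨A, B, hA, hB, h1, h2, h3, h4, ih h5 h'⟩

theorem upper_succ_even (p n : ℕ) (h : Even n) :
    (Cfsg.upperPSeries p G (n + 1)).1 =
      (Cfsg.pPrimeCore p (G ⧸ (Cfsg.upperPSeries p G n).1)).comap (QuotientGroup.mk' _) := by
  rw [Cfsg.upperPSeries]
  simp only [h, if_true]

theorem upper_succ_odd (p n : ℕ) (h : ¬ Even n) :
    (Cfsg.upperPSeries p G (n + 1)).1 =
      (Cfsg.pCore p (G ⧸ (Cfsg.upperPSeries p G n).1)).comap (QuotientGroup.mk' _) := by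
  rw [Cfsg.upperPSeries]
  simp only [h, if_false]

theorem PL.of_upper [Finite G] {p : ℕ} [Fact p.Prime] (k : ℕ) : ∀ j : ℕ,
    (Cfsg.upperPSeries p G (2 * j + 2 * k + 1)).1 = ⊤ →
    PL p k (Cfsg.upperPSeries p G (2 * j)).1 ⊤ := by
  induction k with
  | zero =>
    intro j h
    refine ⟨le_top, ?_⟩
    rw [← h, Nat.mul_zero, Nat.add_zero, upper_succ_even p (2 * j) (even_two_mul j)]
    rw [(relIndex_comap_mk' _ _).2]
    exact pPrimeCore_coprime p
  | succ k ih =>
    intro j h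
    have h0 : ¬ Even (2 * j + 1) := by
      rw [Nat.not_even_iff_odd]; exact odd_two_mul_add_one j
    refine ⟨(Cfsg.upperPSeries p G (2 * j + 1)).1, (Cfsg.upperPSeries p G (2 * j + 1 + 1)).1,
      inferInstance, inferInstance, ?_, ?_, ?_, ?_, ?_⟩
    · rw [upper_succ_even p (2 * j) (even_two_mul j)]
      exact (relIndex_comap_mk' _ _).1
    · rw [upper_succ_odd p (2 * j + 1) h0]
      exact (relIndex_comap_mk' _ _).1
    · rw [upper_succ_even p (2 * j) (even_two_mul j), (relIndex_comap_mk' _ _).2]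
      exact pPrimeCore_coprime p
    · rw [upper_succ_odd p (2 * j + 1) h0, (relIndex_comap_mk' _ _).2]
      exact IsPGroup.iff_card.1 (pCore_isPGroup p)
    · have := ih (j + 1) (by
        rw [show 2 * (j + 1) + 2 * k + 1 = 2 * j + 2 * (k + 1) + 1 by ring]; exact h)
      rwa [show 2 * (j + 1) = 2 * j + 1 + 1 by ring] at this

theorem PL.to_upper [Finite G] {p : ℕ} [Fact p.Prime] (k : ℕ) : ∀ (j : ℕ) (M : Subgroup G),
    M ≤ (Cfsg.upperPSeries p G (2 * j)).1 → PL p k M ⊤ →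
    (Cfsg.upperPSeries p G (2 * j + 2 * k + 1)).1 = ⊤ := by
  have key1 : ∀ (j : ℕ) (M A : Subgroup G), A.Normal → M ≤ (Cfsg.upperPSeries p G (2 * j)).1 →
      (M.relIndex A).Coprime p → A ≤ (Cfsg.upperPSeries p G (2 * j + 1)).1 := by
    intro j M A hA hM hc
    rw [upper_succ_even p (2 * j) (even_two_mul j), ← map_le_iff_le_comap]
    apply le_pPrimeCore (hA.map _ (QuotientGroup.mk'_surjective _))
    rw [← relIndex_ker, QuotientGroup.ker_mk']
    exact Nat.Coprime.coprime_dvd_left (relIndex_dvd_of_le_left A hM) hc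
  induction k with
  | zero =>
    intro j M hM h
    rw [Nat.mul_zero, Nat.add_zero, eq_top_iff]
    exact key1 j M ⊤ inferInstance hM h.2
  | succ k ih =>
    rintro j M hM ⟨A, B, hA, hB, h1, h2, h3, ⟨i, h4⟩, h5⟩
    have h0 : ¬ Even (2 * j + 1) := by
      rw [Nat.not_even_iff_odd]; exact odd_two_mul_add_one j
    have hA' := key1 j M A hA hM h3
    have hB' : B ≤ (Cfsg.upperPSeries p G (2 * j + 1 + 1)).1 := by
      rw [upper_succ_odd p (2 * j + 1) h0, ← map_le_iff_le_comap]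
      apply le_pCore (hB.map _ (QuotientGroup.mk'_surjective _))
      have hd : (Cfsg.upperPSeries p G (2 * j + 1)).1.relIndex B ∣ p ^ i := by
        rw [← h4]; exact relIndex_dvd_of_le_left B hA'
      obtain ⟨i', -, hi'⟩ := (Nat.dvd_prime_pow Fact.out).1 hd
      apply IsPGroup.of_card (n := i')
      rw [← relIndex_ker, QuotientGroup.ker_mk']
      exact hi'
    have := ih (j + 1) B (by rw [show 2 * (j + 1) = 2 * j + 1 + 1 by ring]; exact hB') h5
    rwa [show 2 * (j + 1) + 2 * k + 1 = 2 * j + 2 * (k + 1) + 1 by ring] at this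

theorem pLengthLE_iff_PL [Finite G] {p : ℕ} [Fact p.Prime] (k : ℕ) :
    Cfsg.PLengthLE p k G ↔ PL p k (⊥ : Subgroup G) ⊤ := by
  constructor
  · intro h
    have := PL.of_upper (G := G) (p := p) k 0 (by rw [Nat.mul_zero, Nat.zero_add]; exact h)
    exact this
  · intro h
    have := PL.to_upper (G := G) (p := p) k 0 ⊥ bot_le h
    rw [Nat.mul_zero, Nat.zero_add] at this
    exact this

end Cfsg.Agent.H20
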