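import Mathlib
import Cfsg.Agent.H20.PLen

/-!
`p`-length: pulling back along quotient maps; reduction to `G / O_{p',p}(G)` (helper20).
-/

set_option autoImplicit false

namespace Cfsg.Agent.H20

open Subgroup Cfsg.H1

universe u

theorem PL.comap {G : Type*} [Group G] {N : Subgroup G} [N.Normal] {p k : ℕ} :
    ∀ {M' T' : Subgroup (G ⧸ N)}, PL p k M' T' →
      PL p k (M'.comap (QuotientGroup.mk' N)) (T'.comap (QuotientGroup.mk' N)) := by
  have hrel : ∀ M' T' : Subgroup (G ⧸ N),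
      (M'.comap (QuotientGroup.mk' N)).relIndex (T'.comap (QuotientGroup.mk' N)) = M'.relIndex T' := by
    intro M' T'
    rw [relIndex_comap, map_comap_eq_self_of_surjective (QuotientGroup.mk'_surjective N)]
  induction k with
  | zero =>
    intro M' T' h
    exact ⟨comap_mono h.1, by rw [hrel]; exact h.2⟩
  | succ k ih =>
    rintro M' T' ⟨A, B, hA, hB, h1, h2, h3, ⟨j, h4⟩, h5⟩
    exact ⟨A.comap _, B.comap _, hA.comap _, hB.comap _, comap_mono h1, comap_mono h2,
      by rw [hrel]; exact h3, ⟨j, by rw [hrel]; exact h4⟩, ih h5⟩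

/-- Reduction step: if `(G/O_{p'}(G))/O_p(G/O_{p'}(G))` has `p`-length at most `k`, then `G` has
`p`-length at most `k+1`. -/
theorem PL.of_quotient {G : Type*} [Group G] [Finite G] {p : ℕ} [Fact p.Prime] {k : ℕ}
    [hN : (Cfsg.pPrimeCore p G).Normal] [hR : (Cfsg.pCore p (G ⧸ Cfsg.pPrimeCore p G)).Normal]
    (h : PL p k (⊥ : Subgroup ((G ⧸ Cfsg.pPrimeCore p G) ⧸ Cfsg.pCore p (G ⧸ Cfsg.pPrimeCore p G))) ⊤) :
    PL p (k + 1) (⊥ : Subgroup G) ⊤ := by
  have h1 := PL.comap h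
  rw [comap_top, MonoidHom.comap_bot, QuotientGroup.ker_mk'] at h1
  have h2 : PL p (k + 1) (⊥ : Subgroup (G ⧸ Cfsg.pPrimeCore p G)) ⊤ :=
    ⟨⊥, Cfsg.pCore p (G ⧸ Cfsg.pPrimeCore p G), inferInstance, hR, le_rfl, bot_le,
      by rw [relIndex_self]; exact Nat.coprime_one_left p,
      by rw [relIndex_bot_left]; exact IsPGroup.iff_card.1 (pCore_isPGroup p), h1⟩
  have h3 := PL.comap h2
  rw [comap_top, MonoidHom.comap_bot, QuotientGroup.ker_mk'] at h3
  have h4 : PL p 0 (⊥ : Subgroup G) (Cfsg.pPrimeCore p G) :=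
    ⟨bot_le, by rw [relIndex_bot_left]; exact pPrimeCore_coprime p⟩
  have := h4.concat h3
  rwa [Nat.zero_add] at this

end Cfsg.Agent.H20
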