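import Mathlib
import Cfsg.Agent.H20.PLen2
import Cfsg.Agent.H20.CoprimeAb
import Cfsg.Agent.H1.CoprimeSylow
import Cfsg.Agent.H1.Small2
import Cfsg.Agent.H4.PRegClass
import Cfsg.Agent.Lib.Helper22.FrattiniFaithful

/-!
The Hall–Higman argument for abelian `p'`-Sylow subgroups (helper20).
-/

set_option autoImplicit false

namespace Cfsg.Agent.H20

open Subgroup
open scoped commutatorElement

universe u

/-- A "Frobenius" module lemma: `Q⟨x⟩` acts on the commutative group `M`, `x ^ i` has no fixed points on `Q`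
for `0 < i < N`, and the norm of every `Q`-conjugate of `x` vanishes on `M`; then `Q` acts trivially. -/
theorem frob_module {X M : Type*} [Group X] [CommGroup M] (φ : X →* MulAut M) (Q : Subgroup X) [Finite Q]
    (x : X) (hx : ∀ a ∈ Q, x * a * x⁻¹ ∈ Q) (N : ℕ) (hN0 : 0 < N)
    (hfix : ∀ i : ℕ, 0 < i → i < N → ∀ a ∈ Q, x ^ i * a = a * x ^ i → a = 1)
    (hnorm : ∀ b ∈ Q, ∀ m : M, ∏ i ∈ Finset.range N, φ ((b⁻¹ * x * b) ^ i) m = 1)
    (htor : ∀ m : M, m ^ Nat.card Q = 1 → m = 1) : ∀ c ∈ Q, φ c = 1 := by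
  classical
  have : Fintype Q := Fintype.ofFinite Q
  have hxi : ∀ i : ℕ, ∀ a ∈ Q, x ^ i * a * (x ^ i)⁻¹ ∈ Q := by
    intro i
    induction i with
    | zero => intro a ha; simpa using ha
    | succ i ih =>
      intro a ha
      have : x ^ (i + 1) * a * (x ^ (i + 1))⁻¹ = x * (x ^ i * a * (x ^ i)⁻¹) * x⁻¹ := by
        rw [pow_succ']; group
      rw [this]
      exact hx _ (ih a ha)
  -- the trace
  set T : M → M := fun w => ∏ c : Q, φ (c : X) w with hT
  have hTmul : ∀ u w : M, T (u * w) = T u * T w := by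
    intro u w
    simp only [hT, map_mul, Finset.prod_mul_distrib]
  have hTinv : ∀ u : M, T u⁻¹ = (T u)⁻¹ := by
    intro u
    simp only [hT, map_inv, Finset.prod_inv_distrib]
  have hTc : ∀ (c₁ : Q) (u : M), T (φ (c₁ : X) u) = T u := by
    intro c₁ u
    simp only [hT]
    rw [← Equiv.prod_comp (Equiv.mulRight c₁) (fun c : Q => φ (c : X) u)]
    apply Finset.prod_congr rfl
    intro c _
    simp [map_mul]
  intro c₀ hc₀
  ext w
  rw [MulAut.one_apply]
  set v : M := w⁻¹ * φ c₀ w with hv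
  suffices h : v = 1 by
    rw [hv] at h
    exact (inv_mul_eq_one.1 h).symm
  apply htor
  have h1 : ∏ b : Q, ∏ i ∈ Finset.range N, φ (((b : X)⁻¹ * x * b) ^ i) v = 1 :=
    Finset.prod_eq_one (fun b _ => hnorm b b.2 v)
  rw [Finset.prod_comm] at h1
  rw [Finset.prod_eq_single_of_mem 0 (Finset.mem_range.2 hN0)] at h1
  · simpa using h1
  · intro i hi hi0
    have hiN : i < N := Finset.mem_range.1 hi
    have hipos : 0 < i := Nat.pos_of_ne_zero hi0
    -- θ
    let θ : Q → Q := fun b => ⟨(b : X)⁻¹ * (x ^ i * b * (x ^ i)⁻¹), mul_mem (inv_mem b.2) (hxi i b b.2)⟩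
    have hθinj : Function.Injective θ := by
      intro b b' hbb
      have h2 : (b : X)⁻¹ * (x ^ i * b * (x ^ i)⁻¹) = (b' : X)⁻¹ * (x ^ i * b' * (x ^ i)⁻¹) :=
        congrArg Subtype.val hbb
      have h3 : x ^ i * ((b : X) * (b' : X)⁻¹) = ((b : X) * (b' : X)⁻¹) * x ^ i := by
        have h4 : (b : X)⁻¹ * x ^ i * b = (b' : X)⁻¹ * x ^ i * b' := by
          have := congrArg (fun z => z * x ^ i) h2
          simpa [mul_assoc] using this
        calc x ^ i * ((b : X) * (b' : X)⁻¹) = b * ((b : X)⁻¹ * x ^ i * b) * (b' : X)⁻¹ := by group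
          _ = b * ((b' : X)⁻¹ * x ^ i * b') * (b' : X)⁻¹ := by rw [h4]
          _ = ((b : X) * (b' : X)⁻¹) * x ^ i := by group
      have h5 := hfix i hipos hiN _ (mul_mem b.2 (inv_mem b'.2)) h3
      exact Subtype.ext (mul_inv_eq_one.1 h5)
    have hθbij : Function.Bijective θ := Finite.injective_iff_bijective.1 hθinj
    have h6 : ∀ b : Q, φ (((b : X)⁻¹ * x * b) ^ i) v = φ ((θ b : Q) : X) (φ (x ^ i) v) := by
      intro b
      have : ((b : X)⁻¹ * x * b) ^ i = ((θ b : Q) : X) * x ^ i := by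
        have h7 : ((b : X)⁻¹ * x * b) ^ i = (b : X)⁻¹ * x ^ i * b := by
          have := conj_pow (a := (b : X)⁻¹) (b := x) (i := i)
          simpa using this
        rw [h7]
        simp only [θ]
        group
      rw [this, MonoidHom.map_mul φ, MulAut.mul_apply]
    rw [Finset.prod_congr rfl (fun b _ => h6 b)]
    rw [Function.Bijective.prod_comp hθbij (fun c : Q => φ (c : X) (φ (x ^ i) v))]
    change T (φ (x ^ i) v) = 1
    have h8 : φ (x ^ i) v = (φ (x ^ i) w)⁻¹ * φ (x ^ i * c₀ * (x ^ i)⁻¹) (φ (x ^ i) w) := by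
      rw [hv, map_mul, map_inv]
      congr 1
      rw [← MulAut.mul_apply, ← MulAut.mul_apply, ← map_mul, ← map_mul]
      congr 2
      group
    rw [h8, hTmul, hTinv]
    have := hTc ⟨x ^ i * c₀ * (x ^ i)⁻¹, hxi i c₀ hc₀⟩ (φ (x ^ i) w)
    rw [this, inv_mul_cancel]

/-- The dual Hall–Higman lemma: in a `p`-solvable group with `O_p = 1`, `O_{p'}` contains its centralizer. -/
theorem centralizer_pPrimeCore_le {X : Type*} [Group X] [Finite X] (p : ℕ) [hp : Fact p.Prime]
    (hs : Cfsg.IsPSolvable p X) (h0 : Cfsg.pCore p X = ⊥) :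
    centralizer (Cfsg.pPrimeCore p X : Set X) ≤ Cfsg.pPrimeCore p X := by
  set K := Cfsg.pPrimeCore p X with hK
  have hKn : K.Normal := inferInstance
  set C := centralizer (K : Set X) with hC
  have hCn : C.Normal := inferInstance
  set σ := QuotientGroup.mk' K with hσ
  set T := Cfsg.pCore p (X ⧸ K) with hT
  have hTn : T.Normal := inferInstance
  have hTp : IsPGroup p T := Cfsg.H1.pCore_isPGroup p
  have hs1 := isPSolvable_quotient hp.out hs K
  have hHH : centralizer (T : Set (X ⧸ K)) ≤ T :=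
    Cfsg.Agent.Lib.Helper23.centralizer_pCore_le_of_isPSolvable p hs1 (Cfsg.H1.pPrimeCore_quotient p)
  set M := C ⊓ T.comap σ with hM
  have hMn : M.Normal := inferInstance
  -- `M` is nilpotent
  let f : M →* T := (σ.comp M.subtype).codRestrict T (fun m => m.2.2)
  have hker : f.ker ≤ center M := by
    intro m hm
    have h1 : σ (m : X) = 1 := by
      exact congrArg Subtype.val (MonoidHom.mem_ker.1 hm)
    have h2 : (m : X) ∈ K := (QuotientGroup.eq_one_iff _).1 h1
    rw [mem_center_iff]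
    intro g
    apply Subtype.ext
    have h3 : (g : X) ∈ C := g.2.1
    have := (mem_centralizer_iff.1 h3) (m : X) h2
    simpa using this.symm
  have hnil : Group.IsNilpotent M := by
    have : Group.IsNilpotent T := hTp.isNilpotent
    exact Subgroup.isNilpotent_of_ker_le_center f hker
  obtain ⟨P₀⟩ : Nonempty (Sylow p M) := inferInstance
  have hP₀n : (P₀ : Subgroup M).Normal := by
    have := ((Group.isNilpotent_of_finite_tfae (G := M)).out 0 3).1 hnil
    exact this p hp P₀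
  have hP₀c : (P₀ : Subgroup M).Characteristic := Sylow.characteristic_of_normal P₀ hP₀n
  have hP₀X : ((P₀ : Subgroup M).map M.subtype).Normal := ConjAct.normal_of_characteristic_of_normal
  have hP₀bot : (P₀ : Subgroup M).map M.subtype = ⊥ := by
    rw [eq_bot_iff, ← h0]
    exact Cfsg.H1.le_pCore hP₀X (P₀.2.map _)
  have hP₀bot' : (P₀ : Subgroup M) = ⊥ := by
    rwa [(map_eq_bot_iff_of_injective _ M.subtype_injective)] at hP₀bot
  have hMcop : (Nat.card M).Coprime p := by
    have := P₀.not_dvd_index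
    rw [hP₀bot', index_bot] at this
    exact ((Nat.Prime.coprime_iff_not_dvd hp.out).2 this).symm
  have hMK : M ≤ K := Cfsg.H1.le_pPrimeCore hMn hMcop
  -- now `σ C ∩ T = 1`
  have hCT : ∀ c ∈ C, σ c ∈ T → c ∈ K := fun c hc hcT => hMK ⟨hc, hcT⟩
  intro c hc
  have h1 : σ c ∈ centralizer (T : Set (X ⧸ K)) := by
    rw [mem_centralizer_iff]
    intro t ht
    obtain ⟨t', rfl⟩ := QuotientGroup.mk'_surjective K t
    -- the commutator lies in `C` and maps into `T`
    have h2 : c * t' * c⁻¹ * t'⁻¹ ∈ C := by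
      have : c * t' * c⁻¹ * t'⁻¹ = c * (t' * c⁻¹ * t'⁻¹) := by group
      rw [this]
      exact mul_mem hc (hCn.conj_mem _ (inv_mem hc) t')
    have h3 : σ (c * t' * c⁻¹ * t'⁻¹) ∈ T := by
      have : σ (c * t' * c⁻¹ * t'⁻¹) = (σ c * σ t' * (σ c)⁻¹) * (σ t')⁻¹ := by
        simp only [map_mul, map_inv]
      rw [this]
      exact mul_mem (hTn.conj_mem _ ht _) (inv_mem ht)
    have h4 : σ (c * t' * c⁻¹ * t'⁻¹) = 1 := (QuotientGroup.eq_one_iff _).2 (hCT _ h2 h3)
    have h5 : σ c * σ t' * (σ c)⁻¹ * (σ t')⁻¹ = 1 := by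
      simpa only [map_mul, map_inv] using h4
    have h6 : σ c * σ t' = σ t' * σ c := by
      have := mul_inv_eq_one.1 h5
      exact mul_inv_eq_iff_eq_mul.1 this
    exact h6.symm
  exact hCT c hc (hHH h1)

/-- If `y ∈ ⟨x⟩` does not centralize the `x`-invariant `p'`-group `K`, it does not centralize some `x`-invariant
Sylow subgroup of `K`. -/
theorem exists_invariant_sylow_not_centralized {X : Type*} [Group X] [Finite X] (K : Subgroup X) (x y : X)
    (hxK : x ∈ normalizer (K : Set X)) (hcop : (orderOf x).Coprime (Nat.card K))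
    (hy : ¬ K ≤ centralizer ({y} : Set X)) :
    ∃ (q : ℕ) (_ : Fact q.Prime) (Q : Subgroup X), IsPGroup q Q ∧ Q ≤ K ∧ x ∈ normalizer (Q : Set X) ∧
      ¬ Q ≤ centralizer ({y} : Set X) := by
  by_contra hcon
  push Not at hcon
  apply hy
  set C := K ⊓ centralizer ({y} : Set X) with hC
  have hCK : C ≤ K := inf_le_left
  suffices h : Nat.card K ∣ Nat.card C by
    have h1 : C = K := eq_of_le_of_card_ge hCK (Nat.le_of_dvd Nat.card_pos h)
    rw [← h1]
    exact inf_le_right
  rw [← Nat.factorization_le_iff_dvd Nat.card_pos.ne' Nat.card_pos.ne']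
  intro q
  by_cases hq : q.Prime
  · have : Fact q.Prime := ⟨hq⟩
    obtain ⟨⟨P, hP⟩, -⟩ := Cfsg.H1.coprime_sylow_aux (zpowers x) K (zpowers_le.2 hxK)
      (by rw [Nat.card_zpowers]; exact hcop) (Or.inl inferInstance) q
    have h1 := hcon q ⟨hq⟩ ((P : Subgroup K).map K.subtype) (P.2.map _) (map_subtype_le _)
      (hP (mem_zpowers x))
    have h2 : (P : Subgroup K).map K.subtype ≤ C := le_inf (map_subtype_le _) h1
    have h3 : Nat.card ((P : Subgroup K).map K.subtype) = q ^ (Nat.card K).factorization q := by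
      rw [card_map_of_injective K.subtype_injective]
      exact P.card_eq_multiplicity
    have h4 : q ^ (Nat.card K).factorization q ∣ Nat.card C := by
      rw [← h3]; exact card_dvd_of_le h2
    exact (hq.pow_dvd_iff_le_factorization Nat.card_pos.ne').1 h4
  · rw [Nat.factorization_eq_zero_of_not_prime _ hq]
    exact Nat.zero_le _

/-- every `q`-subgroup, `q ≠ p`, is commutative -/
def AbQ (p : ℕ) (G : Type*) [Group G] : Prop :=
  ∀ (q : ℕ), q.Prime → q ≠ p → ∀ Q : Subgroup G, IsPGroup q Q → ∀ a ∈ Q, ∀ b ∈ Q, a * b = b * a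

/-- every `p`-element has order dividing `p ^ n` -/
def ExpP (p n : ℕ) (G : Type*) [Group G] : Prop :=
  ∀ g : G, (∃ k : ℕ, g ^ p ^ k = 1) → g ^ p ^ n = 1

theorem AbQ.of_surjective {p : ℕ} {G G' : Type*} [Group G] [Finite G] [Group G'] (h : AbQ p G)
    (f : G →* G') (hf : Function.Surjective f) : AbQ p G' := by
  intro q hq hqp Q' hQ' a ha b hb
  have : Fact q.Prime := ⟨hq⟩
  have : Finite G' := Finite.of_surjective f hf
  obtain ⟨S⟩ : Nonempty (Sylow q G) := inferInstance
  obtain ⟨S', hS'⟩ := hQ'.exists_le_sylow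
  obtain ⟨g, hg⟩ := MulAction.exists_smul_eq G' (S.mapSurjective hf) S'
  have key : ∀ z ∈ Q', ∃ s ∈ (S : Subgroup G), z = g * f s * g⁻¹ := by
    intro z hz
    have h1 : z ∈ ((g • (S.mapSurjective hf) : Sylow q G') : Subgroup G') := by rw [hg]; exact hS' hz
    rw [Sylow.coe_subgroup_smul, Sylow.coe_mapSurjective] at h1
    obtain ⟨w, ⟨s, hs, rfl⟩, rfl⟩ := h1
    exact ⟨s, hs, by simp [MulAut.smul_def, MulAut.conj_apply]⟩
  obtain ⟨s, hs, rfl⟩ := key a ha
  obtain ⟨t, ht, rfl⟩ := key b hb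
  have := h q hq hqp S S.2 s hs t ht
  have h2 : f s * f t = f t * f s := by rw [← map_mul, this, map_mul]
  calc g * f s * g⁻¹ * (g * f t * g⁻¹) = g * (f s * f t) * g⁻¹ := by group
    _ = g * (f t * f s) * g⁻¹ := by rw [h2]
    _ = g * f t * g⁻¹ * (g * f s * g⁻¹) := by group

/-- `p`-elements lift to `p`-elements -/
theorem exists_pElement_lift {p : ℕ} [hp : Fact p.Prime] {G G' : Type*} [Group G] [Finite G] [Group G']
    (f : G →* G') (hf : Function.Surjective f) (z : G') (hz : ∃ k : ℕ, z ^ p ^ k = 1) :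
    ∃ g : G, f g = z ∧ ∃ k : ℕ, g ^ p ^ k = 1 := by
  obtain ⟨k, hk⟩ := hz
  obtain ⟨g, rfl⟩ := hf z
  obtain ⟨a, m, hm, hgm⟩ := Nat.exists_eq_pow_mul_and_not_dvd (orderOf_pos g).ne' p hp.out.ne_one
  have hcop : Nat.Coprime m (p ^ k) := ((Nat.Prime.coprime_iff_not_dvd hp.out).2 hm).symm.pow_right k
  have he : m ^ Nat.totient (p ^ k) ≡ 1 [MOD p ^ k] := Nat.ModEq.pow_totient hcop
  have hpos : 0 < Nat.totient (p ^ k) := Nat.totient_pos.2 (pow_pos hp.out.pos k)
  refine ⟨g ^ (m ^ Nat.totient (p ^ k)), ?_, a, ?_⟩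
  · rw [map_pow]
    have h1 : orderOf (f g) ∣ p ^ k := orderOf_dvd_of_pow_eq_one hk
    have h2 : f g ^ (m ^ Nat.totient (p ^ k)) = f g ^ 1 := pow_eq_pow_iff_modEq.2 (he.of_dvd h1)
    rw [h2, pow_one]
  · rw [← pow_mul]
    apply orderOf_dvd_iff_pow_eq_one.1
    rw [hgm, mul_comm]
    exact Nat.mul_dvd_mul_right (dvd_pow_self m hpos.ne') _

theorem ExpP.of_surjective {p n : ℕ} [Fact p.Prime] {G G' : Type*} [Group G] [Finite G] [Group G']
    (h : ExpP p n G) (f : G →* G') (hf : Function.Surjective f) : ExpP p n G' := by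
  intro z hz
  obtain ⟨g, rfl, hg⟩ := exists_pElement_lift f hf z hz
  rw [← map_pow, h g hg, map_one]

open scoped IsMulCommutative in
theorem pow_mul_formula {Y : Type*} [Group Y] (V : Subgroup Y) [V.Normal] [IsMulCommutative V] (g : Y) (v : V)
    (n : ℕ) : ((v : Y) * g) ^ n = ((∏ i ∈ Finset.range n, MulAut.conjNormal (g ^ i) v : V) : Y) * g ^ n := by
  induction n with
  | zero => simp
  | succ n ih =>
    rw [pow_succ, ih, Finset.prod_range_succ, Subgroup.coe_mul, MulAut.conjNormal_apply, pow_succ]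
    group

theorem mem_normalizer_commutator {X : Type*} [Group X] {A B : Subgroup X} {g : X}
    (hA : g ∈ normalizer (A : Set X)) (hB : g ∈ normalizer (B : Set X)) :
    g ∈ normalizer ((⁅A, B⁆ : Subgroup X) : Set X) := by
  rw [mem_normalizer_iff_conj] at hA hB ⊢
  rw [map_commutator, hA, hB]

theorem eq_one_of_pElement_of_coprime {X : Type*} [Group X] {p : ℕ} {K : Subgroup X} [Finite K]
    (hK : (Nat.card K).Coprime p) {z : X} (hz : z ∈ K) (k : ℕ) (hk : z ^ p ^ k = 1) : z = 1 := by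
  have h1 : z ^ Nat.card K = 1 := by
    have := pow_card_eq_one' (G := K) (x := ⟨z, hz⟩)
    exact congrArg Subtype.val this
  have h2 := pow_gcd_eq_one.2 ⟨h1, hk⟩
  rwa [Nat.Coprime.pow_right k hK, pow_one] at h2

open scoped IsMulCommutative in
theorem hh_core {H : Type*} [Group H] [Finite H] {p n : ℕ} [hp : Fact p.Prime] (hs : Cfsg.IsPSolvable p H)
    (h0 : Cfsg.pPrimeCore p H = ⊥) (hab : AbQ p H) (hexp : ExpP p (n + 1) H) (x : H)
    (hx : ∃ k : ℕ, x ^ p ^ k = 1) : x ^ p ^ n ∈ Cfsg.pCore p H := by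
  classical
  by_contra hxR
  set R := Cfsg.pCore p H with hR
  have hRn : R.Normal := inferInstance
  have hRp : IsPGroup p R := Cfsg.H1.pCore_isPGroup p
  have hcent : centralizer (R : Set H) ≤ R :=
    Cfsg.Agent.Lib.Helper23.centralizer_pCore_le_of_isPSolvable p hs h0
  set Φ := (frattini ↥R).map R.subtype with hΦ
  have hΦn : Φ.Normal := inferInstance
  set ρ := QuotientGroup.mk' Φ with hρ
  have hρs : Function.Surjective ρ := QuotientGroup.mk'_surjective Φ
  set V := R.map ρ with hV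
  have hVn : V.Normal := hRn.map ρ hρs
  have hVp : IsPGroup p V := hRp.map ρ
  have hVcomm : ∀ a ∈ V, ∀ b ∈ V, a * b = b * a := by
    rintro _ ⟨a, ha, rfl⟩ _ ⟨b, hb, rfl⟩
    have h1 : ⁅(⟨a, ha⟩ : R), ⟨b, hb⟩⁆ ∈ frattini ↥R :=
      (Cfsg.H1.frattini_pgroup_ge p hRp).1 (commutator_mem_commutator (mem_top _) (mem_top _))
    have h2 : a * b * a⁻¹ * b⁻¹ ∈ Φ := ⟨_, h1, by simp [commutatorElement_def]⟩
    have h3 : ρ (a * b * a⁻¹ * b⁻¹) = 1 := (QuotientGroup.eq_one_iff _).2 h2
    simp only [map_mul, map_inv] at h3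
    exact mul_inv_eq_iff_eq_mul.1 (mul_inv_eq_one.1 h3)
  have hVc : IsMulCommutative V := isMulCommutative_of_comm hVcomm
  let φ : H →* MulAut V := (MulAut.conjNormal (H := V)).comp ρ
  have hφ : ∀ (h : H) (v : V), ((φ h v : V) : H ⧸ Φ) = ρ h * v * (ρ h)⁻¹ := by
    intro h v
    exact MulAut.conjNormal_apply _ _
  have hRker : ∀ r ∈ R, φ r = 1 := by
    intro r hr
    ext v
    rw [hφ, MulAut.one_apply, hVcomm _ ⟨r, hr, rfl⟩ _ v.2, mul_inv_cancel_right]
  have hkerR : ∀ h : H, φ h = 1 → h ∈ R := by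
    intro h hh
    apply Cfsg.Agent.Lib.Helper22.mem_pCore_of_trivial_on_frattini p hcent h
    intro r hr
    have h1 := hφ h ⟨ρ r, ⟨r, hr, rfl⟩⟩
    rw [hh, MulAut.one_apply] at h1
    have h2 : ρ (h * r * h⁻¹ * r⁻¹) = 1 := by
      simp only [map_mul, map_inv]
      rw [← h1, mul_inv_cancel]
    exact (QuotientGroup.eq_one_iff _).1 h2
  set π := QuotientGroup.mk' R with hπ
  have hπs : Function.Surjective π := QuotientGroup.mk'_surjective R
  let φb : H ⧸ R →* MulAut V := QuotientGroup.lift R φ hRker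
  have hφb : ∀ h : H, φb (π h) = φ h := fun h => rfl
  -- the quotient `X = H / R`
  have hsX : Cfsg.IsPSolvable p (H ⧸ R) := isPSolvable_quotient hp.out hs R
  have hOpX : Cfsg.pCore p (H ⧸ R) = ⊥ := Cfsg.Agent.H4.pCore_quotient_pCore p
  have habX : AbQ p (H ⧸ R) := hab.of_surjective π hπs
  set K := Cfsg.pPrimeCore p (H ⧸ R) with hK
  have hKn : K.Normal := inferInstance
  have hKcop : (Nat.card K).Coprime p := Cfsg.H1.pPrimeCore_coprime p
  have hB := centralizer_pPrimeCore_le p hsX hOpX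
  set xb := π x with hxb
  set yb := xb ^ p ^ n with hyb
  have hxN : x ^ p ^ (n + 1) = 1 := hexp x hx
  have hxbN : xb ^ p ^ (n + 1) = 1 := by rw [hxb, ← map_pow, hxN, map_one]
  have hyb1 : yb ≠ 1 := by
    intro h
    apply hxR
    rw [hyb, hxb, ← map_pow] at h
    exact (QuotientGroup.eq_one_iff _).1 h
  have hybp : yb ^ p = 1 := by rw [hyb, ← pow_mul, ← pow_succ, hxbN]
  have hnc : ¬ K ≤ centralizer ({yb} : Set (H ⧸ R)) := by
    intro h
    have h1 : yb ∈ centralizer (K : Set (H ⧸ R)) := by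
      rw [mem_centralizer_iff]
      intro k hk
      exact (mem_centralizer_singleton_iff.1 (h hk))
    exact hyb1 (eq_one_of_pElement_of_coprime hKcop (hB h1) 1 (by rw [pow_one]; exact hybp))
  have hoxb : orderOf xb ∣ p ^ (n + 1) := orderOf_dvd_of_pow_eq_one hxbN
  obtain ⟨q, hq, Qt, hQtq, hQtK, hxQt, hyQt⟩ := exists_invariant_sylow_not_centralized K xb yb
    (by rw [normalizer_eq_top_iff.2 hKn]; exact mem_top _)
    (Nat.Coprime.coprime_dvd_left hoxb (hKcop.symm.pow_left _)) hnc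
  have hQtcop : (Nat.card Qt).Coprime p := Nat.Coprime.coprime_dvd_left (card_dvd_of_le hQtK) hKcop
  have hqp : q ≠ p := by
    rintro rfl
    apply hyQt
    intro z hz
    obtain ⟨k, hk⟩ := hQtq ⟨z, hz⟩
    have hk' : z ^ q ^ k = 1 := congrArg Subtype.val hk
    rw [eq_one_of_pElement_of_coprime hQtcop hz k hk']
    exact one_mem _
  have hQtab := habX q hq.out hqp Qt hQtq
  have hybx : yb ∈ zpowers xb := pow_mem (mem_zpowers xb) _
  have hyN : zpowers yb ≤ normalizer (Qt : Set (H ⧸ R)) :=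
    zpowers_le.2 ((zpowers_le.2 hxQt) hybx)
  set Q : Subgroup (H ⧸ R) := ⁅Qt, zpowers yb⁆ with hQ
  have hQQt : Q ≤ Qt := by
    rw [hQ, commutator_le]
    intro a ha b hb
    have h1 : b * a⁻¹ * b⁻¹ ∈ Qt := (mem_normalizer_iff.1 (hyN hb) a⁻¹).1 (inv_mem ha)
    have h2 : ⁅a, b⁆ = a * (b * a⁻¹ * b⁻¹) := by rw [commutatorElement_def]; group
    rw [h2]
    exact mul_mem ha h1
  have hQcop : (Nat.card Q).Coprime p := Nat.Coprime.coprime_dvd_left (card_dvd_of_le hQQt) hQtcop
  have hoyb : Nat.card (zpowers yb) ∣ p := by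
    rw [Nat.card_zpowers]; exact orderOf_dvd_of_pow_eq_one hybp
  have hCQ : centralizer ((zpowers yb : Subgroup (H ⧸ R)) : Set (H ⧸ R)) ⊓ Q = ⊥ :=
    centralizer_inf_commutator_eq_bot Qt (zpowers yb)
      (fun a ha => mem_centralizer_iff.2 (fun b hb => hQtab b hb a ha)) hyN
      (Nat.Coprime.coprime_dvd_left hoyb hQtcop.symm)
  have hQne : Q ≠ ⊥ := by
    intro h
    apply hyQt
    rw [hQ, commutator_eq_bot_iff_le_centralizer] at h
    intro z hz
    rw [mem_centralizer_singleton_iff]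
    exact ((mem_centralizer_iff.1 (h hz)) yb (mem_zpowers yb)).symm
  have hxQ : xb ∈ normalizer (Q : Set (H ⧸ R)) := by
    apply mem_normalizer_commutator hxQt
    rw [mem_normalizer_iff_conj, MonoidHom.map_zpowers]
    congr 1
    have : xb * yb = yb * xb := by rw [hyb, ← pow_succ', ← pow_succ]
    simp [MulAut.conj_apply, this]
  apply hQne
  rw [eq_bot_iff]
  have key := frob_module φb Q xb (fun a ha => (mem_normalizer_iff.1 hxQ a).1 ha) (p ^ (n + 1))
    (pow_pos hp.out.pos _) ?_ ?_ ?_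
  · intro c hc
    obtain ⟨c', rfl⟩ := hπs c
    have h1 := key _ hc
    rw [hφb] at h1
    exact (QuotientGroup.eq_one_iff _).2 (hkerR c' h1)
  · -- fixed points
    intro i hi0 hiN a ha hcomm
    obtain ⟨s, t, ht, hst⟩ := Nat.exists_eq_pow_mul_and_not_dvd hi0.ne' p hp.out.ne_one
    have hsn : s ≤ n := by
      by_contra hlt
      have h1 : p ^ (n + 1) ≤ p ^ s := Nat.pow_le_pow_right hp.out.pos (by omega)
      have h2 : p ^ s ≤ i := by
        rw [hst]
        exact Nat.le_mul_of_pos_right _ (Nat.pos_of_ne_zero (fun h => ht (h ▸ dvd_zero p)))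
      omega
    have h1 : (xb ^ i) ^ p ^ (n - s) = yb ^ t := by
      rw [hyb, ← pow_mul, ← pow_mul, hst]
      congr 1
      have : p ^ n = p ^ s * p ^ (n - s) := by rw [← pow_add]; congr 1; omega
      rw [this]; ring
    have h2 : Commute (yb ^ t) a := by
      rw [← h1]
      exact Commute.pow_left hcomm _
    have h3 : Nat.Coprime t (orderOf yb) := by
      have h4 : orderOf yb ∣ p := orderOf_dvd_of_pow_eq_one hybp
      exact Nat.Coprime.coprime_dvd_right h4 ((Nat.Prime.coprime_iff_not_dvd hp.out).2 ht).symm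
    obtain ⟨u, hu⟩ := exists_pow_eq_self_of_coprime h3
    have h5 : Commute yb a := by
      rw [← hu]
      exact Commute.pow_left h2 _
    have h6 : a ∈ centralizer ((zpowers yb : Subgroup (H ⧸ R)) : Set (H ⧸ R)) ⊓ Q := by
      refine mem_inf.2 ⟨?_, ha⟩
      rw [mem_centralizer_iff]
      rintro _ ⟨k, rfl⟩
      exact (Commute.zpow_left h5 k)
    rw [hCQ] at h6
    exact h6
  · -- norms
    intro b hb m
    obtain ⟨b', rfl⟩ := hπs b
    obtain ⟨m, ⟨r, hr, rfl⟩⟩ := m
    set g := b'⁻¹ * x * b' with hg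
    have hgp : ∃ k : ℕ, g ^ p ^ k = 1 := by
      obtain ⟨k, hk⟩ := hx
      refine ⟨k, ?_⟩
      have := conj_pow (a := b'⁻¹) (b := x) (i := p ^ k)
      rw [inv_inv] at this
      rw [hg, this, hk]
      group
    have hgN : g ^ p ^ (n + 1) = 1 := hexp g hgp
    have hrgp : ∃ k : ℕ, (r * g) ^ p ^ k = 1 := by
      have h1 : (r * g) ^ p ^ (n + 1) ∈ R := by
        apply (QuotientGroup.eq_one_iff _).1
        have h2 : (QuotientGroup.mk (r * g) : H ⧸ R) = π g := by
          change π (r * g) = π g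
          have h3 : π r = 1 := (QuotientGroup.eq_one_iff r).2 hr
          rw [map_mul, h3, one_mul]
        rw [QuotientGroup.mk_pow, h2, ← map_pow, hgN, map_one]
      obtain ⟨j, hj⟩ := hRp ⟨_, h1⟩
      have hj' : ((r * g) ^ p ^ (n + 1)) ^ p ^ j = 1 := congrArg Subtype.val hj
      exact ⟨n + 1 + j, by rw [pow_add, pow_mul]; exact hj'⟩
    have hrgN : (r * g) ^ p ^ (n + 1) = 1 := hexp _ hrgp
    have hform := pow_mul_formula V (ρ g) ⟨ρ r, ⟨r, hr, rfl⟩⟩ (p ^ (n + 1))
    rw [← map_pow ρ g, hgN, map_one, mul_one] at hform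
    have h3 : (ρ r * ρ g) ^ p ^ (n + 1) = 1 := by rw [← map_mul, ← map_pow, hrgN, map_one]
    have h4 : (∏ i ∈ Finset.range (p ^ (n + 1)), MulAut.conjNormal ((ρ g) ^ i) (⟨ρ r, ⟨r, hr, rfl⟩⟩ : V) : V) = 1 := by
      apply Subtype.ext
      rw [← hform]
      exact h3
    rw [← h4]
    apply Finset.prod_congr rfl
    intro i _
    have h5 : ((π b')⁻¹ * xb * π b') ^ i = π (g ^ i) := by
      rw [hg, hxb]; simp only [map_pow, map_mul, map_inv]
    rw [h5, hφb]
    change MulAut.conjNormal (ρ (g ^ i)) _ = _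
    rw [map_pow]
  · -- torsion
    intro m hm
    obtain ⟨k, hk⟩ := hVp m
    have h2 := pow_gcd_eq_one.2 ⟨hm, hk⟩
    rwa [Nat.Coprime.pow_right k hQcop, pow_one] at h2

theorem hh_main {p : ℕ} [hp : Fact p.Prime] (n : ℕ) : ∀ (G : Type u) [Group G] [Finite G],
    Cfsg.IsPSolvable p G → AbQ p G → ExpP p n G → PL p n (⊥ : Subgroup G) ⊤ := by
  induction n with
  | zero =>
    intro G _ _ _ _ hexp
    refine ⟨bot_le, ?_⟩
    rw [relIndex_bot_left, card_top]
    apply Nat.Coprime.symm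
    rw [Nat.Prime.coprime_iff_not_dvd hp.out]
    intro hdvd
    obtain ⟨x, hx⟩ := exists_prime_orderOf_dvd_card' p hdvd
    have h1 := hexp x ⟨1, by rw [pow_one, ← hx]; exact pow_orderOf_eq_one x⟩
    rw [pow_zero, pow_one] at h1
    rw [h1, orderOf_one] at hx
    exact hp.out.one_lt.ne hx
  | succ n ih =>
    intro G _ _ hs hab hexp
    have hN : (Cfsg.pPrimeCore p G).Normal := inferInstance
    have hR : (Cfsg.pCore p (G ⧸ Cfsg.pPrimeCore p G)).Normal := inferInstance
    apply PL.of_quotient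
    have hf := QuotientGroup.mk'_surjective (Cfsg.pPrimeCore p G)
    have hg := QuotientGroup.mk'_surjective (Cfsg.pCore p (G ⧸ Cfsg.pPrimeCore p G))
    have hs1 := isPSolvable_quotient hp.out hs (Cfsg.pPrimeCore p G)
    have hs2 := isPSolvable_quotient hp.out hs1 (Cfsg.pCore p (G ⧸ Cfsg.pPrimeCore p G))
    have hab1 := hab.of_surjective _ hf
    have hab2 := hab1.of_surjective _ hg
    have hexp1 := hexp.of_surjective _ hf
    apply ih _ hs2 hab2
    intro z hz
    obtain ⟨h, rfl, hh⟩ := exists_pElement_lift _ hg z hz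
    rw [← map_pow]
    exact (QuotientGroup.eq_one_iff _).2 (hh_core hs1 (Cfsg.H1.pPrimeCore_quotient p) hab1 hexp1 h hh)

end Cfsg.Agent.H20
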