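import Mathlib
import Cfsg.Agent.H20.HHAb
import Cfsg.Agent.H20.MinNonPClosed
import Cfsg.Agent.H1.Compl
import Cfsg.Agent.H9.Cores
import Cfsg.Agent.Lib.Helper22.FittingSub

/-!
Fixed-point-free automorphisms of order dividing `4` (Kovács), internal version (helper20).
-/

set_option autoImplicit false

namespace Cfsg.Agent.H20

open Subgroup
open scoped commutatorElement

universe u

theorem card_modEq_fixed {Γ : Type*} [Group Γ] (a : Γ) (ha : a ^ 4 = 1) (Ω : Set Γ) [Finite Ω]
    (hΩ : ∀ w ∈ Ω, a * w * a⁻¹ ∈ Ω) :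
    Nat.card Ω ≡ Nat.card {w : Ω // a * (w : Γ) * a⁻¹ = w} [MOD 2] := by
  classical
  have : Fintype Ω := Fintype.ofFinite Ω
  let f : Function.End Ω := fun w => ⟨a * w * a⁻¹, hΩ w w.2⟩
  have hfn : ∀ (n : ℕ) (w : Ω), (((f ^ n) w : Ω) : Γ) = a ^ n * w * (a ^ n)⁻¹ := by
    intro n
    induction n with
    | zero =>
      intro w
      have : (f ^ 0) w = w := rfl
      rw [this]; simp
    | succ n ih =>
      intro w
      have : (f ^ (n + 1)) w = f ((f ^ n) w) := by rw [pow_succ']; rfl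
      rw [this]
      change a * (((f ^ n) w : Ω) : Γ) * a⁻¹ = _
      rw [ih, pow_succ']
      group
  have hf : f ^ 2 ^ 2 = 1 := by
    funext w
    apply Subtype.ext
    rw [hfn]
    have : (1 : Function.End Ω) w = w := rfl
    rw [this]
    norm_num [ha]
  have : Fact (Nat.Prime 2) := ⟨Nat.prime_two⟩
  have h1 := Equiv.Perm.card_fixedPoints_modEq (p := 2) (n := 2) hf
  rw [Nat.card_eq_fintype_card]
  refine h1.trans ?_
  rw [← Nat.card_eq_fintype_card]
  suffices h : Nat.card ↑(Function.fixedPoints f) = Nat.card {w : Ω // a * (w : Γ) * a⁻¹ = w} by rw [h]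
  apply Nat.card_congr
  refine Equiv.subtypeEquivRight ?_
  intro w
  constructor
  · intro h
    exact congrArg Subtype.val h
  · intro h
    exact Subtype.ext h

theorem odd_of_fpf {Γ : Type*} [Group Γ] (G : Subgroup Γ) [Finite G] (a : Γ) (ha : a ^ 4 = 1)
    (haG : ∀ g ∈ G, a * g * a⁻¹ ∈ G) (hfpf : ∀ g ∈ G, a * g * a⁻¹ = g → g = 1) : Odd (Nat.card G) := by
  have h1 := card_modEq_fixed a ha (G : Set Γ) haG
  have h2 : Nat.card {w : (G : Set Γ) // a * (w : Γ) * a⁻¹ = w} = 1 := by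
    rw [Nat.card_eq_one_iff_unique]
    refine ⟨⟨?_⟩, ⟨⟨⟨1, G.one_mem⟩, by simp⟩⟩⟩
    rintro ⟨⟨w, hw⟩, hw'⟩ ⟨⟨w₂, hw₂⟩, hw₂'⟩
    have e1 := hfpf w hw hw'
    have e2 := hfpf w₂ hw₂ hw₂'
    subst e1; subst e2; rfl
  rw [h2] at h1
  rw [Nat.odd_iff]
  exact h1

theorem fpf_map {Γ X : Type*} [Group Γ] [Group X] (G : Subgroup Γ) [Finite G] [hG : G.Normal] (a : Γ)
    (ha : a ^ 4 = 1) (hfpf : ∀ g ∈ G, a * g * a⁻¹ = g → g = 1) (f : Γ →* X) (g : Γ) (hg : g ∈ G)
    (h : f a * f g * (f a)⁻¹ = f g) : f g = 1 := by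
  have hodd := odd_of_fpf G a ha (fun g hg => hG.conj_mem g hg a) hfpf
  set N₀ := G ⊓ f.ker with hN₀
  set Ω : Set Γ := {w | w ∈ G ∧ f w = f g} with hΩ
  have : Finite Ω := Finite.Set.subset (G : Set Γ) (fun w hw => hw.1)
  have e : N₀ ≃ Ω :=
    { toFun := fun n => ⟨g * n, G.mul_mem hg n.2.1, by rw [map_mul, MonoidHom.mem_ker.1 n.2.2, mul_one]⟩
      invFun := fun w => ⟨g⁻¹ * w, G.mul_mem (G.inv_mem hg) w.2.1, MonoidHom.mem_ker.2 (by
        rw [map_mul, map_inv, w.2.2, inv_mul_cancel])⟩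
      left_inv := fun n => by simp
      right_inv := fun w => by simp }
  have hcard : Odd (Nat.card Ω) := by
    rw [← Nat.card_congr e]
    exact Odd.of_dvd_nat hodd (card_dvd_of_le inf_le_left)
  have h1 := card_modEq_fixed a ha Ω (by
    rintro w ⟨hw1, hw2⟩
    exact ⟨hG.conj_mem w hw1 a, by rw [map_mul, map_mul, map_inv, hw2, h]⟩)
  have h2 : Nat.card {w : Ω // a * (w : Γ) * a⁻¹ = w} ≠ 0 := by
    intro h0
    rw [h0] at h1
    rw [Nat.odd_iff] at hcard
    have : Nat.card Ω % 2 = 0 := h1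
    omega
  have h3 : Nonempty {w : Ω // a * (w : Γ) * a⁻¹ = w} := by
    by_contra hne
    rw [not_nonempty_iff] at hne
    exact h2 Nat.card_of_isEmpty
  obtain ⟨⟨⟨w, hw1, hw2⟩, hw3⟩⟩ := h3
  have := hfpf w hw1 hw3
  rw [← hw2, this, map_one]

/-- a fixed-point-free "involution" inverts, and the group is commutative -/
theorem comm_of_fpf_involution {X : Type*} [Group X] (D : Subgroup X) [Finite D] (x : X)
    (hxD : ∀ d ∈ D, x * d * x⁻¹ ∈ D) (hx2 : ∀ d ∈ D, x ^ 2 * d = d * x ^ 2)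
    (hfpf : ∀ d ∈ D, x * d * x⁻¹ = d → d = 1) : ∀ d ∈ D, ∀ e ∈ D, d * e = e * d := by
  let θ : D → D := fun d => ⟨(d : X)⁻¹ * (x * d * x⁻¹), D.mul_mem (D.inv_mem d.2) (hxD d d.2)⟩
  have hinj : Function.Injective θ := by
    intro d e hde
    have h1 : (d : X)⁻¹ * (x * d * x⁻¹) = (e : X)⁻¹ * (x * e * x⁻¹) := congrArg Subtype.val hde
    have h2 : x * ((e : X) * (d : X)⁻¹) * x⁻¹ = (e : X) * (d : X)⁻¹ := by
      have : x * ((e : X) * (d : X)⁻¹) * x⁻¹ = (x * e * x⁻¹) * (x * d * x⁻¹)⁻¹ := by group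
      rw [this]
      have h3 : x * e * x⁻¹ = e * ((d : X)⁻¹ * (x * d * x⁻¹)) := by rw [h1]; group
      rw [h3]; group
    have h4 := hfpf _ (D.mul_mem e.2 (D.inv_mem d.2)) h2
    exact (Subtype.ext (mul_inv_eq_one.1 h4)).symm
  have hsurj : Function.Surjective θ := Finite.injective_iff_surjective.1 hinj
  have hinv : ∀ d ∈ D, x * d * x⁻¹ = d⁻¹ := by
    intro h hh
    obtain ⟨d, hd⟩ := hsurj ⟨h, hh⟩
    have h1 : h = (d : X)⁻¹ * (x * d * x⁻¹) := (congrArg Subtype.val hd).symm
    have h2 : x * (x * d * x⁻¹) * x⁻¹ = d := by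
      have : x * (x * d * x⁻¹) * x⁻¹ = (x ^ 2 * d) * (x ^ 2)⁻¹ := by rw [sq]; group
      rw [this, hx2 d d.2]; group
    rw [h1]
    have : x * ((d : X)⁻¹ * (x * d * x⁻¹)) * x⁻¹ = (x * d * x⁻¹)⁻¹ * (x * (x * d * x⁻¹) * x⁻¹) := by group
    rw [this, h2]; group
  intro d hd e he
  have h1 := hinv (d * e) (D.mul_mem hd he)
  have h2 : x * (d * e) * x⁻¹ = (x * d * x⁻¹) * (x * e * x⁻¹) := by group
  rw [h2, hinv d hd, hinv e he, mul_inv_rev] at h1
  have h3 := congrArg (fun z => z⁻¹) h1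
  simpa using h3.symm

theorem eq_one_of_sq_of_odd {X : Type*} [Group X] (D : Subgroup X) [Finite D] (hodd : Odd (Nat.card D))
    {e : X} (he : e ∈ D) (h2 : e ^ 2 = 1) : e = 1 := by
  have h1 : e ^ Nat.card D = 1 := congrArg Subtype.val (pow_card_eq_one' (G := D) (x := ⟨e, he⟩))
  have h3 := pow_gcd_eq_one.2 ⟨h1, h2⟩
  have h4 : Nat.gcd (Nat.card D) 2 = 1 := Nat.coprime_two_right.2 hodd
  rwa [h4, pow_one] at h3

/-- If the involution `s` centralizes all commutators `[d, s]`, it centralizes `D` (odd order). -/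
theorem comm_of_comm_commutator {X : Type*} [Group X] (D : Subgroup X) [Finite D] (hodd : Odd (Nat.card D))
    (s : X) (hs : s ^ 2 = 1) (hsD : ∀ d ∈ D, s * d * s⁻¹ ∈ D) {d : X} (hd : d ∈ D)
    (h : s * ⁅d, s⁆ = ⁅d, s⁆ * s) : s * d = d * s := by
  have hsinv : s⁻¹ = s := inv_eq_of_mul_eq_one_left (by rw [← sq]; exact hs)
  set e := ⁅d, s⁆ with he
  have heD : e ∈ D := by
    have : e = d * (s * d⁻¹ * s⁻¹) := by rw [he, commutatorElement_def]; group
    rw [this]
    exact D.mul_mem hd (hsD _ (D.inv_mem hd))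
  have h1 : s * e * s⁻¹ = e⁻¹ := by
    rw [he, commutatorElement_def, hsinv]
    have : (d * s * d⁻¹ * s)⁻¹ = s⁻¹ * d * s⁻¹ * d⁻¹ := by group
    rw [this, hsinv]
    have h3 : s * s = 1 := by rw [← sq]; exact hs
    calc s * (d * s * d⁻¹ * s) * s = s * d * s * d⁻¹ * (s * s) := by group
      _ = s * d * s * d⁻¹ := by rw [h3, mul_one]
  have h2 : e ^ 2 = 1 := by
    have : s * e * s⁻¹ = e := by rw [h]; group
    rw [this] at h1
    rw [sq]
    nth_rewrite 1 [h1]
    exact inv_mul_cancel e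
  have h3 := eq_one_of_sq_of_odd D hodd heD h2
  rw [he, commutatorElement_eq_one_iff_mul_comm] at h3
  exact h3.symm

theorem min_inv {X : Type*} [Group X] [Finite X] (x : X) (hx4 : x ^ 4 = 1) (D : Subgroup X)
    (hodd : Odd (Nat.card D)) (hsol : Group.IsSolvable D) (hxD : x ∈ normalizer (D : Set X))
    (hfpf : ∀ d ∈ D, x * d * x⁻¹ = d → d = 1) (hns : ¬ D ≤ centralizer ({x ^ 2} : Set X))
    (hmin : ∀ E : Subgroup X, E < D → x ∈ normalizer (E : Set X) → E ≤ centralizer ({x ^ 2} : Set X)) :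
    (∀ d ∈ D, ∀ e ∈ D, d * e = e * d) ∧ (∀ d ∈ D, x ^ 2 * d = d * x ^ 2 → d = 1) := by
  set s := x ^ 2 with hs
  have hs2 : s ^ 2 = 1 := by rw [hs, ← pow_mul]; exact hx4
  have hsinv : s⁻¹ = s := inv_eq_of_mul_eq_one_left (by rw [← sq]; exact hs2)
  have hxs : x * s = s * x := by rw [hs, ← pow_succ', ← pow_succ]
  have hxconj : ∀ d ∈ D, x * d * x⁻¹ ∈ D := fun d hd => (mem_normalizer_iff.1 hxD d).1 hd
  have hsN : s ∈ normalizer (D : Set X) := pow_mem hxD 2
  have hsconj : ∀ d ∈ D, s * d * s⁻¹ ∈ D := fun d hd => (mem_normalizer_iff.1 hsN d).1 hd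
  have hxzs : x ∈ normalizer ((zpowers s : Subgroup X) : Set X) := by
    rw [mem_normalizer_iff_conj, MonoidHom.map_zpowers]
    congr 1
    simp [MulAut.conj_apply, hxs]
  have hcs : ∀ {z : X}, z ∈ centralizer ({s} : Set X) ↔ s * z = z * s := by
    intro z
    rw [mem_centralizer_singleton_iff]
    exact eq_comm
  -- `D' ≤ C(s)`
  have hDne : D ≠ ⊥ := by
    rintro rfl
    exact hns bot_le
  have hD'lt : (⁅D, D⁆ : Subgroup X) < D := by
    have : Nontrivial D := (nontrivial_iff_ne_bot D).2 hDne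
    have h1 := Group.IsSolvable.commutator_lt_top_of_nontrivial D
    have h2 : (⁅D, D⁆ : Subgroup X) = (commutator D).map D.subtype := by
      rw [commutator_def, map_commutator, ← MonoidHom.range_eq_map, range_subtype]
    rw [h2]
    refine lt_of_le_of_ne (map_subtype_le _) ?_
    intro h3
    apply h1.ne
    apply map_injective D.subtype_injective
    rw [h3, ← MonoidHom.range_eq_map, range_subtype]
  have hD'c : (⁅D, D⁆ : Subgroup X) ≤ centralizer ({s} : Set X) :=
    hmin _ hD'lt (mem_normalizer_commutator hxD hxD)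
  -- `[D, s] = D`
  have hD1le : (⁅D, zpowers s⁆ : Subgroup X) ≤ D := by
    rw [commutator_le]
    intro d hd b hb
    have hb' : b ∈ normalizer (D : Set X) := (zpowers_le.2 hsN) hb
    have h1 : b * d⁻¹ * b⁻¹ ∈ D := (mem_normalizer_iff.1 hb' d⁻¹).1 (inv_mem hd)
    have h2 : ⁅d, b⁆ = d * (b * d⁻¹ * b⁻¹) := by rw [commutatorElement_def]; group
    rw [h2]
    exact mul_mem hd h1
  have hD1 : (⁅D, zpowers s⁆ : Subgroup X) = D := by
    by_contra hne
    have hlt := lt_of_le_of_ne hD1le hne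
    have h1 := hmin _ hlt (mem_normalizer_commutator hxD hxzs)
    apply hns
    intro d hd
    rw [hcs]
    apply comm_of_comm_commutator D hodd s hs2 hsconj hd
    exact hcs.1 (h1 (commutator_mem_commutator hd (mem_zpowers s)))
  set Z := D ⊓ centralizer ({s} : Set X) with hZ
  -- `Z` is central in `D`
  have hZc : ⁅D, Z⁆ = ⊥ := by
    have h1 : ⁅⁅zpowers s, Z⁆, D⁆ = ⊥ := by
      have : ⁅zpowers s, Z⁆ = ⊥ := by
        rw [commutator_eq_bot_iff_le_centralizer, zpowers_le, mem_centralizer_iff]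
        intro z hz
        exact (hcs.1 hz.2).symm
      rw [this, commutator_bot_left]
    have h2 : ⁅⁅Z, D⁆, zpowers s⁆ = ⊥ := by
      rw [commutator_eq_bot_iff_le_centralizer]
      intro z hz
      have h3 : z ∈ (⁅D, D⁆ : Subgroup X) := (commutator_mono inf_le_left le_rfl) hz
      rw [mem_centralizer_iff]
      rintro _ ⟨k, rfl⟩
      exact (Commute.zpow_left (hcs.1 (hD'c h3)) k)
    have h3 := commutator_commutator_eq_bot_of_rotate h1 h2
    rwa [hD1] at h3
  have hZcomm : ∀ d ∈ D, ∀ z ∈ Z, d * z = z * d := by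
    intro d hd z hz
    rw [commutator_eq_bot_iff_le_centralizer] at hZc
    exact ((mem_centralizer_iff.1 (hZc hd)) z hz).symm
  -- choose `y`
  obtain ⟨y, hyD, hyc⟩ : ∃ y ∈ D, y ∉ centralizer ({s} : Set X) := by
    by_contra hcon
    push Not at hcon
    exact hns hcon
  set u := s * y * s⁻¹ with hu
  have huD : u ∈ D := hsconj y hyD
  set w := y * u with hw
  have hwD : w ∈ D := mul_mem hyD huD
  have hsu : s * u * s⁻¹ = y := by
    rw [hu, hsinv]
    have h3 : s * s = 1 := by rw [← sq]; exact hs2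
    calc s * (s * y * s) * s = (s * s) * y * (s * s) := by group
      _ = y := by rw [h3, one_mul, mul_one]
  have hwZ : w ∈ Z := by
    refine ⟨hwD, ?_⟩
    set z₁ := u⁻¹ * y⁻¹ * u * y with hz₁
    have hz₁D' : z₁ ∈ (⁅D, D⁆ : Subgroup X) := by
      have : z₁ = ⁅u⁻¹, y⁻¹⁆ := by rw [commutatorElement_def, hz₁]; group
      rw [this]
      exact commutator_mem_commutator (inv_mem huD) (inv_mem hyD)
    have hz₁s : s * z₁ * s⁻¹ = z₁ := by
      rw [hcs.1 (hD'c hz₁D')]; group
    have h1 : s * w * s⁻¹ = w * z₁ := by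
      have : s * w * s⁻¹ = (s * y * s⁻¹) * (s * u * s⁻¹) := by rw [hw]; group
      rw [this, hsu, ← hu, hw, hz₁]; group
    have h2 : s * (s * w * s⁻¹) * s⁻¹ = w := by
      rw [hsinv]
      have h3 : s * s = 1 := by rw [← sq]; exact hs2
      calc s * (s * w * s) * s = (s * s) * w * (s * s) := by group
        _ = w := by rw [h3, one_mul, mul_one]
    have h3 : w * z₁ * z₁ = w := by
      have : s * (w * z₁) * s⁻¹ = (s * w * s⁻¹) * (s * z₁ * s⁻¹) := by group
      rw [h1, this, h1, hz₁s] at h2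
      exact h2
    have h4 : z₁ ^ 2 = 1 := by
      rw [sq]
      have := mul_left_cancel (a := w) (b := z₁ * z₁) (c := 1) (by rw [mul_one, ← mul_assoc]; exact h3)
      exact this
    have h5 := eq_one_of_sq_of_odd D hodd (hD'lt.le hz₁D') h4
    rw [h5, mul_one] at h1
    exact hcs.2 (mul_inv_eq_iff_eq_mul.1 h1)
  set y' := x * y * x⁻¹ with hy'
  have hy'D : y' ∈ D := hxconj y hyD
  have hxy' : x * y' * x⁻¹ = u := by
    rw [hy', hu, hs, sq]; group
  have huy : u = y⁻¹ * w := by rw [hw]; group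
  set H := closure ({y, y'} : Set X) ⊔ Z with hH
  have hHD : H ≤ D := by
    refine sup_le ?_ inf_le_left
    rw [closure_le]
    rintro z (rfl | rfl)
    · exact hyD
    · exact hy'D
  have hyH : y ∈ H := (le_sup_left : closure ({y, y'} : Set X) ≤ H) (subset_closure (by simp))
  have hy'H : y' ∈ H := (le_sup_left : closure ({y, y'} : Set X) ≤ H) (subset_closure (by simp))
  have hZH : Z ≤ H := le_sup_right
  have hxH : x ∈ normalizer (H : Set X) := by
    apply mem_normalizer_of_conj_mem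
    have h1 : H ≤ H.comap (MulAut.conj x).toMonoidHom := by
      refine sup_le ?_ ?_
      · rw [closure_le]
        rintro z (rfl | rfl)
        · exact hy'H
        · change x * y' * x⁻¹ ∈ H
          rw [hxy', huy]
          exact mul_mem (inv_mem hyH) (hZH hwZ)
      · intro z hz
        change x * z * x⁻¹ ∈ H
        apply hZH
        refine ⟨hxconj z hz.1, hcs.2 ?_⟩
        have h2 := hcs.1 hz.2
        calc s * (x * z * x⁻¹) = x * (s * z) * x⁻¹ := by rw [← mul_assoc, ← mul_assoc, ← hxs]; group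
          _ = x * (z * s) * x⁻¹ := by rw [h2]
          _ = x * z * x⁻¹ * (x * s) * x⁻¹ := by group
          _ = x * z * x⁻¹ * s := by rw [hxs]; group
    intro b hb
    exact h1 hb
  have hHeq : H = D := by
    by_contra hne
    exact hyc (hmin H (lt_of_le_of_ne hHD hne) hxH hyH)
  -- the commutator of `y` and `y'`
  set c := ⁅y, y'⁆ with hc
  have hcD' : c ∈ (⁅D, D⁆ : Subgroup X) := commutator_mem_commutator hyD hy'D
  have hcZ : c ∈ Z := ⟨hD'lt.le hcD', hD'c hcD'⟩
  have hyy' : y * y' = c * y' * y := by rw [hc, commutatorElement_def]; group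
  have hcfix : x * c * x⁻¹ = c := by
    have h1 : x * c * x⁻¹ = ⁅y', u⁆ := by
      rw [hc, commutatorElement_def, commutatorElement_def, ← hxy', hy']; group
    rw [h1, huy, commutatorElement_def]
    have hwy' : y' * w = w * y' := hZcomm y' hy'D w hwZ
    have hcy : ∀ d ∈ D, d * c = c * d := fun d hd => hZcomm d hd c hcZ
    -- `y' y⁻¹ = c y⁻¹ y'`
    have h2 : y' * y⁻¹ = c * y⁻¹ * y' := by
      have : y' * y⁻¹ = y⁻¹ * (y * y') * y⁻¹ := by group
      rw [this, hyy']
      have h3 := hcy y⁻¹ (inv_mem hyD)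
      calc y⁻¹ * (c * y' * y) * y⁻¹ = (y⁻¹ * c) * y' := by group
        _ = c * y⁻¹ * y' := by rw [h3]
    calc y' * (y⁻¹ * w) * y'⁻¹ * (y⁻¹ * w)⁻¹ = (y' * y⁻¹) * (w * y'⁻¹ * w⁻¹) * y := by group
      _ = (y' * y⁻¹) * y'⁻¹ * y := by
          have : w * y'⁻¹ * w⁻¹ = y'⁻¹ := by
            have h4 : w * y'⁻¹ = y'⁻¹ * w := (hZcomm y'⁻¹ (inv_mem hy'D) w hwZ).symm
            rw [h4]; group
          rw [this]
      _ = c := by rw [h2]; group
  have hc1 : c = 1 := hfpf c hcZ.1 hcfix
  have hcomm : y * y' = y' * y := by rw [hyy', hc1, one_mul]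
  have hab : ∀ d ∈ D, ∀ e ∈ D, d * e = e * d := by
    have h1 : D ≤ centralizer ({y} : Set X) := by
      rw [← hHeq]
      refine sup_le ?_ ?_
      · rw [closure_le]
        rintro z (rfl | rfl)
        · exact mem_centralizer_singleton_iff.2 rfl
        · exact mem_centralizer_singleton_iff.2 hcomm.symm
      · intro z hz
        exact mem_centralizer_singleton_iff.2 (hZcomm y hyD z hz).symm
    have h2 : D ≤ centralizer ({y'} : Set X) := by
      rw [← hHeq]
      refine sup_le ?_ ?_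
      · rw [closure_le]
        rintro z (rfl | rfl)
        · exact mem_centralizer_singleton_iff.2 hcomm
        · exact mem_centralizer_singleton_iff.2 rfl
      · intro z hz
        exact mem_centralizer_singleton_iff.2 (hZcomm y' hy'D z hz).symm
    have h3 : D ≤ centralizer (D : Set X) := by
      nth_rewrite 1 [← hHeq]
      refine sup_le ?_ ?_
      · rw [closure_le]
        rintro z (rfl | rfl)
        · rw [SetLike.mem_coe, mem_centralizer_iff]
          intro d hd
          exact mem_centralizer_singleton_iff.1 (h1 hd)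
        · rw [SetLike.mem_coe, mem_centralizer_iff]
          intro d hd
          exact mem_centralizer_singleton_iff.1 (h2 hd)
      · intro z hz
        rw [mem_centralizer_iff]
        intro d hd
        exact hZcomm d hd z hz
    intro d hd e he
    exact ((mem_centralizer_iff.1 (h3 hd)) e he).symm
  refine ⟨hab, ?_⟩
  intro d hd hds
  have hcop : (Nat.card (zpowers s)).Coprime (Nat.card D) := by
    have h1 : Nat.card (zpowers s) ∣ 2 := by
      rw [Nat.card_zpowers]; exact orderOf_dvd_of_pow_eq_one hs2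
    exact Nat.Coprime.coprime_dvd_left h1 (Nat.coprime_two_left.2 hodd)
  have h1 := centralizer_inf_commutator_eq_bot D (zpowers s)
    (fun a ha => mem_centralizer_iff.2 (fun b hb => hab b hb a ha)) (zpowers_le.2 hsN) hcop
  rw [hD1] at h1
  have h2 : d ∈ centralizer ((zpowers s : Subgroup X) : Set X) ⊓ D := by
    refine mem_inf.2 ⟨?_, hd⟩
    rw [mem_centralizer_iff]
    rintro _ ⟨k, rfl⟩
    exact (Commute.zpow_left hds k)
  rw [h1] at h2
  exact h2

open scoped IsMulCommutative in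
theorem comm_centralizes {Γ : Type*} [Group Γ] [Finite Γ] (G : Subgroup Γ) [hG : G.Normal]
    (hsol : Group.IsSolvable G) (a : Γ) (ha : a ^ 4 = 1) (hfpf : ∀ g ∈ G, a * g * a⁻¹ = g → g = 1)
    (V : Subgroup Γ) [hV : V.Normal] (hVG : V ≤ G) (hVab : ∀ v ∈ V, ∀ w ∈ V, v * w = w * v)
    (S : Subgroup Γ) (hSG : S ≤ G) (haS : a ∈ normalizer (S : Set Γ))
    (hcop : (Nat.card S).Coprime (Nat.card V)) :
    ⁅S, zpowers (a ^ 2)⁆ ≤ centralizer (V : Set Γ) := by
  classical
  have hVc : IsMulCommutative V := isMulCommutative_of_comm hVab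
  let φ : Γ →* MulAut V := MulAut.conjNormal
  have hφ : ∀ (g : Γ) (v : V), ((φ g v : V) : Γ) = g * v * g⁻¹ := fun g v => MulAut.conjNormal_apply g v
  set x := φ a with hx
  have hx4 : x ^ 4 = 1 := by rw [hx, ← map_pow, ha, map_one]
  set Sh := S.map φ with hSh
  have hoddG := odd_of_fpf G a ha (fun g hg => hG.conj_mem g hg a) hfpf
  have hxSh : x ∈ normalizer (Sh : Set (MulAut V)) := by
    apply mem_normalizer_of_conj_mem
    rintro _ ⟨g, hg, rfl⟩
    exact ⟨a * g * a⁻¹, (mem_normalizer_iff.1 haS g).1 hg, by simp [hx]⟩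
  have hfixV : ∀ v : V, x v = v → v = 1 := by
    intro v hv
    have h1 := hφ a v
    rw [← hx, hv] at h1
    exact Subtype.ext (hfpf v (hVG v.2) h1.symm)
  have hkey : Sh ≤ centralizer ({x ^ 2} : Set (MulAut V)) := by
    by_contra hns
    obtain ⟨D, hD⟩ := (Set.toFinite {D : Subgroup (MulAut V) | D ≤ Sh ∧ x ∈ normalizer (D : Set (MulAut V)) ∧
      ¬ D ≤ centralizer ({x ^ 2} : Set (MulAut V))}).exists_minimal ⟨Sh, le_rfl, hxSh, hns⟩
    obtain ⟨⟨hDS, hxD, hDns⟩, hDmin⟩ := hD
    have hcardD : Nat.card D ∣ Nat.card S := (card_dvd_of_le hDS).trans (card_map_dvd S φ)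
    have hoddD : Odd (Nat.card D) := Odd.of_dvd_nat hoddG (hcardD.trans (card_dvd_of_le hSG))
    have hsolD : Group.IsSolvable D := by
      have h1 : Group.IsSolvable (G.map φ) :=
        Group.isSolvable_of_surjective (MonoidHom.subgroupMap_surjective φ G)
      exact Group.isSolvable_of_isSolvable_injective (inclusion_injective (hDS.trans (map_mono hSG)))
    have fpfD : ∀ d ∈ D, x * d * x⁻¹ = d → d = 1 := by
      intro d hd h
      obtain ⟨g, hg, rfl⟩ := hDS hd
      exact fpf_map G a ha hfpf φ g (hSG hg) h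
    obtain ⟨-, hDfix⟩ := min_inv x hx4 D hoddD hsolD hxD fpfD hDns (by
      intro E hE hxE
      by_contra hEns
      exact hE.not_ge (hDmin ⟨hE.le.trans hDS, hxE, hEns⟩ hE.le))
    have key := frob_module (MonoidHom.id (MulAut V)) D x (fun d hd => (mem_normalizer_iff.1 hxD d).1 hd) 4
      (by norm_num) ?_ ?_ ?_
    · apply hDns
      intro c hc
      have := key c hc
      rw [MonoidHom.id_apply] at this
      rw [this]
      exact one_mem _
    · intro i hi0 hi4 d hd hcomm
      apply hDfix d hd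
      have hc : Commute (x ^ i) d := hcomm
      interval_cases i
      · have := hc.pow_left 2
        rwa [pow_one] at this
      · exact hc
      · have := hc.pow_left 2
        have e : (x ^ 3) ^ 2 = x ^ 2 := by
          rw [← pow_mul, show 3 * 2 = 4 + 2 by norm_num, pow_add, hx4, one_mul]
        rwa [e] at this
    · intro b hb m
      simp only [MonoidHom.id_apply]
      set x' := b⁻¹ * x * b with hx'
      have hx'4 : x' ^ 4 = 1 := by
        have := conj_pow (a := b⁻¹) (b := x) (i := 4)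
        rw [inv_inv] at this
        rw [hx', this, hx4]; group
      set n := ∏ i ∈ Finset.range 4, (x' ^ i) m with hn
      have hn' : n = m * x' m * (x' ^ 2) m * (x' ^ 3) m := by
        rw [hn]
        simp [Finset.prod_range_succ]
      have h1 : x' n = n := by
        rw [hn', map_mul, map_mul, map_mul]
        have e2 : x' (x' m) = (x' ^ 2) m := by rw [sq]; rfl
        have e3 : x' ((x' ^ 2) m) = (x' ^ 3) m := by rw [pow_succ' x' 2]; rfl
        have e4 : x' ((x' ^ 3) m) = m := by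
          rw [← MulAut.mul_apply, ← pow_succ', hx'4, MulAut.one_apply]
        rw [e2, e3, e4]
        rw [mul_comm _ m, ← mul_assoc, ← mul_assoc]
      have h2 : x (b n) = b n := by
        have : x * b = b * x' := by rw [hx']; group
        rw [← MulAut.mul_apply, this, MulAut.mul_apply, h1]
      have h3 := hfixV _ h2
      exact (EmbeddingLike.map_eq_one_iff (f := b)).1 h3
    · intro m hm
      have h1 : m ^ Nat.card V = 1 := pow_card_eq_one'
      have h2 := pow_gcd_eq_one.2 ⟨hm, h1⟩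
      rwa [Nat.Coprime.coprime_dvd_left hcardD hcop, pow_one] at h2
  rw [commutator_le]
  intro g hg b hb
  obtain ⟨k, rfl⟩ := hb
  have h1 : Commute (φ g) (x ^ 2) := mem_centralizer_singleton_iff.1 (hkey ⟨g, hg, rfl⟩)
  have h2 : φ ⁅g, (a ^ 2) ^ k⁆ = 1 := by
    rw [map_commutatorElement, commutatorElement_eq_one_iff_commute, map_zpow, map_pow]
    exact h1.zpow_right k
  rw [mem_centralizer_iff]
  intro v hv
  have h3 := hφ ⁅g, (a ^ 2) ^ k⁆ ⟨v, hv⟩
  rw [h2, MulAut.one_apply] at h3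
  exact (mul_inv_eq_iff_eq_mul.1 h3.symm).symm

theorem comm_le_pCore (n : ℕ) : ∀ (Γ : Type u) [Group Γ] [Finite Γ], Nat.card Γ ≤ n →
    ∀ (G : Subgroup Γ) [G.Normal], Group.IsSolvable G → ∀ (a : Γ), a ^ 4 = 1 →
    (∀ g ∈ G, a * g * a⁻¹ = g → g = 1) → ∀ (q : ℕ) [Fact q.Prime] (S : Subgroup Γ), S ≤ G → IsPGroup q S →
    a ∈ normalizer (S : Set Γ) → ⁅S, zpowers (a ^ 2)⁆ ≤ Cfsg.pCore q Γ := by
  induction n with
  | zero =>
    intro Γ _ _ hcard
    exact absurd hcard (by have := Nat.card_pos (α := Γ); omega)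
  | succ n ih =>
    intro Γ _ _ hcard G hG hsol a ha hfpf q hq S hSG hSq haS
    by_cases hG1 : G = ⊥
    · have : S = ⊥ := by rw [eq_bot_iff, ← hG1]; exact hSG
      rw [this, commutator_bot_left]
      exact bot_le
    obtain ⟨p, V, hp, hVn, hVG, hV1, hVab, hVexp⟩ := Cfsg.H1.exists_normal_elemAb_le G hsol hG1
    have hpF : Fact p.Prime := ⟨hp⟩
    have hVab' : ∀ v ∈ V, ∀ w ∈ V, v * w = w * v := by
      rw [commutator_eq_bot_iff_le_centralizer] at hVab
      intro v hv w hw
      exact ((mem_centralizer_iff.1 (hVab hv)) w hw).symm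
    have hVp : IsPGroup p V := fun v => ⟨1, by
      apply Subtype.ext
      rw [pow_one]
      exact hVexp v v.2⟩
    set π := QuotientGroup.mk' V with hπ
    have hπs : Function.Surjective π := QuotientGroup.mk'_surjective V
    have hlt : Nat.card (Γ ⧸ V) ≤ n := by
      have h1 : Nat.card Γ = Nat.card (Γ ⧸ V) * Nat.card V := card_eq_card_quotient_mul_card_subgroup V
      have h2 : 1 < Nat.card V := (one_lt_card_iff_ne_bot V).2 hV1
      have h3 : 0 < Nat.card (Γ ⧸ V) := Nat.card_pos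
      have h4 : Nat.card (Γ ⧸ V) * 2 ≤ Nat.card (Γ ⧸ V) * Nat.card V := Nat.mul_le_mul_left _ h2
      omega
    have hGn : (G.map π).Normal := hG.map π hπs
    have hGs : Group.IsSolvable (G.map π) :=
      Group.isSolvable_of_surjective (MonoidHom.subgroupMap_surjective π G)
    have hT := ih (Γ ⧸ V) hlt (G.map π) hGs (π a) (by rw [← map_pow, ha, map_one])
      (by
        rintro _ ⟨g, hg, rfl⟩ h
        exact fpf_map G a ha hfpf π g hg h) q (S.map π) (map_mono hSG) (hSq.map π)
      (by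
        apply mem_normalizer_of_conj_mem
        rintro _ ⟨g, hg, rfl⟩
        exact ⟨a * g * a⁻¹, (mem_normalizer_iff.1 haS g).1 hg, by simp⟩)
    set T := ⁅S, zpowers (a ^ 2)⁆ with hTdef
    set L := (Cfsg.pCore q (Γ ⧸ V)).comap π with hL
    have hLn : L.Normal := inferInstance
    have hTL : T ≤ L := by
      rw [hL, ← map_le_iff_le_comap, hTdef, map_commutator, MonoidHom.map_zpowers, map_pow]
      exact hT
    have hTS : T ≤ S := by
      rw [hTdef, commutator_le]
      intro d hd b hb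
      have hb' : b ∈ normalizer (S : Set Γ) := (zpowers_le.2 (pow_mem haS 2)) hb
      have h1 : b * d⁻¹ * b⁻¹ ∈ S := (mem_normalizer_iff.1 hb' d⁻¹).1 (inv_mem hd)
      have h2 : ⁅d, b⁆ = d * (b * d⁻¹ * b⁻¹) := by rw [commutatorElement_def]; group
      rw [h2]
      exact mul_mem hd h1
    have hQp : IsPGroup q (Cfsg.pCore q (Γ ⧸ V)) := Cfsg.H1.pCore_isPGroup q
    by_cases hpq : p = q
    · subst hpq
      refine hTL.trans (Cfsg.H1.le_pCore hLn ?_)
      rintro ⟨l, hl⟩
      obtain ⟨k, hk⟩ := hQp ⟨π l, hl⟩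
      have hk' : (π l) ^ p ^ k = 1 := congrArg Subtype.val hk
      rw [← map_pow] at hk'
      have h1 : l ^ p ^ k ∈ V := (QuotientGroup.eq_one_iff _).1 hk'
      refine ⟨k + 1, Subtype.ext ?_⟩
      change l ^ p ^ (k + 1) = 1
      rw [pow_succ, pow_mul]
      exact hVexp _ h1
    · have hcop : (Nat.card S).Coprime (Nat.card V) := by
        obtain ⟨i, hi⟩ := IsPGroup.iff_card.1 hSq
        obtain ⟨j, hj⟩ := IsPGroup.iff_card.1 hVp
        rw [hi, hj]
        exact Nat.Coprime.pow _ _ ((Nat.coprime_primes hq.out hp).2 (Ne.symm hpq))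
      have hTc := comm_centralizes G hsol a ha hfpf V hVG hVab' S hSG haS hcop
      set M := L ⊓ centralizer (V : Set Γ) with hM
      have hMn : M.Normal := inferInstance
      let f : M →* Cfsg.pCore q (Γ ⧸ V) := (π.comp M.subtype).codRestrict _ (fun m => m.2.1)
      have hker : f.ker ≤ center M := by
        intro m hm
        have h1 : π (m : Γ) = 1 := congrArg Subtype.val (MonoidHom.mem_ker.1 hm)
        have h2 : (m : Γ) ∈ V := (QuotientGroup.eq_one_iff _).1 h1
        rw [mem_center_iff]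
        intro g
        apply Subtype.ext
        have h3 : (g : Γ) ∈ centralizer (V : Set Γ) := g.2.2
        have := (mem_centralizer_iff.1 h3) (m : Γ) h2
        simpa using this.symm
      have hnil : Group.IsNilpotent M := by
        have : Group.IsNilpotent (Cfsg.pCore q (Γ ⧸ V)) := hQp.isNilpotent
        exact Subgroup.isNilpotent_of_ker_le_center f hker
      obtain ⟨Q₀⟩ : Nonempty (Sylow q M) := inferInstance
      have hQ₀n : (Q₀ : Subgroup M).Normal := by
        have := ((Group.isNilpotent_of_finite_tfae (G := M)).out 0 3).1 hnil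
        exact this q hq Q₀
      have hQ₀c : (Q₀ : Subgroup M).Characteristic := Sylow.characteristic_of_normal Q₀ hQ₀n
      have hQ₀X : ((Q₀ : Subgroup M).map M.subtype).Normal := ConjAct.normal_of_characteristic_of_normal
      have hQ₀le : (Q₀ : Subgroup M).map M.subtype ≤ Cfsg.pCore q Γ := Cfsg.H1.le_pCore hQ₀X (Q₀.2.map _)
      have hTM : T ≤ M := le_inf hTL hTc
      have h1 : T.subgroupOf M ≤ Q₀ :=
        le_normal_sylow Q₀ hQ₀n ((hSq.to_le hTS).comap_of_injective _ M.subtype_injective)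
      intro z hz
      exact hQ₀le ⟨⟨z, hTM hz⟩, h1 hz, rfl⟩

theorem eq_of_forall_sylow_le {X : Type*} [Group X] (K C : Subgroup X) [Finite K] (hCK : C ≤ K)
    (h : ∀ (q : ℕ) [Fact q.Prime], ∃ P : Sylow q K, (P : Subgroup K).map K.subtype ≤ C) : C = K := by
  have : Finite C := Finite.Set.subset (K : Set X) hCK
  suffices h : Nat.card K ∣ Nat.card C from eq_of_le_of_card_ge hCK (Nat.le_of_dvd Nat.card_pos h)
  rw [← Nat.factorization_le_iff_dvd Nat.card_pos.ne' Nat.card_pos.ne']
  intro q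
  by_cases hq : q.Prime
  · have : Fact q.Prime := ⟨hq⟩
    obtain ⟨P, h2⟩ := h q
    have h3 : Nat.card ((P : Subgroup K).map K.subtype) = q ^ (Nat.card K).factorization q := by
      rw [card_map_of_injective K.subtype_injective]
      exact P.card_eq_multiplicity
    have h4 : q ^ (Nat.card K).factorization q ∣ Nat.card C := by
      rw [← h3]; exact card_dvd_of_le h2
    exact (hq.pow_dvd_iff_le_factorization Nat.card_pos.ne').1 h4
  · rw [Nat.factorization_eq_zero_of_not_prime _ hq]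
    exact Nat.zero_le _

theorem commutator_le_fitting_of_fpf4 {Γ : Type u} [Group Γ] [Finite Γ] (G : Subgroup Γ) [hG : G.Normal]
    (hsol : Group.IsSolvable G) (a : Γ) (ha : a ^ 4 = 1) (hfpf : ∀ g ∈ G, a * g * a⁻¹ = g → g = 1) :
    ⁅G, G⁆ ≤ Cfsg.fittingSubgroup Γ := by
  set F := Cfsg.fittingSubgroup Γ with hF
  have hFn : F.Normal := inferInstance
  set ρ := QuotientGroup.mk' F with hρ
  have hoddG := odd_of_fpf G a ha (fun g hg => hG.conj_mem g hg a) hfpf
  set C := G ⊓ (centralizer ({ρ (a ^ 2)} : Set (Γ ⧸ F))).comap ρ with hC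
  have hCG : C = G := by
    apply eq_of_forall_sylow_le G C inf_le_left
    intro q hq
    have hcop : (Nat.card (zpowers a)).Coprime (Nat.card G) := by
      have h1 : Nat.card (zpowers a) ∣ 2 ^ 2 := by
        rw [Nat.card_zpowers]; exact orderOf_dvd_of_pow_eq_one (by norm_num [ha])
      exact Nat.Coprime.coprime_dvd_left h1 ((Nat.coprime_two_left.2 hoddG).pow_left 2)
    obtain ⟨⟨P, hP⟩, -⟩ := Cfsg.H1.coprime_sylow_aux (zpowers a) G
      (by rw [normalizer_eq_top_iff.2 hG]; exact le_top) hcop (Or.inl inferInstance) q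
    refine ⟨P, le_inf (map_subtype_le _) ?_⟩
    have h1 := comm_le_pCore _ Γ le_rfl G hsol a ha hfpf q ((P : Subgroup G).map G.subtype)
      (map_subtype_le _) (P.2.map _) (hP (mem_zpowers a))
    intro g hg
    have h2 : ⁅g, a ^ 2⁆ ∈ F :=
      Cfsg.H9.pCore_le_fitting q (h1 (commutator_mem_commutator hg (mem_zpowers _)))
    have h3 : ρ ⁅g, a ^ 2⁆ = 1 := (QuotientGroup.eq_one_iff _).2 h2
    rw [map_commutatorElement, commutatorElement_eq_one_iff_mul_comm] at h3
    exact mem_centralizer_singleton_iff.2 h3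
  have hab := comm_of_fpf_involution (G.map ρ) (ρ a)
    (by
      rintro _ ⟨g, hg, rfl⟩
      exact ⟨a * g * a⁻¹, hG.conj_mem g hg a, by simp⟩)
    (by
      rintro _ ⟨g, hg, rfl⟩
      have h1 : g ∈ C := by rw [hCG]; exact hg
      have h2 := mem_centralizer_singleton_iff.1 h1.2
      rw [← map_pow]
      exact h2.symm)
    (by
      rintro _ ⟨g, hg, rfl⟩ h
      exact fpf_map G a ha hfpf ρ g hg h)
  rw [commutator_le]
  intro g hg h hh
  apply (QuotientGroup.eq_one_iff _).1
  change ρ ⁅g, h⁆ = 1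
  rw [map_commutatorElement, commutatorElement_eq_one_iff_mul_comm]
  exact hab _ ⟨g, hg, rfl⟩ _ ⟨h, hh, rfl⟩

end Cfsg.Agent.H20
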