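import Mathlib
import Cfsg.Agent.H20.HHAb

/-!
A Frobenius group `R⟨x⟩` acting on a `p`-group such that all elements `u * x ^ b` have order dividing `h`
(helper20).
-/

set_option autoImplicit false

namespace Cfsg.Agent.H20

open Subgroup

universe u

open scoped IsMulCommutative in
theorem frob_pgroup {p : ℕ} [Fact p.Prime] (h : ℕ) (h0 : 0 < h) : ∀ (n : ℕ) (Y : Type u) [Group Y] [Finite Y]
    (P R : Subgroup Y) [P.Normal] (x : Y), Nat.card Y ≤ n → IsPGroup p P →
    (Nat.card R).Coprime (Nat.card P) →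
    (∀ a ∈ R, x * a * x⁻¹ ∈ R) →
    (∀ i : ℕ, 0 < i → i < h → ∀ a ∈ R, x ^ i * a = a * x ^ i → a = 1) →
    (∀ b ∈ R, ∀ u ∈ P, (u * (b⁻¹ * x * b)) ^ h = 1) → ∀ c ∈ R, ∀ u ∈ P, c * u = u * c := by
  intro n
  induction n with
  | zero =>
    intro Y _ _ P R _ x hn
    exact absurd hn (by have := Nat.card_pos (α := Y); omega)
  | succ n ih =>
    intro Y _ _ P R _ x hn hP hcop hxR hfix hpow c hc u hu
    by_cases hP1 : P = ⊥
    · subst hP1
      rw [mem_bot] at hu
      subst hu
      simp
    -- coprimality consequence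
    have hone : ∀ z ∈ P, z ^ Nat.card R = 1 → z = 1 := by
      intro z hz hzR
      have h1 : z ^ Nat.card P = 1 := by
        have := pow_card_eq_one' (G := P) (x := ⟨z, hz⟩)
        exact congrArg Subtype.val this
      have h2 := pow_gcd_eq_one.2 ⟨hzR, h1⟩
      rwa [hcop, pow_one] at h2
    have hRP : ∀ z ∈ R, z ∈ P → z = 1 := by
      intro z hzR hzP
      apply hone z hzP
      have := pow_card_eq_one' (G := R) (x := ⟨z, hzR⟩)
      exact congrArg Subtype.val this
    set Z := P ⊓ centralizer (P : Set Y) with hZ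
    have hZn : Z.Normal := inferInstance
    have hZP : Z ≤ P := inf_le_left
    have hZne : Z ≠ ⊥ := by
      have : Nontrivial P := (nontrivial_iff_ne_bot P).2 hP1
      have hc := hP.center_nontrivial
      obtain ⟨z, hz⟩ := exists_ne (1 : center P)
      intro hbot
      apply hz
      have hzZ : ((z : P) : Y) ∈ Z := by
        refine ⟨(z : P).2, ?_⟩
        change ((z : P) : Y) ∈ centralizer (P : Set Y)
        rw [mem_centralizer_iff]
        intro w hw
        have := (mem_center_iff.1 z.2) ⟨w, hw⟩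
        exact congrArg Subtype.val this
      rw [hbot, mem_bot] at hzZ
      exact Subtype.ext (Subtype.ext hzZ)
    have hZcomm : ∀ a ∈ Z, ∀ b ∈ Z, a * b = b * a := fun a ha b hb =>
      (mem_centralizer_iff.1 hb.2 a ha.1)
    have hZc : IsMulCommutative Z := isMulCommutative_of_comm hZcomm
    let φ : Y →* MulAut Z := MulAut.conjNormal
    have key := frob_module φ R x hxR h h0 hfix (by
      intro b hb m
      have hform := pow_mul_formula Z (b⁻¹ * x * b) m h
      have h1 : (b⁻¹ * x * b) ^ h = 1 := by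
        have := hpow b hb 1 P.one_mem
        rwa [one_mul] at this
      rw [h1, mul_one, hpow b hb m (hZP m.2)] at hform
      apply Subtype.ext
      rw [← hform]
      rfl) (by
      intro m hm
      apply Subtype.ext
      exact hone m (hZP m.2) (congrArg Subtype.val hm))
    have hcZ : ∀ c ∈ R, ∀ z ∈ Z, c * z * c⁻¹ = z := by
      intro c hc z hz
      have h1 := key c hc
      have h2 : φ c ⟨z, hz⟩ = ⟨z, hz⟩ := by rw [h1]; rfl
      have h3 := congrArg Subtype.val h2
      rwa [MulAut.conjNormal_apply] at h3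
    -- the quotient
    set ρ := QuotientGroup.mk' Z with hρ
    have hcard : Nat.card (Y ⧸ Z) ≤ n := by
      have h1 := Subgroup.card_eq_card_quotient_mul_card_subgroup Z
      have h2 : 1 < Nat.card Z := (Subgroup.one_lt_card_iff_ne_bot Z).2 hZne
      have h3 := Nat.card_pos (α := Y ⧸ Z)
      nlinarith
    have hPn : (P.map ρ).Normal := Normal.map inferInstance ρ (QuotientGroup.mk'_surjective Z)
    have hxi : ∀ i : ℕ, ∀ a ∈ R, x ^ i * a * (x ^ i)⁻¹ ∈ R := by
      intro i
      induction i with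
      | zero => intro a ha; simpa using ha
      | succ i ih' =>
        intro a ha
        have : x ^ (i + 1) * a * (x ^ (i + 1))⁻¹ = x * (x ^ i * a * (x ^ i)⁻¹) * x⁻¹ := by
          rw [pow_succ']; group
        rw [this]
        exact hxR _ (ih' a ha)
    have IH := ih (Y ⧸ Z) (P.map ρ) (R.map ρ) (ρ x) hcard (hP.map ρ)
      (Nat.Coprime.coprime_dvd_left (card_map_dvd R ρ) (Nat.Coprime.coprime_dvd_right (card_map_dvd P ρ) hcop))
      (by
        rintro _ ⟨a, ha, rfl⟩
        exact ⟨_, hxR a ha, by simp⟩)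
      (by
        rintro i hi0 hih _ ⟨a, ha, rfl⟩ hcomm
        have hw : a⁻¹ * (x ^ i * a * (x ^ i)⁻¹) ∈ R := R.mul_mem (R.inv_mem ha) (hxi i a ha)
        have hwZ : a⁻¹ * (x ^ i * a * (x ^ i)⁻¹) ∈ Z := by
          apply (QuotientGroup.eq_one_iff _).1
          change ρ (a⁻¹ * (x ^ i * a * (x ^ i)⁻¹)) = 1
          simp only [map_mul, map_inv, map_pow]
          rw [hcomm]
          group
        have h1 := hRP _ hw (hZP hwZ)
        have h2 : x ^ i * a = a * x ^ i := by
          have : x ^ i * a * (x ^ i)⁻¹ = a := by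
            rw [inv_mul_eq_one] at h1
            exact h1.symm
          exact mul_inv_eq_iff_eq_mul.1 this
        rw [hfix i hi0 hih a ha h2, map_one])
      (by
        rintro _ ⟨b, hb, rfl⟩ _ ⟨v, hv, rfl⟩
        have := hpow b hb v hv
        have h2 := congrArg ρ this
        simpa only [map_mul, map_inv, map_pow, map_one] using h2)
      (ρ c) ⟨c, hc, rfl⟩ (ρ u) ⟨u, hu, rfl⟩
    set z := c * u * c⁻¹ * u⁻¹ with hz
    have hzZ : z ∈ Z := by
      apply (QuotientGroup.eq_one_iff _).1
      change ρ z = 1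
      rw [hz]
      simp only [map_mul, map_inv]
      rw [IH]
      group
    have hck : ∀ k : ℕ, c ^ k * u * (c ^ k)⁻¹ = z ^ k * u := by
      intro k
      induction k with
      | zero => simp
      | succ k ih' =>
        have h1 : c ^ (k + 1) * u * (c ^ (k + 1))⁻¹ = c * (c ^ k * u * (c ^ k)⁻¹) * c⁻¹ := by
          rw [pow_succ']; group
        have h2 : c * z ^ k * c⁻¹ = z ^ k := hcZ c hc _ (Z.pow_mem hzZ k)
        have h3 : c * u * c⁻¹ = z * u := by rw [hz]; group
        rw [h1, ih']
        calc c * (z ^ k * u) * c⁻¹ = (c * z ^ k * c⁻¹) * (c * u * c⁻¹) := by group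
          _ = z ^ k * (z * u) := by rw [h2, h3]
          _ = z ^ (k + 1) * u := by rw [pow_succ]; group
    have hcR : c ^ Nat.card R = 1 := by
      have := pow_card_eq_one' (G := R) (x := ⟨c, hc⟩)
      exact congrArg Subtype.val this
    have h4 := hck (Nat.card R)
    rw [hcR] at h4
    have h5 : z ^ Nat.card R = 1 := by
      have : u = z ^ Nat.card R * u := by simpa using h4
      exact (mul_eq_right.1 this.symm)
    have h6 := hone z (hZP hzZ) h5
    rw [hz] at h6
    have : c * u * c⁻¹ = u := by rwa [mul_inv_eq_one] at h6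
    exact mul_inv_eq_iff_eq_mul.1 this

theorem frob_pgroup_int {G : Type u} [Group G] [Finite G] {p : ℕ} [Fact p.Prime] (h : ℕ) (h0 : 0 < h)
    (P R : Subgroup G) (x : G) (hP : IsPGroup p P) (hcop : (Nat.card R).Coprime (Nat.card P))
    (hRP : R ≤ normalizer (P : Set G)) (hxP : x ∈ normalizer (P : Set G))
    (hxR : ∀ a ∈ R, x * a * x⁻¹ ∈ R)
    (hfix : ∀ i : ℕ, 0 < i → i < h → ∀ a ∈ R, x ^ i * a = a * x ^ i → a = 1)
    (hpow : ∀ b ∈ R, ∀ u ∈ P, (u * (b⁻¹ * x * b)) ^ h = 1) : ∀ c ∈ R, ∀ u ∈ P, c * u = u * c := by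
  intro c hc u hu
  have hPn : (P.subgroupOf (normalizer (P : Set G))).Normal := normal_in_normalizer
  have key := frob_pgroup (p := p) h h0 _ (normalizer (P : Set G)) (P.subgroupOf (normalizer (P : Set G)))
    (R.subgroupOf (normalizer (P : Set G))) ⟨x, hxP⟩ le_rfl (hP.comap_subtype)
    (by rw [Cfsg.H1.card_subgroupOf_of_le hRP, Cfsg.H1.card_subgroupOf_of_le le_normalizer]; exact hcop)
    (by
      intro a ha
      exact hxR a ha)
    (by
      intro i hi0 hih a ha hcomm
      apply Subtype.ext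
      exact hfix i hi0 hih a ha (congrArg Subtype.val hcomm))
    (by
      intro b hb v hv
      apply Subtype.ext
      exact hpow b hb v hv)
    ⟨c, hRP hc⟩ hc ⟨u, le_normalizer hu⟩ hu
  exact congrArg Subtype.val key

end Cfsg.Agent.H20
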