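import Mathlib
import Cfsg.Agent.Lib.Helper19.Derange

/-!
Counting conjugacy classes of `p`-elements (helper20).
-/

set_option autoImplicit false
set_option linter.style.haveILetI false

namespace Cfsg.Agent.H20

open Subgroup

/-- A group acting non-trivially by automorphisms on a finite `p`-group `Q` has at most
`(p+1)|Q|/(2p)` orbits. -/
theorem orbit_bound {N Q : Type*} [Group N] [Group Q] [Finite N] [Finite Q]
    [MulDistribMulAction N Q] {p : ℕ} [hp : Fact p.Prime] (hQ : IsPGroup p Q)
    (hne : ∃ (n : N) (x : Q), n • x ≠ x) :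
    2 * p * Nat.card (MulAction.orbitRel.Quotient N Q) ≤ (p + 1) * Nat.card Q := by
  classical
  haveI := Fintype.ofFinite N
  obtain ⟨c, hc⟩ : ∃ c, p = c + 1 := ⟨p - 1, by have := hp.out.pos; omega⟩
  obtain ⟨K, hKdef⟩ : ∃ K : Subgroup N, K = (MulDistribMulAction.toMulAut N Q).ker := ⟨_, rfl⟩
  have hK : ∀ n, n ∈ K ↔ ∀ x : Q, n • x = x := by
    intro n
    rw [hKdef, MonoidHom.mem_ker]
    constructor
    · intro h x
      have := DFunLike.congr_fun h x
      simpa using this
    · intro h
      ext x
      simpa using h x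
  have hKtop : K ≠ ⊤ := by
    intro h
    obtain ⟨n, x, hnx⟩ := hne
    exact hnx ((hK n).1 (h ▸ mem_top n) x)
  have h2K : 2 * Nat.card K ≤ Nat.card N := by
    have h1 := K.card_mul_index
    have h2 : 2 ≤ K.index := by
      have h3 : K.index ≠ 0 := K.index_ne_zero_of_finite
      have h4 : K.index ≠ 1 := fun h => hKtop (index_eq_one.1 h)
      omega
    calc 2 * Nat.card K = Nat.card K * 2 := by ring
      _ ≤ Nat.card K * K.index := Nat.mul_le_mul_left _ h2
      _ = Nat.card N := h1
  have hfix : ∀ n : N, p * Nat.card (MulAction.fixedBy Q n) ≤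
      Nat.card Q + (if n ∈ K then c * Nat.card Q else 0) := by
    intro n
    by_cases hn : n ∈ K
    · rw [if_pos hn]
      have h1 : Nat.card (MulAction.fixedBy Q n) ≤ Nat.card Q :=
        Nat.card_le_card_of_injective _ Subtype.val_injective
      calc p * Nat.card (MulAction.fixedBy Q n) ≤ p * Nat.card Q := Nat.mul_le_mul_left _ h1
        _ = Nat.card Q + c * Nat.card Q := by rw [hc]; ring
    · rw [if_neg hn, add_zero]
      let F : Subgroup Q :=
        { carrier := MulAction.fixedBy Q n
          mul_mem' := by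
            intro a b ha hb
            rw [MulAction.mem_fixedBy] at ha hb ⊢
            rw [smul_mul', ha, hb]
          one_mem' := by
            rw [MulAction.mem_fixedBy, smul_one]
          inv_mem' := by
            intro a ha
            rw [MulAction.mem_fixedBy] at ha ⊢
            rw [smul_inv', ha] }
      have hF : F ≠ ⊤ := by
        intro h
        apply hn
        rw [hK]
        intro x
        have : x ∈ F := h ▸ mem_top x
        exact this
      obtain ⟨k, hk⟩ := hQ.index F
      have hk0 : k ≠ 0 := by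
        intro h0
        rw [h0, pow_zero] at hk
        exact hF (index_eq_one.1 hk)
      have hpi : p ≤ F.index := by
        rw [hk]
        calc p = p ^ 1 := (pow_one p).symm
          _ ≤ p ^ k := Nat.pow_le_pow_right hp.out.pos (Nat.one_le_iff_ne_zero.2 hk0)
      have h1 := F.card_mul_index
      calc p * Nat.card (MulAction.fixedBy Q n) = Nat.card F * p := by rw [mul_comm]; rfl
        _ ≤ Nat.card F * F.index := Nat.mul_le_mul_left _ hpi
        _ = Nat.card Q := h1
  have hB := Cfsg.Agent.Lib.Helper19.burnside_nat N Q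
  have hsum : p * (Nat.card (MulAction.orbitRel.Quotient N Q) * Nat.card N) ≤
      Nat.card N * Nat.card Q + Nat.card K * (c * Nat.card Q) := by
    rw [← hB, Finset.mul_sum]
    refine (Finset.sum_le_sum (fun n _ => hfix n)).trans (le_of_eq ?_)
    rw [Finset.sum_add_distrib, Finset.sum_const, Finset.card_univ, smul_eq_mul,
      ← Finset.sum_filter, Finset.sum_const, smul_eq_mul, Nat.card_eq_fintype_card (α := N),
      Nat.card_eq_fintype_card (α := K), Fintype.card_subtype]
  have hNpos : 0 < Nat.card N := Nat.card_pos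
  apply Nat.le_of_mul_le_mul_right _ hNpos
  calc 2 * p * Nat.card (MulAction.orbitRel.Quotient N Q) * Nat.card N
      = 2 * (p * (Nat.card (MulAction.orbitRel.Quotient N Q) * Nat.card N)) := by ring
    _ ≤ 2 * (Nat.card N * Nat.card Q + Nat.card K * (c * Nat.card Q)) := Nat.mul_le_mul_left _ hsum
    _ = 2 * Nat.card N * Nat.card Q + (2 * Nat.card K) * (c * Nat.card Q) := by ring
    _ ≤ 2 * Nat.card N * Nat.card Q + Nat.card N * (c * Nat.card Q) :=
        Nat.add_le_add_left (Nat.mul_le_mul_right _ h2K) _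
    _ = (p + 1) * Nat.card Q * Nat.card N := by rw [hc]; ring

variable {G : Type*} [Group G]

/-- the type of classes of `p`-elements. -/
abbrev PCl (p : ℕ) (G : Type*) [Group G] : Type _ :=
  {c : ConjClasses G // ∀ x ∈ c.carrier, ∃ k : ℕ, orderOf x = p ^ k}

theorem orderOf_of_mem_carrier_mk {x y : G} (h : y ∈ (ConjClasses.mk x).carrier) :
    orderOf y = orderOf x := by
  rw [ConjClasses.mem_carrier_iff_mk_eq, ConjClasses.mk_eq_mk_iff_isConj, isConj_iff] at h
  obtain ⟨c, rfl⟩ := h
  exact ((MulAut.conj c).orderOf_eq y).symm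

/-- the class of an element of a `p`-subgroup. -/
def pcl {p : ℕ} [Fact p.Prime] {P : Subgroup G} (hP : IsPGroup p P) (x : P) : PCl p G :=
  ⟨ConjClasses.mk x.1, fun y hy => by
    rw [orderOf_of_mem_carrier_mk hy, Subgroup.orderOf_coe]
    exact IsPGroup.iff_orderOf.1 hP x⟩

theorem pcl_surjective [Finite G] {p : ℕ} [Fact p.Prime] (P : Sylow p G) :
    Function.Surjective (pcl (P := (P : Subgroup G)) P.2) := by
  rintro ⟨c, hc⟩
  obtain ⟨g, rfl⟩ := ConjClasses.exists_rep c
  obtain ⟨k, hk⟩ := hc g ConjClasses.mem_carrier_mk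
  have hz : IsPGroup p (zpowers g) := IsPGroup.of_card (n := k) (by rw [Nat.card_zpowers, hk])
  obtain ⟨Q, hQ⟩ := hz.exists_le_sylow
  obtain ⟨t, ht⟩ := MulAction.exists_smul_eq G Q P
  have hmem : t * g * t⁻¹ ∈ (P : Subgroup G) := by
    rw [← ht, Sylow.coe_subgroup_smul]
    exact Subgroup.smul_mem_pointwise_smul g (MulAut.conj t) _ (hQ (mem_zpowers g))
  refine ⟨⟨_, hmem⟩, ?_⟩
  apply Subtype.ext
  show ConjClasses.mk (t * g * t⁻¹) = ConjClasses.mk g
  rw [ConjClasses.mk_eq_mk_iff_isConj]
  exact (isConj_iff.2 ⟨t, rfl⟩).symm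

/-- The number of classes of `p`-elements is at most the number of `N_G(P)`-orbits on `P`. -/
theorem card_PCl_le_orbits [Finite G] {p : ℕ} [Fact p.Prime] (P : Sylow p G) :
    Nat.card (PCl p G) ≤ Nat.card (MulAction.orbitRel.Quotient
      ↥(normalizer ((P : Subgroup G) : Set G)) ↥(P : Subgroup G)) := by
  let f : MulAction.orbitRel.Quotient ↥(normalizer ((P : Subgroup G) : Set G)) ↥(P : Subgroup G) →
      PCl p G := Quotient.lift (pcl (P := (P : Subgroup G)) P.2) (by
    rintro a b ⟨n, hn⟩
    apply Subtype.ext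
    show ConjClasses.mk a.1 = ConjClasses.mk b.1
    rw [ConjClasses.mk_eq_mk_iff_isConj]
    refine (isConj_iff.2 ⟨n.1, ?_⟩).symm
    exact congrArg Subtype.val hn)
  apply Nat.card_le_card_of_surjective f
  intro c
  obtain ⟨x, hx⟩ := pcl_surjective P c
  exact ⟨Quotient.mk _ x, hx⟩

theorem card_PCl_le [Finite G] {p : ℕ} [Fact p.Prime] (P : Sylow p G) :
    Nat.card (PCl p G) ≤ Nat.card (P : Subgroup G) :=
  Nat.card_le_card_of_surjective _ (pcl_surjective P)

/-- Many classes of `p`-elements force `N_G(P) = C_G(P)`. -/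
theorem normalizer_le_centralizer_of_many [Finite G] {p : ℕ} [Fact p.Prime] (P : Sylow p G)
    (h : (p + 1) * Nat.card ↥(P : Subgroup G) < 2 * p * Nat.card (PCl p G)) :
    normalizer ((P : Subgroup G) : Set G) ≤ centralizer ((P : Subgroup G) : Set G) := by
  by_contra hcon
  obtain ⟨n, hnN, hnC⟩ := SetLike.not_le_iff_exists.1 hcon
  have hne : ∃ (n : ↥(normalizer ((P : Subgroup G) : Set G))) (x : ↥(P : Subgroup G)), n • x ≠ x := by
    by_contra hall
    push Not at hall
    apply hnC
    rw [mem_centralizer_iff]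
    intro x hx
    have h1 := congrArg Subtype.val (hall ⟨n, hnN⟩ ⟨x, hx⟩)
    have h2 : n * x * n⁻¹ = x := h1
    calc x * n = (n * x * n⁻¹) * n := by rw [h2]
      _ = n * x := by group
  have h1 := orbit_bound (N := ↥(normalizer ((P : Subgroup G) : Set G))) (Q := ↥(P : Subgroup G))
    P.2 hne
  have h2 := card_PCl_le_orbits P
  have h3 := Nat.mul_le_mul_left (2 * p) h2
  omega

end Cfsg.Agent.H20
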