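import Mathlib
import Cfsg.Agent.H20.PClasses

/-!
Counting conjugacy classes of `π`-elements (helper20).
-/

set_option autoImplicit false
set_option linter.style.haveILetI false

namespace Cfsg.Agent.H20

open Subgroup

universe u

/-- the type of classes of `σ`-elements. -/
abbrev PiCl (σ : Finset ℕ) (G : Type*) [Group G] : Type _ :=
  {c : ConjClasses G // ∀ x ∈ c.carrier, ∀ r : ℕ, r.Prime → r ∣ orderOf x → r ∈ σ}

/-- the `σ`-part of `n`. -/
def ppart (σ : Finset ℕ) (n : ℕ) : ℕ := σ.prod (fun r => r ^ n.factorization r)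

theorem ppart_pos {σ : Finset ℕ} (hσ : ∀ r ∈ σ, r.Prime) (n : ℕ) : 0 < ppart σ n :=
  Finset.prod_pos (fun r hr => pow_pos (hσ r hr).pos _)

theorem ppart_le_of_dvd {σ : Finset ℕ} (hσ : ∀ r ∈ σ, r.Prime) {m n : ℕ} (h : m ∣ n) (hn : n ≠ 0) :
    ppart σ m ≤ ppart σ n := by
  apply Finset.prod_le_prod (fun _ _ => Nat.zero_le _)
  intro r hr
  apply Nat.pow_le_pow_right (hσ r hr).pos
  exact (Nat.factorization_le_iff_dvd (ne_zero_of_dvd_ne_zero hn h) hn).2 h r

theorem exists_r_decomp {G : Type*} [Group G] [Finite G] (g : G) {r : ℕ} (hr : r.Prime) :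
    ∃ x y : G, g = x * y ∧ Commute x y ∧ (∃ k, orderOf x = r ^ k) ∧ ¬ r ∣ orderOf y ∧
      orderOf y ∣ orderOf g := by
  have hn : orderOf g ≠ 0 := (orderOf_pos g).ne'
  obtain ⟨e, m, hm, hnm⟩ := Nat.exists_eq_pow_mul_and_not_dvd hn r hr.ne_one
  have hcop : Nat.Coprime (r ^ e) m := Nat.Coprime.pow_left _ ((Nat.Prime.coprime_iff_not_dvd hr).2 hm)
  have hb := Nat.gcd_eq_gcd_ab (r ^ e) m
  rw [hcop.gcd_eq_one] at hb
  have hy : (g ^ (((r ^ e : ℕ) : ℤ) * Nat.gcdA (r ^ e) m)) ^ m = 1 := by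
    rw [← zpow_natCast, ← zpow_mul]
    have : ((r ^ e : ℕ) : ℤ) * Nat.gcdA (r ^ e) m * (m : ℤ) =
        ((orderOf g : ℕ) : ℤ) * Nat.gcdA (r ^ e) m := by rw [hnm]; push_cast; ring
    rw [this, zpow_mul, zpow_natCast, pow_orderOf_eq_one, one_zpow]
  have hx : (g ^ ((m : ℤ) * Nat.gcdB (r ^ e) m)) ^ (r ^ e) = 1 := by
    rw [← zpow_natCast, ← zpow_mul]
    have : (m : ℤ) * Nat.gcdB (r ^ e) m * ((r ^ e : ℕ) : ℤ) =
        ((orderOf g : ℕ) : ℤ) * Nat.gcdB (r ^ e) m := by rw [hnm]; push_cast; ring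
    rw [this, zpow_mul, zpow_natCast, pow_orderOf_eq_one, one_zpow]
  refine ⟨g ^ ((m : ℤ) * Nat.gcdB (r ^ e) m), g ^ (((r ^ e : ℕ) : ℤ) * Nat.gcdA (r ^ e) m),
    ?_, ?_, ?_, ?_, ?_⟩
  · rw [← zpow_add, add_comm, ← hb]; simp
  · exact (Commute.refl g).zpow_zpow _ _
  · obtain ⟨k, _, hk⟩ := (Nat.dvd_prime_pow hr).1 (orderOf_dvd_of_pow_eq_one hx)
    exact ⟨k, hk⟩
  · intro h
    exact hm (h.trans (orderOf_dvd_of_pow_eq_one hy))
  · exact (orderOf_dvd_of_pow_eq_one hy).trans (hnm ▸ Dvd.intro_left _ rfl)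

theorem card_PiCl_insert_le {G : Type u} [Group G] [Finite G] {σ : Finset ℕ} {r : ℕ}
    (hr : r.Prime) (B : ℕ) (ih : ∀ H : Subgroup G, Nat.card (PiCl σ ↥H) ≤ B) :
    Nat.card (PiCl (insert r σ) G) ≤ Nat.card (PCl r G) * B := by
  classical
  haveI : Fact r.Prime := ⟨hr⟩
  have hrep : ∀ c : PCl r G, ∃ x : G, ConjClasses.mk x = c.1 := fun c => ConjClasses.exists_rep c.1
  choose rep hrep using hrep
  have hout : ∀ (H : Subgroup G) (d : ConjClasses ↥H), ∃ y : ↥H, ConjClasses.mk y = d :=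
    fun H d => ConjClasses.exists_rep d
  choose out hout using hout
  let Ψ : (Σ c : PCl r G, PiCl σ ↥(centralizer ({rep c} : Set G))) → ConjClasses G :=
    fun z => ConjClasses.mk (rep z.1 * (out _ z.2.1 : G))
  have hex : ∀ e : PiCl (insert r σ) G, ∃ z, Ψ z = e.1 := by
    rintro ⟨e, he⟩
    obtain ⟨g, rfl⟩ := ConjClasses.exists_rep e
    obtain ⟨x, y, hg, hxy, ⟨k, hk⟩, hry, hyg⟩ := exists_r_decomp g hr
    let c : PCl r G := ⟨ConjClasses.mk x, fun z hz => ⟨k, by rw [orderOf_of_mem_carrier_mk hz, hk]⟩⟩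
    have h1 : ConjClasses.mk (rep c) = ConjClasses.mk x := hrep c
    rw [ConjClasses.mk_eq_mk_iff_isConj, isConj_comm, isConj_iff] at h1
    obtain ⟨t, ht⟩ := h1
    have hy' : t * y * t⁻¹ ∈ centralizer ({rep c} : Set G) := by
      rw [mem_centralizer_singleton_iff, ← ht]
      calc t * y * t⁻¹ * (t * x * t⁻¹) = t * (y * x) * t⁻¹ := by group
        _ = t * (x * y) * t⁻¹ := by rw [hxy.eq]
        _ = t * x * t⁻¹ * (t * y * t⁻¹) := by group
    let d : PiCl σ ↥(centralizer ({rep c} : Set G)) := ⟨ConjClasses.mk ⟨t * y * t⁻¹, hy'⟩, by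
      intro z hz s hs hsz
      have e1 : orderOf (t * y * t⁻¹) = orderOf y := (MulAut.conj t).orderOf_eq y
      rw [orderOf_of_mem_carrier_mk hz, Subgroup.orderOf_mk, e1] at hsz
      have h2 := he g ConjClasses.mem_carrier_mk s hs (hsz.trans hyg)
      rcases Finset.mem_insert.1 h2 with h3 | h3
      · rw [h3] at hsz; exact absurd hsz hry
      · exact h3⟩
    refine ⟨⟨c, d⟩, ?_⟩
    show ConjClasses.mk (rep c * (out _ d.1 : G)) = ConjClasses.mk g
    have h3 : ConjClasses.mk (out _ d.1) = ConjClasses.mk ⟨t * y * t⁻¹, hy'⟩ := hout _ d.1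
    rw [ConjClasses.mk_eq_mk_iff_isConj, isConj_iff] at h3
    obtain ⟨h, hh⟩ := h3
    have hh' : (h : G) * (out _ d.1 : G) * (h : G)⁻¹ = t * y * t⁻¹ := congrArg Subtype.val hh
    have hhc : (h : G) * rep c * (h : G)⁻¹ = rep c := by
      have := mem_centralizer_singleton_iff.1 h.2
      rw [this]; group
    rw [ConjClasses.mk_eq_mk_iff_isConj, isConj_iff]
    refine ⟨t⁻¹ * h.1, ?_⟩
    calc t⁻¹ * (h : G) * (rep c * (out _ d.1 : G)) * (t⁻¹ * (h : G))⁻¹
        = t⁻¹ * (((h : G) * rep c * (h : G)⁻¹) * ((h : G) * (out _ d.1 : G) * (h : G)⁻¹)) * t := by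
          group
      _ = t⁻¹ * ((t * x * t⁻¹) * (t * y * t⁻¹)) * t := by rw [hhc, hh', ht]
      _ = x * y := by group
      _ = g := hg.symm
  choose Φ hΦ using hex
  have hinj : Function.Injective Φ := fun a b hab => Subtype.ext (by rw [← hΦ a, ← hΦ b, hab])
  haveI : Fintype (PCl r G) := Fintype.ofFinite _
  calc Nat.card (PiCl (insert r σ) G)
      ≤ Nat.card (Σ c : PCl r G, PiCl σ ↥(centralizer ({rep c} : Set G))) :=
        Nat.card_le_card_of_injective Φ hinj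
    _ = ∑ c : PCl r G, Nat.card (PiCl σ ↥(centralizer ({rep c} : Set G))) := Nat.card_sigma
    _ ≤ ∑ _c : PCl r G, B := Finset.sum_le_sum (fun c _ => ih _)
    _ = Nat.card (PCl r G) * B := by
        rw [Finset.sum_const, Finset.card_univ, smul_eq_mul, Nat.card_eq_fintype_card]

theorem card_PiCl_le : ∀ (σ : Finset ℕ), (∀ r ∈ σ, r.Prime) → ∀ (G : Type u) [Group G] [Finite G],
    Nat.card (PiCl σ G) ≤ ppart σ (Nat.card G) := by
  intro σ
  induction σ using Finset.induction_on with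
  | empty =>
    intro _ G _ _
    have key : ∀ a : PiCl ∅ G, a.1 = ConjClasses.mk 1 := by
      rintro ⟨c, hc⟩
      obtain ⟨g, rfl⟩ := ConjClasses.exists_rep c
      have h1 : orderOf g = 1 := by
        rw [Nat.eq_one_iff_not_exists_prime_dvd]
        intro s hs hsg
        exact absurd (hc g ConjClasses.mem_carrier_mk s hs hsg) (Finset.notMem_empty s)
      rw [orderOf_eq_one_iff] at h1
      show ConjClasses.mk g = ConjClasses.mk 1
      rw [h1]
    have : Subsingleton (PiCl ∅ G) := ⟨fun a b => Subtype.ext ((key a).trans (key b).symm)⟩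
    have h2 : ppart ∅ (Nat.card G) = 1 := by simp [ppart]
    rw [h2]
    exact Finite.card_le_one_iff_subsingleton.2 this
  | insert r σ hrσ ih =>
    intro hσ G _ _
    have hr := hσ r (Finset.mem_insert_self _ _)
    have hσ' : ∀ s ∈ σ, s.Prime := fun s hs => hσ s (Finset.mem_insert_of_mem hs)
    haveI := Fact.mk hr
    have h1 := card_PiCl_insert_le (G := G) (σ := σ) hr (ppart σ (Nat.card G))
      (fun H => (ih hσ' ↥H).trans (ppart_le_of_dvd hσ' (card_subgroup_dvd_card H) Nat.card_pos.ne'))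
    obtain ⟨P⟩ : Nonempty (Sylow r G) := inferInstance
    have h2 := card_PCl_le P
    rw [P.card_eq_multiplicity] at h2
    have h3 : ppart (insert r σ) (Nat.card G) =
        r ^ (Nat.card G).factorization r * ppart σ (Nat.card G) := by
      unfold ppart; rw [Finset.prod_insert hrσ]
    rw [h3]
    exact h1.trans (Nat.mul_le_mul_right _ h2)

theorem card_PiCl_le_mul {G : Type u} [Group G] [Finite G] {π : Finset ℕ} (hπ : ∀ r ∈ π, r.Prime)
    {r : ℕ} (hr : r ∈ π) :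
    Nat.card (PiCl π G) ≤ Nat.card (PCl r G) * ppart (π.erase r) (Nat.card G) := by
  have hσ' : ∀ s ∈ π.erase r, s.Prime := fun s hs => hπ s (Finset.mem_of_mem_erase hs)
  have := card_PiCl_insert_le (G := G) (σ := π.erase r) (hπ r hr) (ppart (π.erase r) (Nat.card G))
    (fun H => (card_PiCl_le _ hσ' ↥H).trans
      (ppart_le_of_dvd hσ' (card_subgroup_dvd_card H) Nat.card_pos.ne'))
  rwa [Finset.insert_erase hr] at this

theorem ppart_eq_mul {π : Finset ℕ} {r : ℕ} (hr : r ∈ π) (n : ℕ) :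
    ppart π n = r ^ n.factorization r * ppart (π.erase r) n :=
  (Finset.mul_prod_erase π _ hr).symm

end Cfsg.Agent.H20
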