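import Mathlib
import Cfsg.Prelude.Def_OddOrderLocal
import Cfsg.Prelude.Def_Solvable
import Cfsg.Prelude.Def_Characters
import Cfsg.Agent.S0877
import Cfsg.Agent.S0034
import Cfsg.Agent.S0038
import Cfsg.Agent.S0039
import Cfsg.Agent.H20.PLocal

/-! TI subgroups that are Hall subgroups of their normalizers: part 1. -/

set_option autoImplicit false

namespace Cfsg.Agent.H20.TIHall

open Subgroup
open scoped Pointwise

universe u

variable {G : Type u} [Group G]

theorem mem_of_coprime_index (N : Subgroup G) [N.Normal] {x : G}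
    (h : (orderOf x).Coprime N.index) : x ∈ N := by
  obtain ⟨m, hm⟩ := exists_pow_eq_self_of_coprime h.symm
  rw [← hm]
  exact N.pow_mem (N.pow_index_mem x) m

theorem memH (H : Subgroup G) {x : G} (hx : x ∈ normalizer (H : Set G))
    (ho : (orderOf x).Coprime (H.subgroupOf (normalizer (H : Set G))).index) : x ∈ H := by
  have h1 : (⟨x, hx⟩ : normalizer (H : Set G)) ∈ H.subgroupOf (normalizer (H : Set G)) := by
    apply mem_of_coprime_index
    rwa [Subgroup.orderOf_mk]
  exact mem_subgroupOf.1 h1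

theorem inL {H : Subgroup G} (hTI : Cfsg.IsTISubset (H : Set G)) {g x : G} (hx : x ∈ H)
    (hx1 : x ≠ 1) (hg : g * x * g⁻¹ ∈ H) : g ∈ normalizer (H : Set G) := by
  by_contra hn
  exact hx1 (hTI g hn x hx hg)

variable [Finite G]

theorem sylow_le {H : Subgroup G} (hTI : Cfsg.IsTISubset (H : Set G))
    (hHall : (Nat.card H).Coprime (H.subgroupOf (normalizer (H : Set G))).index)
    {p : ℕ} [hp : Fact p.Prime] (P : Sylow p G) {x : G} (hxP : x ∈ P) (hxH : x ∈ H) (hx1 : x ≠ 1) :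
    (P : Subgroup G) ≤ H := by
  have hpH : p ∣ Nat.card H := by
    obtain ⟨k, hk⟩ := (IsPGroup.iff_orderOf.1 P.2) ⟨x, hxP⟩
    rw [Subgroup.orderOf_mk] at hk
    have hk0 : k ≠ 0 := by
      rintro rfl
      rw [pow_zero, orderOf_eq_one_iff] at hk
      exact hx1 hk
    have h1 : orderOf x ∣ Nat.card H := by
      have := orderOf_dvd_natCard (⟨x, hxH⟩ : H)
      rwa [Subgroup.orderOf_mk] at this
    exact (dvd_pow_self p hk0).trans (hk ▸ h1)
  have hcop : p.Coprime (H.subgroupOf (normalizer (H : Set G))).index :=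
    Nat.Coprime.coprime_dvd_left hpH hHall
  have key : ∀ y : G, y ∈ P → y ∈ normalizer (H : Set G) → y ∈ H := by
    intro y hy hyL
    apply memH H hyL
    obtain ⟨k, hk⟩ := (IsPGroup.iff_orderOf.1 P.2) ⟨y, hy⟩
    rw [Subgroup.orderOf_mk] at hk
    rw [hk]
    exact Nat.Coprime.pow_left k hcop
  have : Nontrivial (P : Subgroup G) := ⟨⟨⟨x, hxP⟩, 1, fun h => hx1 (congrArg Subtype.val h)⟩⟩
  have := P.2.center_nontrivial
  obtain ⟨⟨z, hz⟩, hne⟩ := exists_ne (1 : center (P : Subgroup G))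
  have hz1 : (z : G) ≠ 1 := by
    intro h
    apply hne
    apply Subtype.ext
    apply Subtype.ext
    exact h
  rw [mem_center_iff] at hz
  have hzx : (z : G) * x * (z : G)⁻¹ = x := by
    have := congrArg Subtype.val (hz ⟨x, hxP⟩)
    simp only [Subgroup.coe_mul] at this
    rw [← this]; group
  have hzH : (z : G) ∈ H := key z z.2 (inL hTI hxH hx1 (by rw [hzx]; exact hxH))
  intro y hy
  have hyz : y * (z : G) * y⁻¹ = z := by
    have := congrArg Subtype.val (hz ⟨y, hy⟩)
    simp only [Subgroup.coe_mul] at this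
    rw [this]; group
  exact key y hy (inL hTI hzH hz1 (by rw [hyz]; exact hzH))

theorem exists_sylow_le {H : Subgroup G} (hTI : Cfsg.IsTISubset (H : Set G))
    (hHall : (Nat.card H).Coprime (H.subgroupOf (normalizer (H : Set G))).index)
    {p : ℕ} [hp : Fact p.Prime] (hpH : p ∣ Nat.card H) :
    ∃ P : Sylow p G, (P : Subgroup G) ≤ H := by
  obtain ⟨w, hw⟩ := exists_prime_orderOf_dvd_card' (G := H) p hpH
  have hw' : orderOf (w : G) = p := by rw [Subgroup.orderOf_coe]; exact hw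
  have hpg : IsPGroup p (zpowers (w : G)) := by
    apply IsPGroup.of_card (n := 1)
    rw [Nat.card_zpowers, hw', pow_one]
  obtain ⟨P, hP⟩ := hpg.exists_le_sylow
  refine ⟨P, sylow_le hTI hHall P (hP (mem_zpowers _)) w.2 ?_⟩
  intro h
  rw [h, orderOf_one] at hw'
  exact hp.out.one_lt.ne hw'

theorem hallG {H : Subgroup G} (hTI : Cfsg.IsTISubset (H : Set G))
    (hHall : (Nat.card H).Coprime (H.subgroupOf (normalizer (H : Set G))).index) :
    (Nat.card H).Coprime H.index := by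
  apply Nat.coprime_of_dvd
  intro p hp hpH hpi
  have : Fact p.Prime := ⟨hp⟩
  obtain ⟨P, hP⟩ := exists_sylow_le hTI hHall hpH
  exact P.not_dvd_index (hpi.trans (index_dvd_of_le hP))

theorem conjE {H : Subgroup G} (hTI : Cfsg.IsTISubset (H : Set G))
    (hHall : (Nat.card H).Coprime (H.subgroupOf (normalizer (H : Set G))).index)
    (E : Subgroup G) {z : G} (hzE : z ∈ E) (hz1 : z ≠ 1) (hzc : ∀ e ∈ E, e * z = z * e)
    (hcard : Nat.card E ∣ Nat.card H) : ∃ g : G, ∀ e ∈ E, g * e * g⁻¹ ∈ H := by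
  have ho1 : orderOf z ≠ 1 := fun h => hz1 (orderOf_eq_one_iff.1 h)
  set q := (orderOf z).minFac with hq
  have hqp : q.Prime := Nat.minFac_prime ho1
  have : Fact q.Prime := ⟨hqp⟩
  have hqd : q ∣ orderOf z := Nat.minFac_dvd _
  have hoE : ∀ e ∈ E, orderOf e ∣ Nat.card H := by
    intro e he
    have := orderOf_dvd_natCard (⟨e, he⟩ : E)
    rw [Subgroup.orderOf_mk] at this
    exact this.trans hcard
  set z' := z ^ (orderOf z / q) with hz'
  have hoz' : orderOf z' = q := orderOf_pow_orderOf_div (orderOf_pos z).ne' hqd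
  have hz'1 : z' ≠ 1 := by
    intro h
    rw [h, orderOf_one] at hoz'
    exact hqp.one_lt.ne hoz'
  obtain ⟨Q₁, hQ₁⟩ := exists_sylow_le (p := q) hTI hHall (hqd.trans (hoE z hzE))
  have hpg : IsPGroup q (zpowers z') := by
    apply IsPGroup.of_card (n := 1)
    rw [Nat.card_zpowers, hoz', pow_one]
  obtain ⟨Q, hQ⟩ := hpg.exists_le_sylow
  obtain ⟨g, hg⟩ := MulAction.exists_smul_eq G Q Q₁
  have hgz : g * z' * g⁻¹ ∈ H := by
    apply hQ₁
    rw [← hg, Sylow.coe_subgroup_smul]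
    have := Subgroup.smul_mem_pointwise_smul z' (MulAut.conj g) (Q : Subgroup G) (hQ (mem_zpowers _))
    simpa using this
  have hgz1 : g * z' * g⁻¹ ≠ 1 := by
    intro h
    apply hz'1
    have : z' = g⁻¹ * (g * z' * g⁻¹) * g := by group
    rw [this, h]; group
  refine ⟨g, fun e he => ?_⟩
  have hcomm : e * z' = z' * e := by
    have : Commute e z := hzc e he
    exact (this.pow_right _)
  have h1 : (g * e * g⁻¹) * (g * z' * g⁻¹) * (g * e * g⁻¹)⁻¹ = g * z' * g⁻¹ := by
    have : (g * e * g⁻¹) * (g * z' * g⁻¹) * (g * e * g⁻¹)⁻¹ = g * (e * z') * e⁻¹ * g⁻¹ := by group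
    rw [this, hcomm]; group
  apply memH H (inL hTI hgz hgz1 (by rw [h1]; exact hgz))
  have h2 : orderOf (g * e * g⁻¹) = orderOf e := by
    have := orderOf_injective (MulAut.conj g).toMonoidHom (MulAut.conj g).injective e
    simpa using this
  rw [h2]
  exact Nat.Coprime.coprime_dvd_left (hoE e he) hHall

theorem part1_mp {H : Subgroup G} (hTI : Cfsg.IsTISubset (H : Set G))
    (hHall : (Nat.card H).Coprime (H.subgroupOf (normalizer (H : Set G))).index)
    (K : Subgroup (normalizer (H : Set G))) (hKn : K.Normal)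
    (hK : K.IsComplement' (H.subgroupOf (normalizer (H : Set G)))) :
    ∃ N : Subgroup G, N.Normal ∧ N.IsComplement' H := by
  have hfus : ∀ x ∈ H, ∀ y ∈ H, IsConj x y → ∃ h ∈ H, h * x * h⁻¹ = y := by
    intro x hx y hy hxy
    obtain ⟨g, hg⟩ := isConj_iff.1 hxy
    by_cases hx1 : x = 1
    · subst hx1
      refine ⟨1, H.one_mem, ?_⟩
      rw [← hg]; group
    · have hgL : g ∈ normalizer (H : Set G) := inL hTI hx hx1 (by rw [hg]; exact hy)
      obtain ⟨⟨k, h⟩, hkh, -⟩ := isComplement_iff_existsUnique.1 hK ⟨g, hgL⟩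
      simp only at hkh
      have hhH : ((h : normalizer (H : Set G)) : G) ∈ H := mem_subgroupOf.1 h.2
      refine ⟨_, hhH, ?_⟩
      have hx' : (h : normalizer (H : Set G)) * ⟨x, le_normalizer hx⟩ * (h : normalizer (H : Set G))⁻¹
          ∈ H.subgroupOf (normalizer (H : Set G)) := by
        rw [mem_subgroupOf]
        exact H.mul_mem (H.mul_mem hhH hx) (H.inv_mem hhH)
      have hcomm := commute_of_normal_of_disjoint K (H.subgroupOf (normalizer (H : Set G))) hKn
        normal_in_normalizer hK.disjoint _ _ k.2 hx'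
      have h1 := congrArg Subtype.val hcomm.eq
      have h2 := congrArg Subtype.val hkh
      simp only [Subgroup.coe_mul, Subgroup.coe_inv] at h1 h2
      rw [← hg, ← h2]
      set k' : G := ((k : normalizer (H : Set G)) : G)
      set h' : G := ((h : normalizer (H : Set G)) : G)
      have : k' * h' * x * (k' * h')⁻¹ = k' * (h' * x * h'⁻¹) * k'⁻¹ := by group
      rw [this, h1]; group
  have helem : ∀ (E : Subgroup G) (p : ℕ), p.Prime → Cfsg.IsElementary p E → Nat.card E ∣ Nat.card H →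
      ∃ g : G, E.map (MulAut.conj g).toMonoidHom ≤ H := by
    intro E p hp hE hcard
    have hpf : Fact p.Prime := ⟨hp⟩
    by_cases hE1 : E = ⊥
    · refine ⟨1, ?_⟩
      rw [hE1, Subgroup.map_bot]
      exact bot_le
    · have hnt : Nontrivial E := (Subgroup.nontrivial_iff_ne_bot E).2 hE1
      have hz : ∃ z : E, z ∈ center E ∧ z ≠ 1 := by
        obtain ⟨x, hxc, -, k, hk⟩ := hE
        by_cases hx1 : x = 1
        · rw [hx1, zpowers_one_eq_bot, index_bot] at hk
          have hpg : IsPGroup p E := IsPGroup.of_card hk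
          have := hpg.center_nontrivial
          obtain ⟨⟨z, hz⟩, hne⟩ := exists_ne (1 : center E)
          exact ⟨z, hz, fun h => hne (Subtype.ext h)⟩
        · exact ⟨x, hxc, hx1⟩
      obtain ⟨z, hzc, hz1⟩ := hz
      rw [mem_center_iff] at hzc
      obtain ⟨g, hg⟩ := conjE hTI hHall E z.2 (fun h => hz1 (Subtype.ext h))
        (fun e he => congrArg Subtype.val (hzc ⟨e, he⟩)) hcard
      refine ⟨g, ?_⟩
      rintro _ ⟨e, he, rfl⟩
      exact hg e he
  obtain ⟨N, hN, hsup, hinf⟩ := Cfsg.Agent.S0877.result H (hallG hTI hHall) hfus helem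
  refine ⟨N, hN, ?_⟩
  apply isComplement'_of_disjoint_and_mul_eq_univ (disjoint_iff.2 hinf)
  rw [← normal_mul, hsup, coe_top]

omit [Finite G] in
theorem part1_mpr {H : Subgroup G} (N : Subgroup G) (hN : N.Normal) (hc : N.IsComplement' H) :
    ∃ K : Subgroup (normalizer (H : Set G)), K.Normal ∧
      K.IsComplement' (H.subgroupOf (normalizer (H : Set G))) := by
  refine ⟨N.subgroupOf _, hN.subgroupOf _, ?_⟩
  apply isComplement'_of_disjoint_and_mul_eq_univ
  · rw [disjoint_def]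
    intro x hx1 hx2
    apply Subtype.ext
    exact disjoint_def.1 hc.disjoint (mem_subgroupOf.1 hx1) (mem_subgroupOf.1 hx2)
  · rw [Set.eq_univ_iff_forall]
    intro l
    obtain ⟨⟨n, h⟩, hnh, -⟩ := isComplement_iff_existsUnique.1 hc (l : G)
    simp only at hnh
    have hhL : (h : G) ∈ normalizer (H : Set G) := le_normalizer h.2
    have hnL : (n : G) ∈ normalizer (H : Set G) := by
      have : (n : G) = l * (h : G)⁻¹ := by rw [← hnh]; group
      rw [this]
      exact mul_mem l.2 (inv_mem hhL)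
    refine Set.mem_mul.2 ⟨⟨n, hnL⟩, mem_subgroupOf.2 n.2, ⟨h, hhL⟩, mem_subgroupOf.2 h.2, ?_⟩
    exact Subtype.ext hnh

theorem frob_stab {A Ω : Type*} [Group A] [MulAction A Ω]
    (huniq : ∀ a : A, a ≠ 1 → ∀ α β : Ω, a • α = α → a • β = β → α = β)
    (hno : ∀ ω : Ω, ∃ a : A, a • ω ≠ ω) (ω : Ω) {v : A} (hv1 : v ≠ 1) (hv : v • ω = ω) :
    Cfsg.IsFrobeniusComplement (MulAction.stabilizer A ω) := by
  refine ⟨?_, ?_, ?_⟩
  · intro h
    have : v ∈ MulAction.stabilizer A ω := hv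
    rw [h, mem_bot] at this
    exact hv1 this
  · intro h
    obtain ⟨a, ha⟩ := hno ω
    have : a ∈ MulAction.stabilizer A ω := by rw [h]; exact mem_top a
    exact ha this
  · intro g hg
    rw [eq_bot_iff]
    intro x hx
    rw [mem_bot]
    by_contra hx1
    obtain ⟨h1, h2⟩ := mem_inf.1 hx
    rw [Subgroup.mem_pointwise_smul_iff_inv_smul_mem] at h2
    have h3 : x • (g • ω) = g • ω := by
      have h4 : (g⁻¹ * x * g) • ω = ω := by simpa [MulAut.smul_def] using h2
      calc x • (g • ω) = g • ((g⁻¹ * x * g) • ω) := by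
            simp only [← mul_smul]; congr 1; group
        _ = g • ω := by rw [h4]
    exact hg (huniq x hx1 _ _ h3 h1)

theorem global_fix {A Ω : Type*} [Group A] [Finite A] [MulAction A Ω]
    (hex : ∀ a : A, a ≠ 1 → ∃ ω : Ω, a • ω = ω)
    (huniq : ∀ a : A, a ≠ 1 → ∀ α β : Ω, a • α = α → a • β = β → α = β)
    (hA : ∃ a : A, a ≠ 1) : ∃ ω : Ω, ∀ a : A, a • ω = ω := by
  by_contra hno
  push Not at hno
  obtain ⟨v₀, hv₀⟩ := hA
  obtain ⟨ω₀, hω₀⟩ := hex v₀ hv₀
  have hS := frob_stab huniq hno ω₀ hv₀ hω₀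
  have hcard := (Cfsg.Agent.S0034.result _ hS).1
  have hidx : 1 < (MulAction.stabilizer A ω₀).index := by
    have h0 : (MulAction.stabilizer A ω₀).index ≠ 0 := Subgroup.index_ne_zero_of_finite
    have h1 : (MulAction.stabilizer A ω₀).index ≠ 1 := fun h => hS.2.1 (index_eq_one.1 h)
    omega
  rw [← hcard] at hidx
  have hfin : Finite (Cfsg.frobeniusKernel (MulAction.stabilizer A ω₀)) := Subtype.finite
  have hnt := Finite.one_lt_card_iff_nontrivial.1 hidx
  obtain ⟨⟨v₁, hv₁⟩, hne⟩ := exists_ne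
    (⟨1, Or.inl rfl⟩ : Cfsg.frobeniusKernel (MulAction.stabilizer A ω₀))
  have hv₁1 : v₁ ≠ 1 := fun h => hne (Subtype.ext h)
  have hv₁' : ∀ g : A, v₁ ∉ MulAut.conj g • MulAction.stabilizer A ω₀ := by
    rcases hv₁ with h | h
    · exact absurd h hv₁1
    · exact h
  obtain ⟨ω₁, hω₁⟩ := hex v₁ hv₁1
  have hT := frob_stab huniq hno ω₁ hv₁1 hω₁
  obtain ⟨g, hg⟩ := Cfsg.Agent.S0038.result _ _ hT hS
  apply hv₁' g
  rw [hg]
  exact hω₁

theorem conjH {H : Subgroup G} (hTI : Cfsg.IsTISubset (H : Set G))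
    (hHall : (Nat.card H).Coprime (H.subgroupOf (normalizer (H : Set G))).index)
    (H₁ : Subgroup G) (hcard : Nat.card H₁ = Nat.card H) (hne : H₁ ≠ ⊥) :
    ∃ g : G, ∀ v ∈ H₁, g⁻¹ * v * g ∈ H := by
  have hord : ∀ v ∈ H₁, ∀ g : G,
      (orderOf (g⁻¹ * v * g)).Coprime (H.subgroupOf (normalizer (H : Set G))).index := by
    intro v hv g
    have h2 : orderOf (g⁻¹ * v * g) = orderOf v := by
      have := orderOf_injective (MulAut.conj g⁻¹).toMonoidHom (MulAut.conj g⁻¹).injective v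
      simpa using this
    rw [h2]
    have := orderOf_dvd_natCard (⟨v, hv⟩ : H₁)
    rw [Subgroup.orderOf_mk, hcard] at this
    exact Nat.Coprime.coprime_dvd_left this hHall
  have hfixiff : ∀ (v : H₁) (g : G), v • (g : G ⧸ normalizer (H : Set G)) = g ↔
      g⁻¹ * v * g ∈ normalizer (H : Set G) := by
    intro v g
    have : v • (g : G ⧸ normalizer (H : Set G)) = (((v : G) * g : G) : G ⧸ normalizer (H : Set G)) := rfl
    rw [this, eq_comm, QuotientGroup.eq, mul_assoc]
  have hex : ∀ v : H₁, v ≠ 1 → ∃ ω : G ⧸ normalizer (H : Set G), v • ω = ω := by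
    intro v hv1
    have hv1' : (v : G) ≠ 1 := fun h => hv1 (Subtype.ext h)
    have hc1 : ∀ e ∈ zpowers (v : G), e * (v : G) = (v : G) * e := by
      intro e he
      obtain ⟨k, rfl⟩ := mem_zpowers_iff.1 he
      exact ((Commute.refl (v : G)).zpow_left k).eq
    have hc2 : Nat.card (zpowers (v : G)) ∣ Nat.card H := by
      rw [Nat.card_zpowers, ← hcard]
      have := orderOf_dvd_natCard v
      rwa [Subgroup.orderOf_coe]
    obtain ⟨g, hg⟩ := conjE hTI hHall (zpowers (v : G)) (mem_zpowers _) hv1' hc1 hc2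
    refine ⟨((g⁻¹ : G) : G ⧸ normalizer (H : Set G)), ?_⟩
    rw [hfixiff, inv_inv]
    exact le_normalizer (hg _ (mem_zpowers _))
  have huq : ∀ v : H₁, v ≠ 1 → ∀ α β : G ⧸ normalizer (H : Set G), v • α = α → v • β = β → α = β := by
    intro v hv1 α β hα hβ
    have hv1' : (v : G) ≠ 1 := fun h => hv1 (Subtype.ext h)
    obtain ⟨a, rfl⟩ := QuotientGroup.mk_surjective α
    obtain ⟨b, rfl⟩ := QuotientGroup.mk_surjective β
    have ha := memH H ((hfixiff v a).1 hα) (hord v v.2 a)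
    have hb := memH H ((hfixiff v b).1 hβ) (hord v v.2 b)
    have ha1 : a⁻¹ * v * a ≠ 1 := by
      intro h
      apply hv1'
      have : (v : G) = a * (a⁻¹ * v * a) * a⁻¹ := by group
      rw [this, h]; group
    have h3 : (b⁻¹ * a) * (a⁻¹ * v * a) * (b⁻¹ * a)⁻¹ = b⁻¹ * v * b := by group
    have h4 := inL hTI ha ha1 (by rw [h3]; exact hb)
    exact (QuotientGroup.eq.2 h4).symm
  have hne' : ∃ a : H₁, a ≠ 1 := by
    have := (Subgroup.nontrivial_iff_ne_bot H₁).2 hne
    exact exists_ne 1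
  obtain ⟨ω, hω⟩ := global_fix (A := H₁) (Ω := G ⧸ normalizer (H : Set G)) hex huq hne'
  obtain ⟨g, rfl⟩ := QuotientGroup.mk_surjective ω
  refine ⟨g, fun v hv => ?_⟩
  exact memH H ((hfixiff ⟨v, hv⟩ g).1 (hω ⟨v, hv⟩)) (hord v hv g)

omit [Finite G] in
theorem le_norm_of {A B : Subgroup G} (h : ∀ a ∈ A, ∀ b ∈ B, a * b * a⁻¹ ∈ B) :
    A ≤ normalizer (B : Set G) := by
  intro a ha
  rw [mem_normalizer_iff]
  intro b
  refine ⟨h a ha b, fun hb => ?_⟩
  have := h a⁻¹ (A.inv_mem ha) _ hb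
  simpa [mul_assoc] using this

omit [Finite G] in
theorem comm_trivial {h x : G}
    (hy : h * (x⁻¹ * (h * x * h⁻¹)) * h⁻¹ = x⁻¹ * (h * x * h⁻¹))
    (hco : (orderOf (x⁻¹ * (h * x * h⁻¹))).Coprime (orderOf h)) : h * x * h⁻¹ = x := by
  set y := x⁻¹ * (h * x * h⁻¹) with hydef
  have hxy : h * x * h⁻¹ = x * y := by rw [hydef]; group
  have hcy : Commute h y := by
    show h * y = y * h
    calc h * y = (h * y * h⁻¹) * h := by group
      _ = y * h := by rw [hy]
  have key : ∀ n : ℕ, h ^ n * x * (h ^ n)⁻¹ = x * y ^ n := by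
    intro n
    induction n with
    | zero => simp
    | succ n ih =>
      calc h ^ (n+1) * x * (h ^ (n+1))⁻¹ = h * (h ^ n * x * (h ^ n)⁻¹) * h⁻¹ := by
            rw [pow_succ', mul_inv_rev]; simp only [mul_assoc]
        _ = h * (x * y ^ n) * h⁻¹ := by rw [ih]
        _ = (h * x * h⁻¹) * (h * y ^ n * h⁻¹) := by group
        _ = x * y * y ^ n := by
            rw [hxy, (hcy.pow_right n).eq]; simp only [mul_assoc, mul_inv_cancel, mul_one]
        _ = x * y ^ (n+1) := by rw [pow_succ', mul_assoc]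
  have h1 := key (orderOf h)
  rw [pow_orderOf_eq_one] at h1
  have h2 : y ^ orderOf h = 1 := by simpa using h1.symm
  have h3 : orderOf y ∣ orderOf h := orderOf_dvd_of_pow_eq_one h2
  have h4 : orderOf y = 1 := hco.eq_one_of_dvd h3
  rw [hxy, orderOf_eq_one_iff.1 h4, mul_one]

theorem frob_of_invariant {H : Subgroup G} (hTI : Cfsg.IsTISubset (H : Set G))
    (M : Subgroup G) (hM : M.Normal) (hc : M.IsComplement' H)
    (hcop : (Nat.card M).Coprime (Nat.card H))
    {q : ℕ} [Fact q.Prime] (Q : Subgroup G) (hQ : IsPGroup q Q) (hQM : Q ≤ M)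
    (hinv : ∀ h ∈ H, ∀ x ∈ Q, h * x * h⁻¹ ∈ Q) (hQL : ¬ Q ≤ normalizer (H : Set G))
    (hH1 : H ≠ ⊥) :
    ∃ (F : Type u) (_ : Group F) (_ : Finite F) (C : Subgroup F),
      Cfsg.IsFrobeniusComplement C ∧ Nonempty (H ≃* C) := by
  set Y := Q ⊓ normalizer (H : Set G) with hYdef
  have hYQ : Y < Q := lt_of_le_of_ne inf_le_left (fun h => hQL (h ▸ inf_le_right))
  obtain ⟨x₀, hx₀Q, hx₀N, hx₀Y⟩ := Cfsg.Agent.H20.exists_normalizer_notMem hQ hYQ
  set X := Q ⊓ normalizer (Y : Set G) with hXdef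
  have hYX : Y ≤ X := le_inf inf_le_left le_normalizer
  have hdisj : ∀ a : G, a ∈ M → a ∈ H → a = 1 := fun a h1 h2 => disjoint_def.1 hc.disjoint h1 h2
  have hcent : ∀ h ∈ H, ∀ y ∈ Y, h * y * h⁻¹ = y := by
    intro h hh y hy
    have hyM : y ∈ M := hQM hy.1
    have h1 : y * h⁻¹ * y⁻¹ ∈ H := (mem_normalizer_iff.1 hy.2 h⁻¹).1 (H.inv_mem hh)
    have h2 : h * (y * h⁻¹ * y⁻¹) ∈ H := H.mul_mem hh h1
    have h3 : h * (y * h⁻¹ * y⁻¹) ∈ M := by
      have : h * (y * h⁻¹ * y⁻¹) = (h * y * h⁻¹) * y⁻¹ := by group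
      rw [this]
      exact M.mul_mem (hM.conj_mem y hyM h) (M.inv_mem hyM)
    have h4 := hdisj _ h3 h2
    calc h * y * h⁻¹ = (h * (y * h⁻¹ * y⁻¹)) * y := by group
      _ = y := by rw [h4, one_mul]
  have hHY : H ≤ normalizer (Y : Set G) :=
    le_norm_of (fun h hh y hy => by rw [hcent h hh y hy]; exact hy)
  have hHX : H ≤ normalizer (X : Set G) :=
    le_norm_of (fun h hh x hx => ⟨hinv h hh x hx.1,
      (normalizer (Y : Set G)).mul_mem ((normalizer (Y : Set G)).mul_mem (hHY hh) hx.2)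
        ((normalizer (Y : Set G)).inv_mem (hHY hh))⟩)
  set T := X ⊔ H with hTdef
  have hTY : T ≤ normalizer (Y : Set G) := sup_le inf_le_right hHY
  have hTX : T ≤ normalizer (X : Set G) := sup_le le_normalizer hHX
  have hYT : Y ≤ T := hYX.trans le_sup_left
  have hYn : (Y.subgroupOf T).Normal := (normal_subgroupOf_iff_le_normalizer hYT).2 hTY
  let fX : X →* T ⧸ Y.subgroupOf T := (QuotientGroup.mk' _).comp (inclusion le_sup_left)
  let fH : H →* T ⧸ Y.subgroupOf T := (QuotientGroup.mk' _).comp (inclusion le_sup_right)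
  have hfX1 : ∀ x : X, fX x = 1 ↔ (x : G) ∈ Y := by
    intro x
    show (QuotientGroup.mk (inclusion le_sup_left x) : T ⧸ Y.subgroupOf T) = 1 ↔ _
    rw [QuotientGroup.eq_one_iff, mem_subgroupOf]; rfl
  have hfH1 : ∀ h : H, fH h = 1 ↔ (h : G) ∈ Y := by
    intro h
    show (QuotientGroup.mk (inclusion le_sup_right h) : T ⧸ Y.subgroupOf T) = 1 ↔ _
    rw [QuotientGroup.eq_one_iff, mem_subgroupOf]; rfl
  have hinj : Function.Injective fH := by
    rw [injective_iff_map_eq_one]
    intro h hh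
    exact Subtype.ext (hdisj _ (hQM ((hfH1 h).1 hh).1) h.2)
  have hKFn : fX.range.Normal := by
    constructor
    rintro _ ⟨x, rfl⟩ t
    obtain ⟨t, rfl⟩ := QuotientGroup.mk_surjective t
    exact ⟨⟨(t : G) * x * (t : G)⁻¹, (mem_normalizer_iff.1 (hTX t.2) x).1 x.2⟩, rfl⟩
  have hTmul : ∀ t : T, ∃ (x : X) (h : H), (t : G) = x * h := by
    intro t
    have h1 : (t : G) ∈ ((X ⊔ H : Subgroup G) : Set G) := t.2
    rw [coe_mul_of_right_le_normalizer_left X H hHX] at h1
    obtain ⟨x, hx, h, hh, hxh⟩ := Set.mem_mul.1 h1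
    exact ⟨⟨x, hx⟩, ⟨h, hh⟩, hxh.symm⟩
  have hcompl : fX.range.IsComplement' fH.range := by
    apply isComplement'_of_disjoint_and_mul_eq_univ
    · rw [disjoint_def]
      rintro _ ⟨x, rfl⟩ ⟨h, hh⟩
      have h1 : (QuotientGroup.mk (inclusion le_sup_right h) : T ⧸ Y.subgroupOf T)
          = QuotientGroup.mk (inclusion le_sup_left x) := hh
      rw [QuotientGroup.eq, mem_subgroupOf] at h1
      have h2 : (h : G)⁻¹ * (x : G) ∈ Y := h1
      have h3 : (h : G) ∈ M := by
        have h4 : (h : G) = x * ((h : G)⁻¹ * (x : G))⁻¹ := by group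
        rw [h4]
        exact M.mul_mem (hQM x.2.1) (M.inv_mem (hQM h2.1))
      have h5 : h = 1 := Subtype.ext (hdisj _ h3 h.2)
      rw [← hh, h5, map_one]
    · rw [Set.eq_univ_iff_forall]
      intro f
      obtain ⟨t, rfl⟩ := QuotientGroup.mk_surjective f
      obtain ⟨x, h, hxh⟩ := hTmul t
      refine Set.mem_mul.2 ⟨fX x, ⟨x, rfl⟩, fH h, ⟨h, rfl⟩, ?_⟩
      show (QuotientGroup.mk (inclusion le_sup_left x * inclusion le_sup_right h) :
        T ⧸ Y.subgroupOf T) = QuotientGroup.mk t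
      congr 1
      exact Subtype.ext hxh.symm
  have hKF : fX.range ≠ ⊥ := by
    intro h
    have h1 : fX ⟨x₀, hx₀Q, hx₀N⟩ ∈ fX.range := ⟨_, rfl⟩
    rw [h, mem_bot, hfX1] at h1
    exact hx₀Y h1
  have hC : fH.range ≠ ⊥ := by
    intro h
    have := (Subgroup.nontrivial_iff_ne_bot H).2 hH1
    obtain ⟨a, ha⟩ := exists_ne (1 : H)
    have h1 : fH a ∈ fH.range := ⟨_, rfl⟩
    rw [h, mem_bot] at h1
    exact ha (hinj (by rw [h1, map_one]))
  have hfpf : ∀ c ∈ fH.range, c ≠ 1 → fX.range ⊓ centralizer {c} = ⊥ := by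
    rintro _ ⟨h, rfl⟩ hc1
    have hh1 : (h : G) ≠ 1 := by
      intro h0
      apply hc1
      have : h = 1 := Subtype.ext h0
      rw [this, map_one]
    rw [eq_bot_iff]
    rintro _ ⟨⟨x, rfl⟩, hx2⟩
    rw [mem_bot, hfX1]
    have hx3 : fH h * fX x = fX x * fH h := (mem_centralizer_singleton_iff.1 hx2).symm
    have h1 : (QuotientGroup.mk (inclusion le_sup_left x * inclusion le_sup_right h) :
        T ⧸ Y.subgroupOf T)
          = QuotientGroup.mk (inclusion le_sup_right h * inclusion le_sup_left x) := hx3.symm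
    rw [QuotientGroup.eq, mem_subgroupOf] at h1
    have h2 : ((x : G) * (h : G))⁻¹ * ((h : G) * (x : G)) ∈ Y := h1
    have h3 := hcent h h.2 _ h2
    have h4 : (h : G) * (((x : G) * (h : G))⁻¹ * ((h : G) * (x : G))) * (h : G)⁻¹
        = (x : G)⁻¹ * ((h : G) * x * (h : G)⁻¹) := by group
    have h5 : (x : G)⁻¹ * ((h : G) * x * (h : G)⁻¹) ∈ Y := by
      rw [← h4, h3]; exact h2
    have h6 : (h : G) * x * (h : G)⁻¹ = x := by
      apply comm_trivial (hcent h h.2 _ h5)
      have o1 : orderOf ((x : G)⁻¹ * ((h : G) * x * (h : G)⁻¹)) ∣ Nat.card M := by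
        have := orderOf_dvd_natCard (⟨_, hQM h5.1⟩ : M)
        rwa [Subgroup.orderOf_mk] at this
      have o2 : orderOf (h : G) ∣ Nat.card H := by
        have := orderOf_dvd_natCard h
        rwa [Subgroup.orderOf_coe]
      exact Nat.Coprime.coprime_dvd_left o1 (Nat.Coprime.coprime_dvd_right o2 hcop)
    have h7 : (x : G) * h * (x : G)⁻¹ = h := by
      calc (x : G) * h * (x : G)⁻¹ = ((h : G) * x * (h : G)⁻¹) * h * (x : G)⁻¹ := by rw [h6]
        _ = h := by group
    exact ⟨x.2.1, inL hTI h.2 hh1 (by rw [h7]; exact h.2)⟩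
  exact ⟨T ⧸ Y.subgroupOf T, inferInstance, inferInstance, fH.range,
    (Cfsg.Agent.S0039.result fX.range fH.range hcompl hKF hC).2 hfpf,
    ⟨MonoidHom.ofInjective hinj⟩⟩

theorem part2 {H : Subgroup G} (hTI : Cfsg.IsTISubset (H : Set G))
    (hHall : (Nat.card H).Coprime (H.subgroupOf (normalizer (H : Set G))).index)
    (hnn : ¬ H.Normal) (M : Subgroup G) (hM : M.Normal) (hc : M.IsComplement' H) :
    ∃ (F : Type u) (_ : Group F) (_ : Finite F) (C : Subgroup F),
      Cfsg.IsFrobeniusComplement C ∧ Nonempty (H ≃* C) := by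
  have hH1 : H ≠ ⊥ := by
    rintro rfl
    exact hnn inferInstance
  have hidxH : H.index = Nat.card M := hc.index_eq_card
  have hidxM : M.index = Nat.card H := hc.symm.index_eq_card
  have hcop : (Nat.card M).Coprime (Nat.card H) := by
    rw [← hidxH]; exact (hallG hTI hHall).symm
  have hML : ¬ M ≤ normalizer (H : Set G) := by
    intro h
    apply hnn
    rw [← normalizer_eq_top_iff, eq_top_iff, ← hc.sup_eq_top]
    exact sup_le h le_normalizer
  have hr1 : (normalizer (H : Set G)).relIndex M ≠ 1 := fun h => hML (relIndex_eq_one.1 h)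
  set q := ((normalizer (H : Set G)).relIndex M).minFac with hq
  have hqp : q.Prime := Nat.minFac_prime hr1
  have : Fact q.Prime := ⟨hqp⟩
  have hqr : q ∣ (normalizer (H : Set G)).relIndex M := Nat.minFac_dvd _
  have hqM : q ∣ Nat.card M := hqr.trans (relIndex_dvd_card _ _)
  have hqH : q.Coprime (Nat.card H) := Nat.Coprime.coprime_dvd_left hqM hcop
  obtain ⟨P⟩ : Nonempty (Sylow q G) := inferInstance
  have hPM : (P : Subgroup G) ≤ M := by
    intro x hx
    apply mem_of_coprime_index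
    obtain ⟨k, hk⟩ := (IsPGroup.iff_orderOf.1 P.2) ⟨x, hx⟩
    rw [Subgroup.orderOf_mk] at hk
    rw [hk, hidxM]
    exact Nat.Coprime.pow_left k hqH
  set N := normalizer ((P : Subgroup G) : Set G) with hN
  have hfrat : N ⊔ M = ⊤ := Sylow.normalizer_sup_eq_top' P hPM
  have hidx : (M.subgroupOf N).index = Nat.card H := by
    have h1 : M.relIndex (N ⊔ M) = M.relIndex N := relIndex_sup_right N M
    rw [hfrat, relIndex_top_right, hidxM] at h1
    exact h1.symm
  have hcardMN : Nat.card (M.subgroupOf N) ∣ Nat.card M := by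
    have h1 : Nat.card ((M.subgroupOf N).map N.subtype) = Nat.card (M.subgroupOf N) :=
      card_map_of_injective N.subtype_injective
    rw [← h1, subgroupOf_map_subtype]
    exact card_dvd_of_le inf_le_left
  have hco : (Nat.card (M.subgroupOf N)).Coprime (M.subgroupOf N).index := by
    rw [hidx]
    exact Nat.Coprime.coprime_dvd_left hcardMN hcop
  obtain ⟨H₁', hH₁'⟩ := exists_right_complement'_of_coprime hco
  have hcard' : Nat.card H₁' = Nat.card H := by
    rw [← hidx]; exact hH₁'.symm.index_eq_card.symm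
  set H₁ := H₁'.map N.subtype with hH₁
  have hcard : Nat.card H₁ = Nat.card H := by
    rw [hH₁, card_map_of_injective N.subtype_injective, hcard']
  have hH₁N : H₁ ≤ N := map_subtype_le _
  have hne : H₁ ≠ ⊥ := by
    intro h
    rw [h, card_bot] at hcard
    exact hH1 (card_eq_one.1 hcard.symm)
  obtain ⟨g, hg⟩ := conjH hTI hHall H₁ hcard hne
  have hmap : H₁.map (MulAut.conj g⁻¹).toMonoidHom = H := by
    apply eq_of_le_of_card_ge
    · rintro _ ⟨v, hv, rfl⟩
      simpa using hg v hv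
    · rw [card_map_of_injective (MulAut.conj g⁻¹).injective, hcard]
  have hmem : ∀ x : G, x ∈ ((g⁻¹ • P : Sylow q G) : Subgroup G) ↔ g * x * g⁻¹ ∈ (P : Subgroup G) := by
    intro x
    rw [Sylow.coe_subgroup_smul, Subgroup.mem_pointwise_smul_iff_inv_smul_mem]
    simp [MulAut.smul_def]
  apply frob_of_invariant hTI M hM hc hcop ((g⁻¹ • P : Sylow q G) : Subgroup G)
    (g⁻¹ • P : Sylow q G).2 ?_ ?_ ?_ hH1
  · intro x hx
    have h1 := hPM ((hmem x).1 hx)
    have h2 := hM.conj_mem _ h1 g⁻¹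
    have h3 : g⁻¹ * (g * x * g⁻¹) * g⁻¹⁻¹ = x := by group
    rwa [h3] at h2
  · intro h hh x hx
    rw [← hmap] at hh
    obtain ⟨v, hv, rfl⟩ := hh
    rw [hmem] at hx ⊢
    have h1 := (mem_normalizer_iff.1 (hH₁N hv) _).1 hx
    have h2 : g * ((MulAut.conj g⁻¹).toMonoidHom v * x * ((MulAut.conj g⁻¹).toMonoidHom v)⁻¹) * g⁻¹
        = v * (g * x * g⁻¹) * v⁻¹ := by
      simp only [MulEquiv.coe_toMonoidHom, MulAut.conj_apply]
      group
    rw [h2]
    exact h1
  · intro hle
    have hP'M : ((g⁻¹ • P : Sylow q G) : Subgroup G) ≤ M := by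
      intro x hx
      have h1 := hPM ((hmem x).1 hx)
      have h2 := hM.conj_mem _ h1 g⁻¹
      have h3 : g⁻¹ * (g * x * g⁻¹) * g⁻¹⁻¹ = x := by group
      rwa [h3] at h2
    have h1 : (normalizer (H : Set G)).relIndex M ∣
        ((g⁻¹ • P : Sylow q G) : Subgroup G).relIndex M := relIndex_dvd_of_le_left M hle
    have h2 := relIndex_dvd_index_of_le hP'M
    exact (g⁻¹ • P : Sylow q G).not_dvd_index (hqr.trans (h1.trans h2))

end Cfsg.Agent.H20.TIHall
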