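import Mathlib
import Cfsg.Agent.H20.ZStarCons

/-!
More consequences of Glauberman's Z*-theorem (as a hypothesis): Sylow 2-subgroups `Q × R` with `Q`
having a unique involution.
-/

set_option autoImplicit false
set_option linter.style.haveILetI false
set_option linter.unusedSectionVars false

namespace Cfsg.Agent.H20

universe u

/-- the product over an orbit is a fixed point. -/
theorem orbit_prod_fixed {A V : Type*} [Group A] [CommGroup V] [MulDistribMulAction A V]
    [Finite V] (v : V) :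
    ∃ w : V, (∀ a : A, a • w = w) ∧ (∀ k : ℕ, v ^ k = 1 → w ^ k = 1) ∧
      ∀ H : Subgroup V, (∀ a : A, a • v = v ∨ a • v ∈ H) → v⁻¹ * w ∈ H := by
  classical
  haveI : Fintype (MulAction.orbit A v) := Fintype.ofFinite _
  refine ⟨∏ e : MulAction.orbit A v, (e : V), ?_, ?_, ?_⟩
  · intro a
    rw [Finset.smul_prod']
    exact Equiv.prod_comp (MulAction.toPerm a : Equiv.Perm (MulAction.orbit A v))
      (fun e => (e : V))
  · intro k hk
    rw [← Finset.prod_pow]
    apply Finset.prod_eq_one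
    rintro ⟨e, a, rfl⟩ _
    show (a • v) ^ k = 1
    rw [← smul_pow', hk, smul_one]
  · intro H hH
    rw [← Finset.mul_prod_erase Finset.univ (fun e : MulAction.orbit A v => (e : V))
      (Finset.mem_univ ⟨v, MulAction.mem_orbit_self v⟩)]
    rw [inv_mul_cancel_left]
    apply Subgroup.prod_mem
    rintro ⟨e, a, rfl⟩ he
    rcases hH a with h | h
    · exfalso
      apply Finset.ne_of_mem_erase he
      exact Subtype.ext h
    · exact h

section s3269

variable {G : Type u} [Group G] [Finite G]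

/-- a nontrivial `2`-element has a power of order `2` -/
theorem exists_pow_orderOf_two {k : G} (hk : k ≠ 1) (h2 : ∃ j : ℕ, orderOf k = 2 ^ j) :
    ∃ m : ℕ, orderOf (k ^ m) = 2 := by
  obtain ⟨j, hj⟩ := h2
  obtain ⟨i, rfl⟩ : ∃ i, j = i + 1 := by
    rcases j with _ | i
    · exfalso; apply hk; rw [← orderOf_eq_one_iff, hj, pow_zero]
    · exact ⟨i, rfl⟩
  refine ⟨2 ^ i, ?_⟩
  rw [orderOf_pow_of_dvd (by positivity) (by rw [hj]; exact pow_dvd_pow 2 (Nat.le_succ i)), hj,
    pow_succ, Nat.mul_div_cancel_left _ (by positivity)]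

theorem s3269_core (hZ : ZStarStmt.{u}) (S : Sylow 2 G) (Q R : Subgroup G)
    (hQS : Q ≤ S) (hRS : R ≤ S) (hcomm : ∀ a ∈ Q, ∀ b ∈ R, a * b = b * a) (hdisj : Q ⊓ R = ⊥)
    (hsup : Q ⊔ R = S) (z : G) (hzQ : z ∈ Q) (hz2 : orderOf z = 2)
    (huniq : ∀ y ∈ Q, orderOf y = 2 → y = z) (hna : ∃ a ∈ Q, ∃ b ∈ Q, a * b ≠ b * a)
    (hR : ∀ r ∈ R, orderOf r = 2 → ∀ s ∈ R, r * s = s * r) : ¬ IsSimpleGroup G := by
  classical
  haveI : Fact (Nat.Prime 2) := ⟨Nat.prime_two⟩
  have hz1 : z ≠ 1 := ne_one_of_orderOf_two hz2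
  -- decomposition of elements of `S`
  have hdec : ∀ s ∈ S, ∃ q ∈ Q, ∃ r ∈ R, s = q * r := by
    intro s hs
    have h1 : R ≤ Subgroup.normalizer (Q : Set G) := by
      intro r hr
      rw [Subgroup.mem_normalizer_iff]
      intro q
      constructor
      · intro hq
        have : r * q * r⁻¹ = q := by rw [← hcomm q hq r hr]; group
        rwa [this]
      · intro hq
        have h2 := hcomm _ hq r hr
        have : q = r * q * r⁻¹ := by
          calc q = r⁻¹ * (r * q * r⁻¹ * r) := by group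
            _ = r⁻¹ * (r * (r * q * r⁻¹)) := by rw [h2]
            _ = _ := by group
        rwa [this]
    have h2 : s ∈ ((Q ⊔ R : Subgroup G) : Set G) := by rw [hsup]; exact hs
    rw [Subgroup.coe_mul_of_right_le_normalizer_left Q R h1] at h2
    obtain ⟨q, hq, r, hr, rfl⟩ := h2
    exact ⟨q, hq, r, hr, rfl⟩
  have hS2 : ∀ s ∈ S, ∃ j : ℕ, orderOf s = 2 ^ j := by
    intro s hs
    have := IsPGroup.iff_orderOf.1 S.2 ⟨s, hs⟩
    rwa [Subgroup.orderOf_mk] at this
  -- `Q` and `R` are normalised by `S`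
  have hQn : ∀ s ∈ S, ∀ q ∈ Q, s * q * s⁻¹ ∈ Q := by
    intro s hs q hq
    obtain ⟨a, ha, b, hb, rfl⟩ := hdec s hs
    have : a * b * q * (a * b)⁻¹ = a * q * a⁻¹ := by
      calc a * b * q * (a * b)⁻¹ = a * (b * q) * b⁻¹ * a⁻¹ := by group
        _ = a * (q * b) * b⁻¹ * a⁻¹ := by rw [hcomm q hq b hb]
        _ = _ := by group
    rw [this]
    exact mul_mem (mul_mem ha hq) (inv_mem ha)
  have hRn : ∀ s ∈ S, ∀ r ∈ R, s * r * s⁻¹ ∈ R := by
    intro s hs r hr
    obtain ⟨a, ha, b, hb, rfl⟩ := hdec s hs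
    have : a * b * r * (a * b)⁻¹ = b * r * b⁻¹ := by
      calc a * b * r * (a * b)⁻¹ = (a * (b * r * b⁻¹)) * a⁻¹ := by group
        _ = ((b * r * b⁻¹) * a) * a⁻¹ := by
            rw [hcomm a ha _ (mul_mem (mul_mem hb hr) (inv_mem hb))]
        _ = _ := by group
    rw [this]
    exact mul_mem (mul_mem hb hr) (inv_mem hb)
  -- `z` is central in `Q`
  have hzc : ∀ q ∈ Q, q * z = z * q := by
    intro q hq
    have h1 := huniq (q * z * q⁻¹) (mul_mem (mul_mem hq hzQ) (inv_mem hq))
      (by rw [orderOf_conj', hz2])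
    calc q * z = (q * z * q⁻¹) * q := by group
      _ = z * q := by rw [h1]
  -- involutions of `S` are central in `S`
  have hinv : ∀ e ∈ S, orderOf e = 2 → ∀ s ∈ S, s * e = e * s := by
    intro e he he2 s hs
    obtain ⟨q, hq, r, hr, rfl⟩ := hdec e he
    have hee := mul_self_of_orderOf_two he2
    have h1 : (q * q) * (r * r) = 1 := by
      calc (q * q) * (r * r) = q * (q * r) * r := by group
        _ = q * (r * q) * r := by rw [hcomm q hq r hr]
        _ = (q * r) * (q * r) := by group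
        _ = 1 := hee
    have h2 : q * q ∈ Q ⊓ R := by
      refine Subgroup.mem_inf.2 ⟨mul_mem hq hq, ?_⟩
      have : q * q = (r * r)⁻¹ := eq_inv_of_mul_eq_one_left h1
      rw [this]
      exact inv_mem (mul_mem hr hr)
    rw [hdisj, Subgroup.mem_bot] at h2
    have h3 : r * r = 1 := by rw [h2, one_mul] at h1; exact h1
    have hqc : ∀ a ∈ Q, a * q = q * a := by
      intro a ha
      by_cases hq1 : q = 1
      · rw [hq1]; simp
      · have : orderOf q = 2 := orderOf_eq_prime (by rw [pow_two]; exact h2) hq1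
        rw [huniq q hq this]
        exact hzc a ha
    have hrc : ∀ b ∈ R, b * r = r * b := by
      intro b hb
      by_cases hr1 : r = 1
      · rw [hr1]; simp
      · have : orderOf r = 2 := orderOf_eq_prime (by rw [pow_two]; exact h3) hr1
        exact (hR r hr this b hb).symm
    obtain ⟨a, ha, b, hb, rfl⟩ := hdec s hs
    calc a * b * (q * r) = a * (b * q) * r := by group
      _ = a * (q * b) * r := by rw [hcomm q hq b hb]
      _ = (a * q) * (b * r) := by group
      _ = (q * a) * (r * b) := by rw [hqc a ha, hrc b hb]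
      _ = q * (a * r) * b := by group
      _ = q * (r * a) * b := by rw [hcomm a ha r hr]
      _ = _ := by group
  -- the dichotomy
  have hdich : ∀ n ∈ Subgroup.normalizer ((S : Subgroup G) : Set G),
      n * z * n⁻¹ = z ∨ n * z * n⁻¹ ∈ R := by
    intro n hn
    obtain ⟨a, ha, b, hb, hab⟩ := hna
    have hnS : ∀ s, s ∈ (S : Subgroup G) → n * s * n⁻¹ ∈ (S : Subgroup G) := fun s hs =>
      (Subgroup.mem_normalizer_iff.1 hn s).1 hs
    have hnS' : ∀ s, s ∈ (S : Subgroup G) → n⁻¹ * s * n ∈ (S : Subgroup G) := fun s hs => by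
      have := (Subgroup.mem_normalizer_iff.1 (inv_mem hn) s).1 hs
      simpa using this
    set a₁ := n * a * n⁻¹ with ha₁
    have ha₁S : a₁ ∈ (S : Subgroup G) := hnS a (hQS ha)
    -- an involution of `n Q n⁻¹` is `n z n⁻¹`
    have hinvol : ∀ i : G, n⁻¹ * i * n ∈ Q → orderOf i = 2 → i = n * z * n⁻¹ := by
      intro i hi hi2
      have h1 := huniq _ hi (by
        have := orderOf_conj' n⁻¹ i
        rw [inv_inv] at this
        rw [this, hi2])
      rw [← h1]; group
    -- membership of commutators in `n Q n⁻¹`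
    have hcommQ1 : ∀ s ∈ (S : Subgroup G), n⁻¹ * (a₁ * s * a₁⁻¹ * s⁻¹) * n ∈ Q := by
      intro s hs
      have h1 : n⁻¹ * (a₁ * s * a₁⁻¹ * s⁻¹) * n =
          a * ((n⁻¹ * s * n) * a⁻¹ * (n⁻¹ * s * n)⁻¹) := by
        rw [ha₁]; group
      rw [h1]
      exact mul_mem ha (hQn _ (hnS' s hs) _ (inv_mem ha))
    have hpowQ1 : ∀ (k : G) (m : ℕ), n⁻¹ * k * n ∈ Q → n⁻¹ * k ^ m * n ∈ Q := by
      intro k m hk
      have : n⁻¹ * k ^ m * n = (n⁻¹ * k * n) ^ m := by
        have := conj_pow (a := n⁻¹) (b := k) (i := m)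
        rw [inv_inv] at this
        exact this.symm
      rw [this]
      exact pow_mem hk m
    -- `a₁` does not commute with some element of `Q` or of `R`
    have hex : (∃ s ∈ Q, a₁ * s * a₁⁻¹ * s⁻¹ ≠ 1) ∨ (∃ s ∈ R, a₁ * s * a₁⁻¹ * s⁻¹ ≠ 1) := by
      by_contra hcon
      push Not at hcon
      obtain ⟨h1, h2⟩ := hcon
      obtain ⟨q, hq, r, hr, hqr⟩ := hdec (n * b * n⁻¹) (hnS b (hQS hb))
      have e1 : a₁ * q = q * a₁ := by
        have := h1 q hq
        calc a₁ * q = (a₁ * q * a₁⁻¹ * q⁻¹) * (q * a₁) := by group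
          _ = q * a₁ := by rw [this, one_mul]
      have e2 : a₁ * r = r * a₁ := by
        have := h2 r hr
        calc a₁ * r = (a₁ * r * a₁⁻¹ * r⁻¹) * (r * a₁) := by group
          _ = r * a₁ := by rw [this, one_mul]
      have e3 : a₁ * (n * b * n⁻¹) = (n * b * n⁻¹) * a₁ := by
        rw [hqr]
        calc a₁ * (q * r) = (a₁ * q) * r := by group
          _ = q * (a₁ * r) := by rw [e1]; group
          _ = q * r * a₁ := by rw [e2]; group
      apply hab
      calc a * b = n⁻¹ * (a₁ * (n * b * n⁻¹)) * n := by rw [ha₁]; group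
        _ = n⁻¹ * ((n * b * n⁻¹) * a₁) * n := by rw [e3]
        _ = b * a := by rw [ha₁]; group
    rcases hex with ⟨s, hs, hk⟩ | ⟨s, hs, hk⟩
    · left
      have hkQ : a₁ * s * a₁⁻¹ * s⁻¹ ∈ Q := mul_mem (hQn a₁ ha₁S s hs) (inv_mem hs)
      obtain ⟨m, hm⟩ := exists_pow_orderOf_two hk (hS2 _ (hQS hkQ))
      have h1 := hinvol _ (hpowQ1 _ m (hcommQ1 s (hQS hs))) hm
      rw [← h1]
      exact huniq _ (pow_mem hkQ m) hm
    · right
      have hkR : a₁ * s * a₁⁻¹ * s⁻¹ ∈ R := mul_mem (hRn a₁ ha₁S s hs) (inv_mem hs)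
      obtain ⟨m, hm⟩ := exists_pow_orderOf_two hk (hS2 _ (hRS hkR))
      have h1 := hinvol _ (hpowQ1 _ m (hcommQ1 s (hRS hs))) hm
      rw [← h1]
      exact pow_mem hkR m
  -- the abelian group `B = Z(S)` with the action of `N(S)`
  set B : Subgroup G := (S : Subgroup G) ⊓ Subgroup.centralizer ((S : Subgroup G) : Set G) with hB
  have hBc : ∀ x y : B, x * y = y * x := by
    rintro ⟨x, hx⟩ ⟨y, hy⟩
    apply Subtype.ext
    exact (Subgroup.mem_centralizer_iff.1 (Subgroup.mem_inf.1 hy).2 x (Subgroup.mem_inf.1 hx).1)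
  letI : CommGroup B := { (inferInstance : Group B) with mul_comm := hBc }
  have hBn : ∀ n ∈ Subgroup.normalizer ((S : Subgroup G) : Set G), ∀ x ∈ B, n * x * n⁻¹ ∈ B := by
    intro n hn x hx
    obtain ⟨hx1, hx2⟩ := Subgroup.mem_inf.1 hx
    refine Subgroup.mem_inf.2 ⟨(Subgroup.mem_normalizer_iff.1 hn x).1 hx1, ?_⟩
    rw [Subgroup.mem_centralizer_iff]
    intro s hs
    have hs' : n⁻¹ * s * n ∈ (S : Subgroup G) := by
      have := (Subgroup.mem_normalizer_iff.1 (inv_mem hn) s).1 hs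
      simpa using this
    have := Subgroup.mem_centralizer_iff.1 hx2 _ hs'
    calc s * (n * x * n⁻¹) = n * ((n⁻¹ * s * n) * x) * n⁻¹ := by group
      _ = n * (x * (n⁻¹ * s * n)) * n⁻¹ := by rw [this]
      _ = _ := by group
  letI : MulDistribMulAction ↥(Subgroup.normalizer ((S : Subgroup G) : Set G)) B :=
    { smul := fun n x => ⟨n * x * (n : G)⁻¹, hBn n n.2 x x.2⟩
      one_smul := fun x => Subtype.ext (by show (1 : G) * x * (1 : G)⁻¹ = x; group)
      mul_smul := fun m n x => Subtype.ext (by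
        show ((m : G) * n) * x * ((m : G) * n)⁻¹ = m * (n * x * (n : G)⁻¹) * (m : G)⁻¹; group)
      smul_mul := fun n x y => Subtype.ext (by
        show (n : G) * ((x : G) * y) * (n : G)⁻¹ = (n * x * (n : G)⁻¹) * (n * y * (n : G)⁻¹); group)
      smul_one := fun n => Subtype.ext (by show (n : G) * 1 * (n : G)⁻¹ = 1; group) }
  have hzB : z ∈ B := by
    refine Subgroup.mem_inf.2 ⟨hQS hzQ, ?_⟩
    rw [Subgroup.mem_centralizer_iff]
    intro s hs
    exact hinv z (hQS hzQ) hz2 s hs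
  obtain ⟨w, hw1, hw2, hw3⟩ := orbit_prod_fixed
    (A := ↥(Subgroup.normalizer ((S : Subgroup G) : Set G))) (V := B) ⟨z, hzB⟩
  have hwfix : ∀ n ∈ Subgroup.normalizer ((S : Subgroup G) : Set G), n * (w : G) * n⁻¹ = w :=
    fun n hn => congrArg Subtype.val (hw1 ⟨n, hn⟩)
  have hww : (w : G) ^ 2 = 1 := by
    have := hw2 2 (Subtype.ext (by
      show z ^ 2 = 1
      rw [← hz2]; exact pow_orderOf_eq_one z))
    exact congrArg Subtype.val this
  have hwR : z⁻¹ * (w : G) ∈ R := by
    have := hw3 (R.subgroupOf B) (by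
      intro n
      rcases hdich n n.2 with h | h
      · left; exact Subtype.ext h
      · right; exact Subgroup.mem_subgroupOf.2 h)
    exact Subgroup.mem_subgroupOf.1 this
  have hw1' : (w : G) ≠ 1 := by
    intro h
    rw [h, mul_one] at hwR
    have : z ∈ Q ⊓ R := Subgroup.mem_inf.2 ⟨hzQ, by simpa using inv_mem hwR⟩
    rw [hdisj, Subgroup.mem_bot] at this
    exact hz1 this
  have hwo : orderOf (w : G) = 2 := orderOf_eq_prime hww hw1'
  have hwS : (w : G) ∈ S := (Subgroup.mem_inf.1 w.2).1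
  have hwC : (w : G) ∈ Subgroup.centralizer ((S : Subgroup G) : Set G) := (Subgroup.mem_inf.1 w.2).2
  -- `w` is isolated
  have hiso : ∀ g : G, g * (w : G) * g⁻¹ ∈ S → g * (w : G) * g⁻¹ = w := by
    intro g hg
    have h1 : g * (w : G) * g⁻¹ ∈ Subgroup.centralizer ((S : Subgroup G) : Set G) := by
      rw [Subgroup.mem_centralizer_iff]
      intro s hs
      exact hinv _ hg (by rw [orderOf_conj', hwo]) s hs
    obtain ⟨n, hn, hn'⟩ := S.conj_eq_normalizer_conj_of_mem_centralizer (w : G) g⁻¹ hwC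
      (by rw [inv_inv]; exact h1)
    rw [inv_inv] at hn'
    rw [hn']
    have := hwfix n⁻¹ (inv_mem hn)
    rwa [inv_inv] at this
  obtain ⟨N, hNn, hNodd, hN⟩ := hZ S (w : G) hwo hwS hiso
  intro hsimple
  rcases hsimple.eq_bot_or_eq_top_of_normal N hNn with h | h
  · -- `w` is central
    have hwZ : (w : G) ∈ Subgroup.center G := by
      rw [Subgroup.mem_center_iff]
      intro g
      have := hN g
      rw [h, Subgroup.mem_bot] at this
      calc g * (w : G) = ((w : G) * g * (w : G)⁻¹ * g⁻¹)⁻¹ * ((w : G) * g) := by group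
        _ = w * g := by rw [this]; simp
    rcases hsimple.eq_bot_or_eq_top_of_normal (Subgroup.center G) inferInstance with h' | h'
    · rw [h', Subgroup.mem_bot] at hwZ
      exact hw1' hwZ
    · obtain ⟨a, _, b, _, hab⟩ := hna
      apply hab
      have : a ∈ Subgroup.center G := h' ▸ Subgroup.mem_top a
      exact (Subgroup.mem_center_iff.1 this b).symm
  · rw [h] at hNodd
    have h2 : 2 ∣ Nat.card G := hwo ▸ orderOf_dvd_natCard (w : G)
    rw [Nat.card_congr Subgroup.topEquiv.toEquiv] at hNodd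
    exact (Nat.not_even_iff_odd.2 hNodd) (even_iff_two_dvd.2 h2)

end s3269

end Cfsg.Agent.H20
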